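import Mathlib
import Cfsg.Agent.H511.Wt.DLStep

/-!
# The derived length of irreducible solvable groups: numerical bounds
-/

set_option autoImplicit false
set_option linter.style.haveILetI false
set_option linter.unusedSectionVars false

namespace Cfsg.Agent.H511.Wt

open Subgroup

universe u

/-- the bound -/
def gB (N : ℕ) : ℕ :=
  if N ≤ 2 then 0 else if N ≤ 3 then 1 else if N ≤ 8 then 2 else if N ≤ 63 then 4
  else if N ≤ 124 then 6 else if N ≤ 6560 then 7 else 8

theorem gB_mono {a b : ℕ} (h : a ≤ b) : gB a ≤ gB b := by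
  unfold gB
  split_ifs <;> omega

theorem num1 {w k : ℕ} (hw : 2 ≤ w) (hk : 2 ≤ k) (h : w ^ k ≤ 262144) : gB k + 1 + gB w ≤ gB (w ^ k) := by
  have hk2 : k ≤ 18 := by
    by_contra hlt
    push Not at hlt
    have h1 : 2 ^ 19 ≤ w ^ k := (Nat.pow_le_pow_right (by norm_num) hlt).trans (Nat.pow_le_pow_left hw k)
    norm_num at h1
    omega
  have hw2 : w ≤ 512 := by
    by_contra hlt
    push Not at hlt
    have h1 : 513 ^ 2 ≤ w ^ k := (Nat.pow_le_pow_left hlt 2).trans (Nat.pow_le_pow_right (by omega) hk)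
    norm_num at h1
    omega
  have main : ∀ lo c, lo ≤ w → gB w ≤ c →
      (∀ k' ∈ Finset.Icc 2 18, lo ^ k' ≤ 262144 → gB k' + 1 + c ≤ gB (lo ^ k')) →
      gB k + 1 + gB w ≤ gB (w ^ k) := by
    intro lo c h1 h2 h3
    have h4 : lo ^ k ≤ w ^ k := Nat.pow_le_pow_left h1 k
    have h5 := h3 k (Finset.mem_Icc.2 ⟨hk, hk2⟩) (h4.trans h)
    have h6 := gB_mono h4
    omega
  by_cases h1 : w ≤ 2
  · exact main 2 0 hw (by simp [gB, h1]) (by decide)
  by_cases h2 : w ≤ 3
  · exact main 3 1 (by omega) (by simp [gB, h1, h2]) (by decide)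
  by_cases h3 : w ≤ 8
  · exact main 4 2 (by omega) (by simp [gB, h1, h2, h3]) (by decide)
  by_cases h4 : w ≤ 63
  · exact main 9 4 (by omega) (by simp [gB, h1, h2, h3, h4]) (by decide)
  by_cases h5 : w ≤ 124
  · exact main 64 6 (by omega) (by simp [gB, h1, h2, h3, h4, h5]) (by decide)
  · exact main 125 7 (by omega) (by simp [gB, h1, h2, h3, h4, h5, show w ≤ 6560 by omega]) (by decide)

theorem num2 {q m : ℕ} (hq : 3 ≤ q) (hm : 2 ≤ m) (h3 : m = 3 → 4 ≤ q) (h : q ^ m ≤ 262144) :
    gB (m ^ 2) + 2 ≤ gB (q ^ m) ∧ m ^ 2 < q ^ m := by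
  have hm2 : m ≤ 11 := by
    by_contra hlt
    push Not at hlt
    have h1 : 3 ^ 12 ≤ q ^ m := (Nat.pow_le_pow_right (by norm_num) hlt).trans (Nat.pow_le_pow_left hq m)
    norm_num at h1
    omega
  have key : ∀ m' ∈ Finset.Icc 2 11, m' ≠ 3 → gB (m' ^ 2) + 2 ≤ gB (3 ^ m') ∧ m' ^ 2 < 3 ^ m' := by decide
  by_cases hm3 : m = 3
  · subst hm3
    have h1 : 4 ^ 3 ≤ q ^ 3 := Nat.pow_le_pow_left (h3 rfl) 3
    have h2 := gB_mono h1
    have h4 : gB (3 ^ 2) + 2 ≤ gB (4 ^ 3) ∧ 3 ^ 2 < 4 ^ 3 := by decide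
    omega
  · have h1 : 3 ^ m ≤ q ^ m := Nat.pow_le_pow_left hq m
    have h2 := gB_mono h1
    have h4 := key m (Finset.mem_Icc.2 ⟨hm, hm2⟩) hm3
    omega

/-- **The derived length of an irreducible solvable linear group.** -/
theorem dln (N : ℕ) (hN : N ≤ 262144) : DLn.{u} N (gB N) := by
  induction N using Nat.strong_induction_on with
  | _ N ih =>
    by_cases h2 : N = 2
    · subst h2
      exact dln_two.mono (Nat.zero_le _)
    by_cases h3 : N = 3
    · subst h3
      exact (dln_prime Nat.prime_three).mono (by decide)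
    intro G V _ _ _ _ _ _ hirr hcard
    have hnt := hirr.nt
    have hN1 : 1 < N := by
      rw [← hcard]
      exact Finite.one_lt_card
    rcases dl_cases G V hirr with ⟨w, k, hw, hk, hwk, h⟩ | ⟨q, m, s, hq, hm, hqm, hs, _, hs0, hr, hs1, h⟩
    · rw [hcard] at hwk
      have hlt1 : w < N := by
        rw [hwk]
        calc w = w ^ 1 := (pow_one w).symm
          _ < w ^ k := Nat.pow_lt_pow_right (by omega) (by omega)
      have hlt2 : k < N := by
        rw [hwk]
        exact Nat.lt_pow_self (by omega)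
      have h1 := h _ _ (ih w hlt1 (by omega)) (ih k hlt2 (by omega))
      refine h1.mono ?_
      rw [hwk]
      exact num1 hw hk (hwk ▸ hN)
    · rw [hcard] at hqm
      by_cases hs' : s = 1
      · refine (hs1 hs').mono ?_
        have : gB 4 ≤ gB N := gB_mono (by omega)
        have h4 : gB 4 = 2 := by decide
        omega
      · obtain ⟨r, hrp, hrs⟩ := Nat.exists_prime_and_dvd hs'
        obtain ⟨hr1, hr2⟩ := hr r hrp hrs
        have hq2 := hq.two_le
        have h5 : r ≤ q - 1 := Nat.le_of_dvd (by omega) hr1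
        have h6 : r ≤ m := Nat.le_of_dvd hm hr2
        have h7 := hrp.two_le
        have hnum := num2 (q := q) (m := m) (by omega) (by omega) (by
          intro hm3
          subst hm3
          have := (Nat.prime_dvd_prime_iff_eq hrp Nat.prime_three).1 hr2
          omega) (hqm ▸ hN)
        refine (h (gB (m ^ 2)) ?_ ?_).mono (by rw [hqm]; exact hnum.1)
        · have : gB 4 ≤ gB (m ^ 2) := gB_mono (by nlinarith)
          have h4 : gB 4 = 2 := by decide
          omega
        · intro n hn hn1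
          have h8 : n ≤ m ^ 2 := (Nat.le_of_dvd hs0 hn).trans hs
          have h9 : n < N := by
            rw [hqm]
            exact lt_of_le_of_lt h8 hnum.2
          exact (ih n h9 (by omega)).mono (gB_mono h8)

theorem pow_eq_prime_pow {p a w k : ℕ} (hp : p.Prime) (hk : k ≠ 0) (h : w ^ k = p ^ a) : ∃ i, w = p ^ i ∧ i * k = a := by
  have h1 : w ∣ p ^ a := by
    rw [← h]
    exact dvd_pow_self w hk
  obtain ⟨i, _, rfl⟩ := (Nat.dvd_prime_pow hp).1 h1
  refine ⟨i, rfl, ?_⟩
  rw [← pow_mul] at h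
  exact Nat.pow_right_injective hp.two_le h

/-- refined bounds: a criterion -/
theorem dln_of {N D : ℕ} (f : ℕ → ℕ) (hf : ∀ n < N, DLn.{u} n (f n)) (hD : 2 ≤ D)
    (c1 : ∀ w k, 2 ≤ w → 2 ≤ k → w ^ k = N → f k + 1 + f w ≤ D)
    (c2 : ∀ q m, IsPrimePow q → 1 ≤ m → q ^ m = N → ∀ r, r.Prime → r ∣ q - 1 → r ∣ m → ∀ s, s ≤ m ^ 2 →
      (∀ r', r'.Prime → r' ∣ s → r' ∣ q - 1 ∧ r' ∣ m) → ∀ n, n ∣ s → 1 < n → 0 < s →
      n < N ∧ f n + 2 ≤ D) (hD3 : 3 ≤ D) :
    DLn.{u} N D := by
  intro G V _ _ _ _ _ _ hirr hcard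
  rcases dl_cases G V hirr with ⟨w, k, hw, hk, hwk, h⟩ | ⟨q, m, s, hq, hm, hqm, hs, _, hs0, hr, hs1, h⟩
  · rw [hcard] at hwk
    have hlt1 : w < N := by
      rw [hwk]
      calc w = w ^ 1 := (pow_one w).symm
        _ < w ^ k := Nat.pow_lt_pow_right (by omega) (by omega)
    have hlt2 : k < N := by
      rw [hwk]
      exact Nat.lt_pow_self (by omega)
    exact (h _ _ (hf w hlt1) (hf k hlt2)).mono (c1 w k hw hk hwk.symm)
  · rw [hcard] at hqm
    by_cases hs' : s = 1
    · exact (hs1 hs').mono hD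
    · obtain ⟨r, hrp, hrs⟩ := Nat.exists_prime_and_dvd hs'
      obtain ⟨hr1, hr2⟩ := hr r hrp hrs
      have h1 : DL G V (D - 2 + 2) := by
        refine h (D - 2) (by omega) ?_
        intro n hn hn1
        obtain ⟨h3, h4⟩ := c2 q m hq hm hqm.symm r hrp hr1 hr2 s hs hr n hn hn1 hs0
        exact (hf n h3).mono (by omega)
      rwa [Nat.sub_add_cancel hD] at h1

theorem dln_prime_sq {p : ℕ} (hp : p.Prime) : DLn.{u} (p ^ 2) 4 := by
  intro G V _ _ _ _ _ _ hirr hcard
  rcases dl_cases G V hirr with ⟨w, k, hw, hk, hwk, h⟩ | ⟨q, m, s, hq, hm, hqm, hs, _, hs0, hr, hs1, h⟩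
  · rw [hcard] at hwk
    obtain ⟨i, rfl, hi⟩ := pow_eq_prime_pow hp (by omega) hwk.symm
    have h1 : i = 1 ∧ k = 2 := by
      have : i ≠ 0 := by
        rintro rfl
        simp at hi
      have : k ∣ 2 := ⟨i, by rw [← hi, mul_comm]⟩
      have hk2 : k = 2 := by
        rcases (Nat.dvd_prime Nat.prime_two).1 this with h | h
        · omega
        · exact h
      subst hk2
      omega
    obtain ⟨rfl, rfl⟩ := h1
    rw [pow_one] at h
    exact (h 1 0 (dln_prime hp) dln_two).mono (by norm_num)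
  · rw [hcard] at hqm
    obtain ⟨i, rfl, hi⟩ := pow_eq_prime_pow hp (by omega) hqm.symm
    have h1 : m ≤ 2 := Nat.le_of_dvd (by norm_num) ⟨i, by rw [← hi, mul_comm]⟩
    refine h 2 (by norm_num) ?_
    intro n hn hn1
    have h2 : n ≤ 4 := (Nat.le_of_dvd hs0 hn).trans (hs.trans (by nlinarith))
    refine (dln n (by omega)).mono ((gB_mono h2).trans (by decide))

theorem dln_16 : DLn.{u} 16 3 := by
  refine dln_of gB (fun n hn => dln n (by omega)) (by norm_num) ?_ ?_ (by norm_num)
  · intro w k hw hk hwk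
    obtain ⟨i, rfl, hi⟩ := pow_eq_prime_pow (w := w) (k := k) (a := 4) Nat.prime_two (by omega) (by rw [hwk]; norm_num)
    have h1 : k ≤ 4 := Nat.le_of_dvd (by norm_num) ⟨i, by rw [← hi, mul_comm]⟩
    interval_cases k
    · obtain rfl : i = 2 := by omega
      decide
    · omega
    · obtain rfl : i = 1 := by omega
      decide
  · intro q m hq hm hqm r hr hr1 hr2
    exfalso
    obtain ⟨i, rfl, hi⟩ := pow_eq_prime_pow (w := q) (k := m) (a := 4) Nat.prime_two (by omega) (by rw [hqm]; norm_num)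
    have h1 : m ≤ 4 := Nat.le_of_dvd (by norm_num) ⟨i, by rw [← hi, mul_comm]⟩
    interval_cases m
    · exact hr.one_lt.ne' (Nat.dvd_one.1 hr2)
    · obtain rfl : i = 2 := by omega
      have := (Nat.prime_dvd_prime_iff_eq hr Nat.prime_two).1 hr2
      subst this
      norm_num at hr1
    · omega
    · obtain rfl : i = 1 := by omega
      norm_num at hr1
      exact hr.one_lt.ne' hr1

theorem dln_128 : DLn.{u} 128 5 := by
  refine dln_of gB (fun n hn => dln n (by omega)) (by norm_num) ?_ ?_ (by norm_num)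
  · intro w k hw hk hwk
    obtain ⟨i, rfl, hi⟩ := pow_eq_prime_pow (w := w) (k := k) (a := 7) Nat.prime_two (by omega) (by rw [hwk]; norm_num)
    have h1 : k ≤ 7 := Nat.le_of_dvd (by norm_num) ⟨i, by rw [← hi, mul_comm]⟩
    interval_cases k <;> try omega
    obtain rfl : i = 1 := by omega
    decide
  · intro q m hq hm hqm r hr hr1 hr2
    exfalso
    obtain ⟨i, rfl, hi⟩ := pow_eq_prime_pow (w := q) (k := m) (a := 7) Nat.prime_two (by omega) (by rw [hqm]; norm_num)
    have h1 : m ≤ 7 := Nat.le_of_dvd (by norm_num) ⟨i, by rw [← hi, mul_comm]⟩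
    interval_cases m <;> try omega
    · exact hr.one_lt.ne' (Nat.dvd_one.1 hr2)
    · obtain rfl : i = 1 := by omega
      norm_num at hr1
      exact hr.one_lt.ne' hr1

theorem dln_256 : DLn.{u} 256 5 := by
  refine dln_of gB (fun n hn => dln n (by omega)) (by norm_num) ?_ ?_ (by norm_num)
  · intro w k hw hk hwk
    obtain ⟨i, rfl, hi⟩ := pow_eq_prime_pow (w := w) (k := k) (a := 8) Nat.prime_two (by omega) (by rw [hwk]; norm_num)
    have h1 : k ≤ 8 := Nat.le_of_dvd (by norm_num) ⟨i, by rw [← hi, mul_comm]⟩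
    interval_cases k <;> try omega
    · obtain rfl : i = 4 := by omega
      decide
    · obtain rfl : i = 2 := by omega
      decide
    · obtain rfl : i = 1 := by omega
      decide
  · intro q m hq hm hqm r hr hr1 hr2
    exfalso
    obtain ⟨i, rfl, hi⟩ := pow_eq_prime_pow (w := q) (k := m) (a := 8) Nat.prime_two (by omega) (by rw [hqm]; norm_num)
    have h1 : m ≤ 8 := Nat.le_of_dvd (by norm_num) ⟨i, by rw [← hi, mul_comm]⟩
    interval_cases m <;> try omega
    · exact hr.one_lt.ne' (Nat.dvd_one.1 hr2)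
    · obtain rfl : i = 4 := by omega
      have := (Nat.prime_dvd_prime_iff_eq hr Nat.prime_two).1 hr2
      subst this
      norm_num at hr1
    · obtain rfl : i = 2 := by omega
      have h2 : r ∣ 2 ^ 2 := hr2
      have := (Nat.prime_dvd_prime_iff_eq hr Nat.prime_two).1 (hr.dvd_of_dvd_pow h2)
      subst this
      norm_num at hr1
    · obtain rfl : i = 1 := by omega
      norm_num at hr1
      exact hr.one_lt.ne' hr1

theorem dln_512 : DLn.{u} 512 5 := by
  refine dln_of gB (fun n hn => dln n (by omega)) (by norm_num) ?_ ?_ (by norm_num)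
  · intro w k hw hk hwk
    obtain ⟨i, rfl, hi⟩ := pow_eq_prime_pow (w := w) (k := k) (a := 9) Nat.prime_two (by omega) (by rw [hwk]; norm_num)
    have h1 : k ≤ 9 := Nat.le_of_dvd (by norm_num) ⟨i, by rw [← hi, mul_comm]⟩
    interval_cases k <;> try omega
    · obtain rfl : i = 3 := by omega
      decide
    · obtain rfl : i = 1 := by omega
      decide
  · intro q m hq hm hqm r hr hr1 hr2
    exfalso
    obtain ⟨i, rfl, hi⟩ := pow_eq_prime_pow (w := q) (k := m) (a := 9) Nat.prime_two (by omega) (by rw [hqm]; norm_num)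
    have h1 : m ≤ 9 := Nat.le_of_dvd (by norm_num) ⟨i, by rw [← hi, mul_comm]⟩
    interval_cases m <;> try omega
    · exact hr.one_lt.ne' (Nat.dvd_one.1 hr2)
    · obtain rfl : i = 3 := by omega
      have := (Nat.prime_dvd_prime_iff_eq hr Nat.prime_three).1 hr2
      subst this
      norm_num at hr1
    · obtain rfl : i = 1 := by omega
      norm_num at hr1
      exact hr.one_lt.ne' hr1

theorem dln_1024 : DLn.{u} 1024 5 := by
  refine dln_of gB (fun n hn => dln n (by omega)) (by norm_num) ?_ ?_ (by norm_num)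
  · intro w k hw hk hwk
    obtain ⟨i, rfl, hi⟩ := pow_eq_prime_pow (w := w) (k := k) (a := 10) Nat.prime_two (by omega) (by rw [hwk]; norm_num)
    have h1 : k ≤ 10 := Nat.le_of_dvd (by norm_num) ⟨i, by rw [← hi, mul_comm]⟩
    interval_cases k <;> try omega
    · obtain rfl : i = 5 := by omega
      decide
    · obtain rfl : i = 2 := by omega
      decide
    · obtain rfl : i = 1 := by omega
      decide
  · intro q m hq hm hqm r hr hr1 hr2
    exfalso
    obtain ⟨i, rfl, hi⟩ := pow_eq_prime_pow (w := q) (k := m) (a := 10) Nat.prime_two (by omega) (by rw [hqm]; norm_num)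
    have h1 : m ≤ 10 := Nat.le_of_dvd (by norm_num) ⟨i, by rw [← hi, mul_comm]⟩
    interval_cases m <;> try omega
    · exact hr.one_lt.ne' (Nat.dvd_one.1 hr2)
    · obtain rfl : i = 5 := by omega
      have := (Nat.prime_dvd_prime_iff_eq hr Nat.prime_two).1 hr2
      subst this
      norm_num at hr1
    · obtain rfl : i = 2 := by omega
      have := (Nat.prime_dvd_prime_iff_eq hr Nat.prime_five).1 hr2
      subst this
      norm_num at hr1
    · obtain rfl : i = 1 := by omega
      norm_num at hr1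
      exact hr.one_lt.ne' hr1

theorem dln_81 : DLn.{u} 81 5 := by
  refine dln_of (fun n => if n = 16 then 3 else gB n) (fun n hn => ?_) (by norm_num) ?_ ?_ (by norm_num)
  · by_cases h : n = 16
    · rw [if_pos h, h]
      exact dln_16
    · rw [if_neg h]
      exact dln n (by omega)
  · intro w k hw hk hwk
    obtain ⟨i, rfl, hi⟩ := pow_eq_prime_pow (w := w) (k := k) (a := 4) Nat.prime_three (by omega) (by rw [hwk]; norm_num)
    have h1 : k ≤ 4 := Nat.le_of_dvd (by norm_num) ⟨i, by rw [← hi, mul_comm]⟩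
    interval_cases k <;> try omega
    · obtain rfl : i = 2 := by omega
      decide
    · obtain rfl : i = 1 := by omega
      decide
  · intro q m hq hm hqm r hr hr1 hr2 s hs hrs n hn hn1 hs0
    obtain ⟨i, rfl, hi⟩ := pow_eq_prime_pow (w := q) (k := m) (a := 4) Nat.prime_three (by omega) (by rw [hqm]; norm_num)
    have h1 : m ≤ 4 := Nat.le_of_dvd (by norm_num) ⟨i, by rw [← hi, mul_comm]⟩
    have hns : n ≤ s := Nat.le_of_dvd hs0 hn
    interval_cases m <;> try omega
    · -- `q = 9`, `s ≤ 4`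
      have h2 : n ≤ 4 := by omega
      refine ⟨by omega, ?_⟩
      interval_cases n <;> decide
    · -- `q = 3`, `s ≤ 16`
      obtain rfl : i = 1 := by omega
      have h2 : n ≤ 16 := by omega
      refine ⟨by omega, ?_⟩
      -- `n` is a power of `2`
      have h3 : ∀ r', r'.Prime → r' ∣ n → r' = 2 := by
        intro r' hr' hrn
        have h4 := (hrs r' hr' (hrn.trans hn)).1
        norm_num at h4
        exact (Nat.prime_dvd_prime_iff_eq hr' Nat.prime_two).1 h4
      interval_cases n
      all_goals first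
        | decide
        | exact absurd (h3 3 Nat.prime_three (by decide)) (by decide)
        | exact absurd (h3 5 Nat.prime_five (by decide)) (by decide)
        | exact absurd (h3 7 (by norm_num) (by decide)) (by decide)
        | exact absurd (h3 11 (by norm_num) (by decide)) (by decide)
        | exact absurd (h3 13 (by norm_num) (by decide)) (by decide)

end Cfsg.Agent.H511.Wt
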