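import Mathlib
import Cfsg.Agent.H511.Wt.Chain

/-!
# Numerical estimates
-/

set_option autoImplicit false
set_option linter.style.haveILetI false
set_option linter.unusedSectionVars false
set_option exponentiation.threshold 2000

namespace Cfsg.Agent.H511.Wt

theorem pow_om_le {p e : ℕ} (he : e ≠ 0) (h : ∀ r, r.Prime → r ∣ e → p ≤ r) : p ^ om e ≤ e := by
  conv_rhs => rw [← Nat.prod_primeFactorsList he]
  apply List.pow_card_le_prod
  intro x hx
  exact h x (Nat.prime_of_mem_primeFactorsList hx) (Nat.dvd_of_mem_primeFactorsList hx)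

theorem two_pow_om_le {e : ℕ} (he : e ≠ 0) : 2 ^ om e ≤ e := pow_om_le he fun _ hr _ => hr.two_le

theorem om_pow {p a : ℕ} (hp : p.Prime) : om (p ^ a) = a := by
  unfold om
  rw [Nat.Prime.primeFactorsList_pow hp, List.length_replicate]

theorem om_sq {e : ℕ} (he : e ≠ 0) : om (e ^ 2) = 2 * om e := by
  rw [sq, om_mul he he]
  ring

theorem succ_pow_le {n k : ℕ} (h : k ≤ n) : (n + 1) ^ k ≤ 3 * n ^ k := by
  rcases Nat.eq_zero_or_pos n with hn | hn
  · subst hn
    obtain rfl : k = 0 := by omega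
    norm_num
  have hn' : (0 : ℝ) < n := by exact_mod_cast hn
  have h1 : (1 + 1 / (n : ℝ)) ^ k ≤ 3 := by
    have h2 : (1 + 1 / (n : ℝ)) ≤ Real.exp (1 / n) := by
      have := Real.add_one_le_exp (1 / (n : ℝ))
      linarith
    calc (1 + 1 / (n : ℝ)) ^ k ≤ Real.exp (1 / n) ^ k := by
          refine pow_le_pow_left₀ (by positivity) h2 k
      _ = Real.exp (k * (1 / n)) := by rw [← Real.exp_nat_mul]
      _ ≤ Real.exp 1 := by
          apply Real.exp_le_exp.2
          rw [mul_one_div, div_le_one hn']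
          exact_mod_cast h
      _ ≤ 3 := by
          have := Real.exp_one_lt_d9
          linarith
  have h3 : ((n : ℝ) + 1) ^ k ≤ 3 * (n : ℝ) ^ k := by
    have h4 : ((n : ℝ) + 1) = (1 + 1 / (n : ℝ)) * n := by field_simp
    rw [h4, mul_pow]
    exact mul_le_mul_of_nonneg_right h1 (by positivity)
  exact_mod_cast h3

theorem growth {b k e₀ C t : ℕ} (hb : 3 ≤ b) (hk : k ≤ e₀) (ht : t ≤ e₀) (h0 : C * e₀ ^ k ≤ b ^ (e₀ - t)) {e : ℕ}
    (he : e₀ ≤ e) : C * e ^ k ≤ b ^ (e - t) := by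
  induction he with
  | refl => exact h0
  | @step e he ih =>
    have h1 : (e + 1) ^ k ≤ 3 * e ^ k := succ_pow_le (hk.trans he)
    have h2 : e + 1 - t = (e - t) + 1 := by
      have : e₀ ≤ e := he
      omega
    rw [h2, pow_succ]
    calc C * (e + 1) ^ k ≤ C * (3 * e ^ k) := Nat.mul_le_mul_left _ h1
      _ = (C * e ^ k) * 3 := by ring
      _ ≤ b ^ (e - t) * b := Nat.mul_le_mul ih hb

/-- large `e` -/
theorem numA0 {e : ℕ} (he : 513 ≤ e) : e ^ (8 * om e + 12) ≤ 3 ^ (e - 11) := by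
  have h2 := two_pow_om_le (e := e) (by omega)
  by_cases h : om e ≤ 9
  · calc e ^ (8 * om e + 12) ≤ e ^ 84 := Nat.pow_le_pow_right (by omega) (by omega)
      _ = 1 * e ^ 84 := (one_mul _).symm
      _ ≤ 3 ^ (e - 11) := growth (e₀ := 513) le_rfl (by norm_num) (by norm_num) (by norm_num) he
  · have key : ∀ a, 10 ≤ a → a * (8 * a + 12) ≤ 2 ^ a - 11 ∧ 8 * a + 12 ≤ 2 ^ a ∧ 11 ≤ 2 ^ a := by
      intro a ha
      induction ha with
      | refl => norm_num
      | @step a ha ih =>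
        have ha' : 10 ≤ a := ha
        obtain ⟨h1, h3, h4⟩ := ih
        have h5 : 2 ^ (a + 1) = 2 * 2 ^ a := by ring
        have h6 : a * (8 * a + 12) + 11 ≤ 2 ^ a := by omega
        refine ⟨?_, ?_, ?_⟩
        · have h7 : (a + 1) * (8 * (a + 1) + 12) + 11 ≤ 2 * (a * (8 * a + 12) + 11) := by nlinarith
          change (a + 1) * (8 * (a + 1) + 12) ≤ 2 ^ (a + 1) - 11
          omega
        · omega
        · omega
    obtain ⟨h1, h3, h4⟩ := key (om e) (by omega)
    have h5 : 1 * e ^ (8 * om e + 12) ≤ 3 ^ (e - 11) := by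
      refine growth (e₀ := 2 ^ om e) le_rfl h3 h4 ?_ h2
      rw [one_mul, ← pow_mul]
      calc 2 ^ (om e * (8 * om e + 12)) ≤ 3 ^ (om e * (8 * om e + 12)) := Nat.pow_le_pow_left (by norm_num) _
        _ ≤ 3 ^ (2 ^ om e - 11) := Nat.pow_le_pow_right (by norm_num) h1
    rwa [one_mul] at h5

theorem log_le {q : ℕ} (_hq : 1 ≤ q) : Nat.log 2 q ≤ q := Nat.log_le_self 2 q

theorem numA {q e m : ℕ} (hq : 3 ≤ q) (he : 513 ≤ e) (hm : e ≤ m) :
    (2 * ((q - 1) * e ^ 2 * e ^ (2 * om e + 1) * Nat.log 2 q)) ^ 4 ≤ q ^ m := by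
  have h0 := numA0 he
  have h1 : (q - 1) * e ^ 2 * e ^ (2 * om e + 1) * Nat.log 2 q ≤ q * e ^ 2 * e ^ (2 * om e + 1) * q :=
    Nat.mul_le_mul (Nat.mul_le_mul_right _ (Nat.mul_le_mul_right _ (Nat.sub_le _ _))) (Nat.log_le_self 2 q)
  calc (2 * ((q - 1) * e ^ 2 * e ^ (2 * om e + 1) * Nat.log 2 q)) ^ 4
      ≤ (2 * (q * e ^ 2 * e ^ (2 * om e + 1) * q)) ^ 4 := Nat.pow_le_pow_left (Nat.mul_le_mul_left _ h1) 4
    _ = 16 * (q ^ 8 * e ^ (8 * om e + 12)) := by ring
    _ ≤ q ^ 3 * (q ^ 8 * q ^ (e - 11)) := by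
        refine Nat.mul_le_mul ?_ (Nat.mul_le_mul_left _ (h0.trans (Nat.pow_le_pow_left hq _)))
        calc 16 ≤ 3 ^ 3 := by norm_num
          _ ≤ q ^ 3 := Nat.pow_le_pow_left hq 3
    _ = q ^ e := by
        rw [← pow_add, ← pow_add]
        congr 1
        omega
    _ ≤ q ^ m := Nat.pow_le_pow_right (by omega) hm

/-- from the reduced inequality to the orbit count -/
theorem numB_of {q e m X : ℕ} (hq : 3 ≤ q) (he : 3 ≤ e) (hX : 4 * X ≤ q ^ (e - 2)) (hm : e ≤ m) :
    4 * ((q - 1) * X * Nat.log 2 q) < q ^ m - 1 := by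
  have h1 : 4 * ((q - 1) * X * Nat.log 2 q) ≤ (q - 1) * q ^ (e - 1) := by
    calc 4 * ((q - 1) * X * Nat.log 2 q) ≤ 4 * ((q - 1) * X * q) :=
          Nat.mul_le_mul_left _ (Nat.mul_le_mul_left _ (Nat.log_le_self 2 q))
      _ = (q - 1) * ((4 * X) * q) := by ring
      _ ≤ (q - 1) * (q ^ (e - 2) * q) := Nat.mul_le_mul_left _ (Nat.mul_le_mul_right _ hX)
      _ = (q - 1) * q ^ (e - 1) := by
          rw [← pow_succ]
          congr 2
          omega
  have h2 : (q - 1) * q ^ (e - 1) + q ^ (e - 1) = q ^ e := by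
    have h3 : q ^ e = q * q ^ (e - 1) := by
      rw [← pow_succ']
      congr 1
      omega
    rw [h3]
    obtain ⟨r, rfl⟩ : ∃ r, q = r + 1 := ⟨q - 1, by omega⟩
    rw [Nat.add_sub_cancel]
    ring
  have h3 : 3 ^ 2 ≤ q ^ (e - 1) :=
    (Nat.pow_le_pow_left hq 2).trans (Nat.pow_le_pow_right (by omega) (by omega))
  have h4 : q ^ e ≤ q ^ m := Nat.pow_le_pow_right (by omega) hm
  omega

theorem odd_om {e : ℕ} (he : e ≠ 0) (h : ¬ 2 ∣ e) : 3 ^ om e ≤ e := by
  refine pow_om_le he fun r hr hre => ?_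
  have h1 := hr.two_le
  have h2 : r ≠ 2 := by
    rintro rfl
    exact h hre
  omega

theorem numB1 {q e : ℕ} (hr : ∀ r, r.Prime → r ∣ e → r ∣ q - 1) (hq : 2 ≤ q) (he : 17 ≤ e) (he2 : e ≤ 512)
    (h32 : e ≠ 32) : 3 ≤ q ∧ 4 * (e ^ (2 * om e + 3)) ≤ q ^ (e - 2) := by
  obtain ⟨r₀, hr₀, hr₀e⟩ := Nat.exists_prime_and_dvd (show e ≠ 1 by omega)
  have h1 := Nat.le_of_dvd (by omega) (hr r₀ hr₀ hr₀e)
  have h2 := hr₀.two_le
  have hq3 : 3 ≤ q := by omega
  refine ⟨hq3, ?_⟩
  by_cases h2e : 2 ∣ e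
  · by_cases hodd : ∃ r, r.Prime ∧ r ∣ e ∧ r ≠ 2
    · -- even, not a power of two
      obtain ⟨r, hrp, hre, hr2⟩ := hodd
      have h3 : 2 * r ∣ q - 1 := by
        refine Nat.Coprime.mul_dvd_of_dvd_of_dvd ?_ (hr 2 Nat.prime_two h2e) (hr r hrp hre)
        exact (Nat.coprime_primes Nat.prime_two hrp).2 (Ne.symm hr2)
      have h4 := Nat.le_of_dvd (by omega) h3
      have h5 := hrp.two_le
      have hq7 : 7 ≤ q := by omega
      -- the number of prime factors
      have hom : 1 ≤ om e ∧ 3 * 2 ^ (om e - 1) ≤ e := by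
        obtain ⟨k, rfl⟩ := hre
        have hk : k ≠ 0 := by rintro rfl; omega
        have h6 : om (r * k) = om k + 1 := by rw [om_mul hrp.ne_zero hk, om_prime hrp, add_comm]
        have h7 := two_pow_om_le hk
        refine ⟨by omega, ?_⟩
        rw [h6, Nat.add_sub_cancel]
        exact Nat.mul_le_mul (by omega) h7
      obtain ⟨ho1, ho2⟩ := hom
      have ho3 : om e ≤ 8 := by
        by_contra hlt
        push Not at hlt
        have : 2 ^ 8 ≤ 2 ^ (om e - 1) := Nat.pow_le_pow_right (by norm_num) (by omega)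
        omega
      have he18 : 18 ≤ e := by omega
      have fin : ∀ c e₀, c ≤ 8 → om e = c → e₀ ≤ e → 2 * c + 3 ≤ e₀ → 4 * e₀ ^ (2 * c + 3) ≤ 7 ^ (e₀ - 2) →
          4 * e ^ (2 * om e + 3) ≤ q ^ (e - 2) := by
        intro c e₀ _ hc h7 h8 h9
        rw [hc]
        exact (growth (b := 7) (by norm_num) h8 (by omega) h9 h7).trans (Nat.pow_le_pow_left hq7 _)
      obtain hc | hc | hc | hc | hc | hc | hc | hc : om e = 1 ∨ om e = 2 ∨ om e = 3 ∨ om e = 4 ∨ om e = 5 ∨ om e = 6 ∨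
        om e = 7 ∨ om e = 8 := by omega
      · exact fin 1 18 (by norm_num) hc he18 (by norm_num) (by norm_num)
      · exact fin 2 18 (by norm_num) hc he18 (by norm_num) (by norm_num)
      · exact fin 3 18 (by norm_num) hc he18 (by norm_num) (by norm_num)
      · rw [hc] at ho2
        exact fin 4 24 (by norm_num) hc (by omega) (by norm_num) (by norm_num)
      · rw [hc] at ho2
        exact fin 5 48 (by norm_num) hc (by omega) (by norm_num) (by norm_num)
      · rw [hc] at ho2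
        exact fin 6 96 (by norm_num) hc (by omega) (by norm_num) (by norm_num)
      · rw [hc] at ho2
        exact fin 7 192 (by norm_num) hc (by omega) (by norm_num) (by norm_num)
      · rw [hc] at ho2
        exact fin 8 384 (by norm_num) hc (by omega) (by norm_num) (by norm_num)
    · -- a power of two
      have h3 : e = 2 ^ om e := by
        have h4 : ∀ x ∈ e.primeFactorsList, x = 2 := by
          intro x hx
          by_contra hne
          exact hodd ⟨x, Nat.prime_of_mem_primeFactorsList hx, Nat.dvd_of_mem_primeFactorsList hx, hne⟩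
        have h5 := Nat.prod_primeFactorsList (show e ≠ 0 by omega)
        rw [List.eq_replicate_of_mem h4, List.prod_replicate] at h5
        exact h5.symm
      have h4 : om e ≤ 9 := by
        by_contra hlt
        push Not at hlt
        have : 2 ^ 10 ≤ 2 ^ om e := Nat.pow_le_pow_right (by norm_num) hlt
        omega
      have h5 : 5 ≤ om e := by
        by_contra hlt
        push Not at hlt
        have : 2 ^ om e ≤ 2 ^ 4 := Nat.pow_le_pow_right (by norm_num) (by omega)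
        omega
      have h6 : om e ≠ 5 := by
        intro h
        rw [h] at h3
        exact h32 h3
      have fin : 4 * e ^ (2 * om e + 3) ≤ 3 ^ (e - 2) := by
        obtain hc | hc | hc | hc : om e = 6 ∨ om e = 7 ∨ om e = 8 ∨ om e = 9 := by omega
        all_goals
          rw [hc] at h3 ⊢
          subst h3
          norm_num
      exact fin.trans (Nat.pow_le_pow_left hq3 _)
  · -- odd
    have hr2 : r₀ ≠ 2 := by
      rintro rfl
      exact h2e hr₀e
    have hq4 : 4 ≤ q := by omega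
    have ho := odd_om (show e ≠ 0 by omega) h2e
    have ho5 : om e ≤ 5 := by
      by_contra hlt
      push Not at hlt
      have : 3 ^ 6 ≤ 3 ^ om e := Nat.pow_le_pow_right (by norm_num) hlt
      omega
    by_cases h17 : e = 17
    · subst h17
      have h3 : om 17 = 1 := om_prime (by norm_num)
      rw [h3]
      calc 4 * 17 ^ (2 * 1 + 3) ≤ 4 ^ (17 - 2) := by norm_num
        _ ≤ q ^ (17 - 2) := Nat.pow_le_pow_left hq4 _
    have he19 : 19 ≤ e := by omega
    have fin : ∀ c e₀, c ≤ 8 → om e = c → e₀ ≤ e → 2 * c + 3 ≤ e₀ → 4 * e₀ ^ (2 * c + 3) ≤ 4 ^ (e₀ - 2) →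
        4 * e ^ (2 * om e + 3) ≤ q ^ (e - 2) := by
      intro c e₀ _ hc h7 h8 h9
      rw [hc]
      exact (growth (b := 4) (by norm_num) h8 (by omega) h9 h7).trans (Nat.pow_le_pow_left hq4 _)
    obtain hc | hc | hc | hc | hc | hc : om e = 0 ∨ om e = 1 ∨ om e = 2 ∨ om e = 3 ∨ om e = 4 ∨ om e = 5 := by omega
    · exact fin 0 19 (by norm_num) hc he19 (by norm_num) (by norm_num)
    · exact fin 1 19 (by norm_num) hc he19 (by norm_num) (by norm_num)
    · exact fin 2 19 (by norm_num) hc he19 (by norm_num) (by norm_num)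
    · rw [hc] at ho
      exact fin 3 27 (by norm_num) hc (by omega) (by norm_num) (by norm_num)
    · rw [hc] at ho
      exact fin 4 81 (by norm_num) hc (by omega) (by norm_num) (by norm_num)
    · rw [hc] at ho
      exact fin 5 243 (by norm_num) hc (by omega) (by norm_num) (by norm_num)

theorem numB {q e m : ℕ} (hr : ∀ r, r.Prime → r ∣ e → r ∣ q - 1) (hq : 2 ≤ q) (he : 17 ≤ e) (he2 : e ≤ 512)
    (h32 : e ≠ 32) (hm : e ≤ m) :
    4 * ((q - 1) * e ^ 2 * e ^ (2 * om e + 1) * Nat.log 2 q) < q ^ m - 1 := by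
  obtain ⟨h1, h2⟩ := numB1 hr hq he he2 h32
  have h3 := numB_of h1 (by omega) h2 hm
  have h4 : (q - 1) * e ^ 2 * e ^ (2 * om e + 1) = (q - 1) * e ^ (2 * om e + 3) := by ring
  rw [h4]
  exact h3

end Cfsg.Agent.H511.Wt
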