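import Mathlib
import Cfsg.Agent.H511.Wt.DLBound
import Cfsg.Agent.H511.Wt.Cnt
import Cfsg.Agent.H511.Wt.Num

/-!
# Chief factors as modules
-/

set_option autoImplicit false
set_option linter.style.haveILetI false
set_option linter.unusedSectionVars false

namespace Cfsg.Agent.H511.Wt

open Subgroup
open scoped Pointwise commutatorElement

universe u

theorem exists_mod0 {G : Type u} [Group G] [Finite G] (M : Subgroup G)
    [hMn : M.Normal] (hM : M ≠ ⊥) (hmin : ∀ N : Subgroup G, N.Normal → N ≤ M → N = ⊥ ∨ N = M)
    (hcomm : ∀ a ∈ M, ∀ b ∈ M, a * b = b * a) :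
    ∃ (X : Type u) (_ : AddCommGroup X) (_ : Finite X) (_ : DistribMulAction G X), Irr G X ∧
      Nat.card X = Nat.card M ∧ ∀ g : G, (∀ x : X, g • x = x) ↔ g ∈ centralizer (M : Set G) := by
  letI i1 := addOf M hcomm
  letI i2 := actOf M hcomm
  haveI : Finite (Additive M) := inferInstanceAs (Finite M)
  have hirr : Irr G (Additive M) := by
    refine ⟨?_, ?_⟩
    · have : Nontrivial M := (nontrivial_iff_ne_bot M).2 hM
      exact inferInstanceAs (Nontrivial M)
    · intro W hW
      -- the corresponding subgroup
      let N : Subgroup G :=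
        { carrier := {x | ∃ h : x ∈ M, (Additive.ofMul (⟨x, h⟩ : M)) ∈ W}
          mul_mem' := by
            rintro x y ⟨hx, hx'⟩ ⟨hy, hy'⟩
            exact ⟨M.mul_mem hx hy, W.add_mem hx' hy'⟩
          one_mem' := ⟨M.one_mem, W.zero_mem⟩
          inv_mem' := by
            rintro x ⟨hx, hx'⟩
            exact ⟨M.inv_mem hx, W.neg_mem hx'⟩ }
      have hN : N.Normal := by
        refine ⟨?_⟩
        rintro x ⟨hx, hx'⟩ g
        exact ⟨hMn.conj_mem x hx g, hW g _ hx'⟩
      have hNM : N ≤ M := fun x hx => hx.1
      rcases hmin N hN hNM with h | h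
      · left
        rw [eq_bot_iff]
        intro x hx
        have h1 : ((Additive.toMul x : M) : G) ∈ N := ⟨(Additive.toMul x).2, hx⟩
        rw [h, mem_bot] at h1
        rw [AddSubgroup.mem_bot]
        exact Additive.toMul.injective (Subtype.ext h1)
      · right
        rw [eq_top_iff]
        intro x _
        have h1 : ((Additive.toMul x : M) : G) ∈ N := by rw [h]; exact (Additive.toMul x).2
        exact h1.2
  refine ⟨Additive M, i1, inferInstance, i2, hirr, rfl, ?_⟩
  intro g
  rw [mem_centralizer_iff]
  constructor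
  · intro h x hx
    have h2 := h (Additive.ofMul ⟨x, hx⟩)
    have h3 : g * x * g⁻¹ = x := congrArg (fun y : Additive M => ((Additive.toMul y : M) : G)) h2
    calc x * g = (g * x * g⁻¹) * g := by rw [h3]
      _ = g * x := by group
  · intro h x
    apply Additive.toMul.injective
    apply Subtype.ext
    change g * ((Additive.toMul x : M) : G) * g⁻¹ = ((Additive.toMul x : M) : G)
    rw [← h _ (Additive.toMul x).2]
    group

/-- relative version -/
theorem exists_mod {G : Type u} [Group G] [Finite G] (C T : Subgroup G)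
    [C.Normal] [T.Normal] (hCT : C < T) (hmin : ∀ N : Subgroup G, N.Normal → C < N → N ≤ T → N = T)
    (hcomm : ⁅T, T⁆ ≤ C) :
    ∃ (X : Type u) (_ : AddCommGroup X) (_ : Finite X) (_ : DistribMulAction G X), Irr G X ∧
      Nat.card X = C.relIndex T ∧ ∀ g : G, (∀ x : X, g • x = x) ↔ g ∈ cenMod C T := by
  set π := QuotientGroup.mk' C with hπ
  have hπs : Function.Surjective π := QuotientGroup.mk'_surjective C
  have hn1 : (T.map π).Normal := Normal.map inferInstance π hπs
  obtain ⟨X, i1, i2, i3, hirr, hcard, hX⟩ := exists_mod0 (T.map π) (by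
    rw [Ne, Subgroup.map_eq_bot_iff, QuotientGroup.ker_mk']
    exact hCT.not_ge) (by
    intro N hN hNT
    by_cases h : C = N.comap π
    · left
      have h2 : N = (N.comap π).map π := (map_comap_eq_self_of_surjective hπs N).symm
      rw [h2, ← h, Subgroup.map_eq_bot_iff, QuotientGroup.ker_mk']
    · right
      have h2 : C ≤ N.comap π := by
        intro c hc
        rw [mem_comap, (show π c = 1 from (QuotientGroup.eq_one_iff c).2 hc)]
        exact N.one_mem
      have h3 : N.comap π ≤ T := by
        have h4 : (T.map π).comap π = T := by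
          rw [comap_map_eq, QuotientGroup.ker_mk', sup_eq_left.2 hCT.le]
        rw [← h4]
        exact comap_mono hNT
      have h4 := hmin _ inferInstance (lt_of_le_of_ne h2 h) h3
      rw [← h4, map_comap_eq_self_of_surjective hπs]) (by
    rintro _ ⟨a, ha, rfl⟩ _ ⟨b, hb', rfl⟩
    have h2 : π ⁅a, b⁆ = 1 := (QuotientGroup.eq_one_iff _).2 (hcomm (commutator_mem_commutator ha hb'))
    rwa [map_commutatorElement, commutatorElement_eq_one_iff_mul_comm] at h2)
  letI := DistribMulAction.compHom X π
  refine ⟨X, i1, i2, inferInstance, ⟨hirr.nt, fun U hU => hirr.irr U ?_⟩, ?_, ?_⟩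
  · intro g x hx
    obtain ⟨g, rfl⟩ := hπs g
    exact hU g x hx
  · rw [hcard, ← relIndex_ker, QuotientGroup.ker_mk']
  · intro g
    rw [cenMod, mem_comap, ← hX (π g)]
    exact Iff.rfl

theorem DL.iff_le {G X : Type*} [Group G] [AddCommGroup X] [DistribMulAction G X] {C : Subgroup G}
    (hX : ∀ g : G, (∀ x : X, g • x = x) ↔ g ∈ C) {d : ℕ} : DL G X d ↔ dser (⊤ : Subgroup G) d ≤ C := by
  constructor
  · intro h g hg
    exact (hX g).1 (h g hg)
  · intro h g hg
    exact (hX g).2 (h hg)

theorem card_im {G X : Type*} [Group G] [AddCommGroup X] [DistribMulAction G X] {C : Subgroup G}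
    (hX : ∀ g : G, (∀ x : X, g • x = x) ↔ g ∈ C) : Nat.card (Im G X) = C.index := by
  have h1 : (MulAction.toPermHom G X).ker = C := by
    ext g
    rw [MonoidHom.mem_ker, ← hX]
    constructor
    · intro h x
      exact congrArg (fun e : Equiv.Perm X => e x) h
    · intro h
      exact Equiv.ext h
  rw [← h1, index_ker]

namespace QP

variable {K V : Type*} {G : Type u} [Field K] [Finite K] [AddCommGroup V] [Module K V] [Finite V] [Nontrivial V]
    [Group G] [Finite G] [DistribMulAction G V] (S : QP K V G)

theorem mn_mod [Group.IsSolvable G] {N : Subgroup G} (hN : N ∈ S.Mn) :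
    ∃ (X : Type u) (_ : AddCommGroup X) (_ : Finite X) (_ : DistribMulAction G X), Irr G X ∧
      Nat.card X = S.U.relIndex N ∧ ∀ g : G, (∀ x : X, g • x = x) ↔ g ∈ cenMod S.U N := by
  have := hN.1
  exact exists_mod S.U N hN.2.1 (fun N' h2 h3 h4 => hN.2.2.2 N' h2 h3 h4) (S.mn_comm hN)

/-- the primes dividing `|A/E|` if `|E/U| = 9` -/
theorem prime_le_three [Group.IsSolvable G] (hs : S.s = 9) {r : ℕ} (hr : r.Prime) (hd : r ∣ S.E.relIndex S.A) :
    r ≤ 3 := by
  classical
  by_contra hlt
  push Not at hlt
  haveI : Fact r.Prime := ⟨hr⟩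
  set π := QuotientGroup.mk' S.U with hπ
  have hπs : Function.Surjective π := QuotientGroup.mk'_surjective S.U
  haveI hn1 : (S.E.map π).Normal := Normal.map inferInstance π hπs
  let ψ : S.A →* MulAut (S.E.map π) := ((MulAut.conjNormal (H := S.E.map π)).comp π).comp S.A.subtype
  have hker : ψ.ker = S.E.subgroupOf S.A := by
    ext a
    rw [MonoidHom.mem_ker, mem_subgroupOf]
    constructor
    · intro h
      rw [← S.cenMod_E_inf_A]
      refine ⟨?_, a.2⟩
      change (a : G) ∈ cenMod S.U S.E
      rw [mem_cenMod]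
      intro y hy
      have h1 := congrArg (fun f : MulAut (S.E.map π) => ((f ⟨π y, y, hy, rfl⟩ : S.E.map π) : G ⧸ S.U)) h
      have h2 : π a * π y * (π a)⁻¹ = π y := h1
      rw [← QuotientGroup.eq_one_iff]
      change π ⁅(a : G), y⁆ = 1
      rw [map_commutatorElement, commutatorElement_def, h2, mul_inv_cancel]
    · intro h
      apply MulEquiv.ext
      rintro ⟨_, y, hy, rfl⟩
      apply Subtype.ext
      change π a * π y * (π a)⁻¹ = π y
      have h1 : ⁅(a : G), y⁆ ∈ S.U := S.E_comm (commutator_mem_commutator h hy)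
      rw [← QuotientGroup.eq_one_iff] at h1
      change π ⁅(a : G), y⁆ = 1 at h1
      rw [map_commutatorElement, commutatorElement_eq_one_iff_mul_comm] at h1
      rw [h1, mul_inv_cancel_right]
  have hcard : Nat.card ψ.range = S.E.relIndex S.A := by
    rw [← index_ker, hker]
    rfl
  have hcE : Nat.card (S.E.map π) = 9 := by
    have h1 := relIndex_ker (K := S.E) π
    rw [hπ, QuotientGroup.ker_mk'] at h1
    rw [← hs, s, h1]
  rw [← hcard] at hd
  obtain ⟨⟨p', hp'⟩, hp⟩ := exists_prime_orderOf_dvd_card' r hd
  have hpo : orderOf p' = r := by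
    rw [← hp]
    exact Subgroup.orderOf_coe ⟨p', hp'⟩
  have hpg : IsPGroup r (zpowers p') := by
    refine IsPGroup.of_card (n := 1) ?_
    rw [Nat.card_zpowers, hpo, pow_one]
  have hfin : Finite (S.E.map π) := Nat.finite_of_card_ne_zero (by rw [hcE]; norm_num)
  have hmod := hpg.card_modEq_card_fixedPoints (S.E.map π)
  -- the fixed points form a subgroup
  let F : Subgroup (S.E.map π) :=
    { carrier := {x | p' x = x}
      mul_mem' := fun {a b} ha hb => by
        change p' (a * b) = a * b
        rw [map_mul, show p' a = a from ha, show p' b = b from hb]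
      one_mem' := map_one p'
      inv_mem' := fun {a} ha => by
        change p' a⁻¹ = a⁻¹
        rw [map_inv, show p' a = a from ha] }
  have hF : Nat.card (MulAction.fixedPoints (zpowers p') (S.E.map π)) = Nat.card F := by
    refine Nat.card_congr (Equiv.setCongr ?_)
    ext x
    rw [MulAction.mem_fixedPoints]
    constructor
    · intro h
      exact h ⟨p', mem_zpowers p'⟩
    · rintro h ⟨_, k, rfl⟩
      have h1 : p' ∈ MulAction.stabilizer (MulAut (S.E.map π)) x := h
      exact (MulAction.stabilizer (MulAut (S.E.map π)) x).zpow_mem h1 k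
  rw [hF, hcE] at hmod
  have hdv : Nat.card F ∣ 9 := by
    rw [← hcE]
    exact card_subgroup_dvd_card F
  have hle : Nat.card F ≤ 9 := Nat.le_of_dvd (by norm_num) hdv
  have hdiv : (r : ℤ) ∣ 9 - Nat.card F := by
    have := (Nat.modEq_iff_dvd.1 hmod.symm)
    exact_mod_cast this
  have h9 : Nat.card F = 9 := by
    by_contra hne
    have h1 : Nat.card F = 1 ∨ Nat.card F = 3 := by
      interval_cases (Nat.card F) <;> simp_all
    have h2 : r ∣ 9 - Nat.card F := by
      have h3 : ((9 - Nat.card F : ℕ) : ℤ) = 9 - (Nat.card F : ℤ) := by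
        push_cast [Nat.cast_sub hle]
        ring
      rw [← h3] at hdiv
      exact_mod_cast hdiv
    have h3 : r ∣ 2 ^ 3 ∨ r ∣ 2 * 3 := by
      rcases h1 with h1 | h1
      · left
        rw [h1] at h2
        exact h2
      · right
        rw [h1] at h2
        exact h2
    have h4 : r ≤ 3 := by
      rcases h3 with h3 | h3
      · exact (Nat.le_of_dvd (by norm_num) (hr.dvd_of_dvd_pow h3)).trans (by norm_num)
      · rcases (Nat.Prime.dvd_mul hr).1 h3 with h5 | h5
        · exact (Nat.le_of_dvd (by norm_num) h5).trans (by norm_num)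
        · exact Nat.le_of_dvd (by norm_num) h5
    omega
  have htop : F = ⊤ := by
    apply eq_top_of_card_eq
    rw [h9, hcE]
  have h1 : p' = 1 := by
    apply MulEquiv.ext
    intro x
    have : x ∈ F := by rw [htop]; exact mem_top x
    exact this
  rw [h1, orderOf_one] at hpo
  exact hr.one_lt.ne hpo

end QP

/-- **Irreducible groups on a module of order 64 of large derived length.** -/
theorem im64 {G V : Type u} [Group G] [Finite G] [Group.IsSolvable G] [AddCommGroup V] [Finite V]
    [DistribMulAction G V] (hirr : Irr G V) (hcard : Nat.card V = 64) (h5 : ¬ DL G V 5) :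
    Nat.card (Im G V) ≤ 1458 ∧ ∀ r, r.Prime → r ∣ Nat.card (Im G V) → r ≤ 3 := by
  have hnt := hirr.nt
  have hsol : Group.IsSolvable (Im G V) := range_solvable
  rcases exists_qp (Im G V) V hirr.range range_faithful with h | ⟨K, i1, i2, i3, ⟨S⟩⟩
  · exfalso
    obtain ⟨M, W, hM, h1, h2, h3⟩ := h
    have D : Imp M W := ⟨h1, h2, h3⟩
    letI := resAct M (W ((1 : Im G V) : _ ⧸ M)) D.res_mem
    have h4 := D.irr_res hirr.range
    set w := Nat.card (W ((1 : Im G V) : _ ⧸ M)) with hw
    have hw2 : 2 ≤ w := by
      have := h4.nt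
      exact Finite.one_lt_card
    have hcV : w ^ M.index = 64 := by rw [← hcard, D.card_V]
    have h6 : M.index ≠ 0 := index_ne_zero_of_finite
    have h7 : M.index ≠ 1 := by
      rw [Ne, index_eq_one]
      exact hM.1
    have h9 : M.index < 64 := by
      rw [← hcV]
      exact Nat.lt_pow_self (by omega)
    have h10 : w < 64 := by
      rw [← hcV]
      calc w = w ^ 1 := (pow_one w).symm
        _ < w ^ M.index := Nat.pow_lt_pow_right (by omega) (by omega)
    have h8 : DL (Im G V) V (gB M.index + 1 + gB w) := by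
      have h5 := dser_le_core hM (dln.{u} M.index (by omega))
      exact D.dl (dln.{u} w (by omega) M _ h4 rfl) h5
    apply h5
    apply DL.of_range
    refine h8.mono ?_
    obtain ⟨i, hi, hi2⟩ := pow_eq_prime_pow (w := w) (k := M.index) (a := 6) Nat.prime_two h6 (by rw [hcV]; norm_num)
    have h11 : M.index ≤ 6 := Nat.le_of_dvd (by norm_num) ⟨i, by rw [← hi2, mul_comm]⟩
    rw [hi]
    have h12 : 2 ≤ M.index := by omega
    generalize M.index = k at *
    interval_cases k
    · obtain rfl : i = 3 := by omega
      decide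
    · obtain rfl : i = 2 := by omega
      decide
    · omega
    · omega
    · obtain rfl : i = 1 := by omega
      decide
  · have hs1 : S.s ≠ 1 := by
      intro h
      apply h5
      apply DL.of_range
      have h1 := S.dser_two_of_s_one h
      intro g hg x
      have h2 := dser_anti (⊤ : Subgroup (Im G V)) (show 2 ≤ 5 by norm_num) hg
      rw [h1, mem_bot] at h2
      rw [h2, one_smul]
    have hq : Nat.card K ^ Module.finrank K V = 64 := by rw [← hcard]; exact QP.card_V_eq.symm
    have hm0 : 1 ≤ Module.finrank K V := Module.finrank_pos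
    have hprimes : ∀ r, r.Prime → r ∣ S.s → r ∣ Nat.card K - 1 ∧ r ∣ Module.finrank K V := by
      intro r hr hrs
      obtain ⟨h1, h2⟩ := S.prime_dvd hr hrs
      exact ⟨h1.trans S.card_U_dvd, h2⟩
    obtain ⟨r, hr, hrs⟩ := Nat.exists_prime_and_dvd hs1
    obtain ⟨hr1, hr2⟩ := hprimes r hr hrs
    obtain ⟨i, hi, hi2⟩ := pow_eq_prime_pow (w := Nat.card K) (k := Module.finrank K V) (a := 6) Nat.prime_two
      (by omega) (by rw [hq]; norm_num)
    have h11 : Module.finrank K V ≤ 6 := Nat.le_of_dvd (by norm_num) ⟨i, by rw [← hi2, mul_comm]⟩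
    have hmq : Module.finrank K V = 3 ∧ Nat.card K = 4 := by
      rw [hi] at hr1 ⊢
      generalize Module.finrank K V = m at *
      interval_cases m
      · exact absurd (Nat.dvd_one.1 hr2) hr.one_lt.ne'
      · exfalso
        obtain rfl : i = 3 := by omega
        have := (Nat.prime_dvd_prime_iff_eq hr Nat.prime_two).1 hr2
        subst this
        norm_num at hr1
      · obtain rfl : i = 2 := by omega
        norm_num
      · omega
      · omega
      · exfalso
        obtain rfl : i = 1 := by omega
        norm_num at hr1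
        exact hr.one_lt.ne' hr1
    obtain ⟨hm3, hq4⟩ := hmq
    obtain ⟨e, he⟩ := S.exists_sq
    have hsle := S.s_le'
    rw [hm3] at hsle
    have he3 : e ≤ 3 := by
      by_contra hlt
      push Not at hlt
      have : 4 ^ 2 ≤ e ^ 2 := Nat.pow_le_pow_left hlt 2
      omega
    have hs9 : S.s = 9 := by
      have h0 := S.s_pos
      interval_cases e
      · omega
      · exact absurd he (by simpa using hs1)
      · exfalso
        have h1 := (hprimes 2 Nat.prime_two (by rw [he]; norm_num)).1
        rw [hq4] at h1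
        norm_num at h1
      · exact he
    have hU : Nat.card S.U ∣ 3 := by
      have := S.card_U_dvd
      rwa [hq4] at this
    have hA := S.index_A_le
    rw [hq4] at hA
    have hA2 : S.A.index ≤ 2 := by
      refine hA.trans ?_
      have : Nat.log 2 4 = 2 := by
        rw [Nat.log_eq_iff] <;> norm_num
      omega
    have hrel := S.relIndex_E_A
    rw [hs9, show om 9 = 2 from om_pow (a := 2) Nat.prime_three] at hrel
    have hrel' : S.E.relIndex S.A ≤ 27 := by
      by_contra hlt
      push Not at hlt
      have : 28 ^ 2 ≤ (S.E.relIndex S.A) ^ 2 := Nat.pow_le_pow_left hlt 2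
      omega
    have hcG := S.card_G_eq
    constructor
    · rw [hcG, hs9]
      have h1 : Nat.card S.U ≤ 3 := Nat.le_of_dvd (by norm_num) hU
      calc Nat.card S.U * 9 * S.E.relIndex S.A * S.A.index ≤ 3 * 9 * 27 * 2 :=
            Nat.mul_le_mul (Nat.mul_le_mul (Nat.mul_le_mul_right _ h1) hrel') hA2
        _ = 1458 := by norm_num
    · intro p hp hpd
      rw [hcG, hs9] at hpd
      rcases (Nat.Prime.dvd_mul hp).1 hpd with h | h
      · rcases (Nat.Prime.dvd_mul hp).1 h with h | h
        · rcases (Nat.Prime.dvd_mul hp).1 h with h | h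
          · exact Nat.le_of_dvd (by norm_num) (h.trans hU)
          · have h9 : p ∣ 3 ^ 2 := by simpa using h
            exact Nat.le_of_dvd (by norm_num) (hp.dvd_of_dvd_pow h9)
        · exact S.prime_le_three hs9 hp h
      · have h1 : S.A.index ≠ 0 := index_ne_zero_of_finite
        exact (Nat.le_of_dvd (Nat.pos_of_ne_zero h1) h).trans (hA2.trans (by norm_num))

end Cfsg.Agent.H511.Wt
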