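import Mathlib
import Cfsg.Agent.S3360
import Cfsg.Agent.H511.Wt.DLBound

/-!
# Transitive solvable linear groups have derived length at most five
-/

set_option autoImplicit false
set_option linter.style.haveILetI false
set_option linter.unusedSectionVars false

namespace Cfsg.Agent.H511.Wt

open Subgroup
open scoped Pointwise commutatorElement

universe u

theorem ringAut_comm {F : Type*} [Field F] [Finite F] (σ τ : F ≃+* F) (x : F) : σ (τ x) = τ (σ x) := by
  by_cases hx : x = 0
  · simp [hx]
  obtain ⟨ζ, hζ⟩ := IsCyclic.exists_generator (α := Fˣ)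
  have key : ∀ y : F, y ≠ 0 → ∃ k : ℤ, y = (ζ : F) ^ k := by
    intro y hy
    obtain ⟨k, hk⟩ := mem_zpowers_iff.1 (hζ (Units.mk0 y hy))
    refine ⟨k, ?_⟩
    have := congrArg (fun u : Fˣ => (u : F)) hk
    simp only [Units.val_mk0] at this
    rw [← this, Units.val_zpow_eq_zpow_val]
  have hζ0 : (ζ : F) ≠ 0 := ζ.ne_zero
  obtain ⟨i, hi⟩ := key (σ ζ) (by rwa [Ne, map_eq_zero_iff σ σ.injective])
  obtain ⟨j, hj⟩ := key (τ ζ) (by rwa [Ne, map_eq_zero_iff τ τ.injective])
  obtain ⟨k, rfl⟩ := key x hx
  rw [map_zpow₀, map_zpow₀, map_zpow₀, map_zpow₀]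
  congr 1
  rw [hj, hi, map_zpow₀, map_zpow₀, hi, hj, ← zpow_mul, ← zpow_mul, mul_comm]

theorem dser_semi {G V F : Type*} [Group G] [AddCommGroup V] [DistribMulAction G V] [Field F] [Finite F]
    (e : V ≃+ F) (h : ∀ g : G, ∃ (a : F) (σ : F ≃+* F), ∀ v : V, e (g • v) = a * σ (e v)) : DL G V 2 := by
  let Mu : Subgroup G :=
    { carrier := {g | ∃ a : F, ∀ v : V, e (g • v) = a * e v}
      mul_mem' := by
        rintro g k ⟨a, ha⟩ ⟨b, hb⟩
        refine ⟨a * b, fun v => ?_⟩
        rw [mul_smul, ha, hb, mul_assoc]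
      one_mem' := ⟨1, fun v => by rw [one_smul, one_mul]⟩
      inv_mem' := by
        rintro g ⟨a, ha⟩
        refine ⟨a⁻¹, fun v => ?_⟩
        have h1 := ha (g⁻¹ • v)
        rw [smul_inv_smul] at h1
        by_cases ha0 : a = 0
        · have hv : ∀ v : V, e v = 0 := by
            intro v
            have := ha (g⁻¹ • v)
            rwa [smul_inv_smul, ha0, zero_mul] at this
          rw [hv, hv, mul_zero]
        · rw [h1, inv_mul_cancel_left₀ ha0] }
  have h1 : dser (⊤ : Subgroup G) 1 ≤ Mu := by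
    change ⁅(⊤ : Subgroup G), ⊤⁆ ≤ _
    rw [commutator_le]
    intro g _ k _
    obtain ⟨a, σ, hg⟩ := h g
    obtain ⟨b, τ, hk⟩ := h k
    -- `k g` is never zero
    refine ⟨a * σ b / (b * τ a), fun w => ?_⟩
    have h2 : ⁅g, k⁆ = (g * k) * (k * g)⁻¹ := by rw [commutatorElement_def]; group
    obtain ⟨v, rfl⟩ : ∃ v, w = (k * g) • v := ⟨(k * g)⁻¹ • w, (smul_inv_smul _ _).symm⟩
    rw [h2, mul_smul, inv_smul_smul, mul_smul, mul_smul, hg, hk, hk, hg, map_mul, map_mul, ringAut_comm σ τ]
    by_cases hb : b = 0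
    · rw [hb, map_zero]
      ring
    by_cases ha : a = 0
    · rw [ha, map_zero]
      ring
    have ha' : τ a ≠ 0 := by rwa [Ne, map_eq_zero_iff τ τ.injective]
    field_simp
  intro g hg x
  have h2 : ∀ g ∈ dser Mu 1, ∀ x : V, g • x = x := by
    have h3 : dser Mu 1 ≤ (MulAction.toPermHom G V).ker := by
      change ⁅Mu, Mu⁆ ≤ _
      rw [commutator_le]
      rintro g ⟨a, ha⟩ k ⟨b, hb⟩
      rw [MonoidHom.mem_ker, map_commutatorElement, commutatorElement_eq_one_iff_mul_comm]
      apply Equiv.ext
      intro v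
      change g • k • v = k • g • v
      apply e.injective
      rw [ha, hb, hb, ha]
      ring
    intro g hg x
    exact congrArg (fun f : Equiv.Perm V => f x) (h3 hg)
  have h3 : g ∈ dser (dser (⊤ : Subgroup G) 1) 1 := by rw [dser_dser]; exact hg
  exact h2 g (dser_mono h1 1 h3) x

/-- **Transitive solvable linear groups.** -/
theorem dl_transitive {G V : Type u} [Group G] [Finite G] [Group.IsSolvable G] [AddCommGroup V] [Finite V]
    [DistribMulAction G V] (hirr : Irr G V) (hf : ∀ g : G, (∀ v : V, g • v = v) → g = 1)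
    (ht : ∀ v w : V, v ≠ 0 → w ≠ 0 → ∃ g : G, g • v = w) : DL G V 5 := by
  obtain ⟨p, hp, hpx⟩ := hirr.exists_prime
  haveI : Fact p.Prime := ⟨hp⟩
  have hnt := hirr.nt
  obtain ⟨inst⟩ : Nonempty (Module (ZMod p) V) := ⟨AddCommGroup.zmodModule hpx⟩
  -- the linear action
  let ρ : G →* (V ≃ₗ[ZMod p] V) :=
    { toFun := fun g =>
        { (DistribMulAction.toAddEquiv V g) with
          map_smul' := fun c x => by
            change g • (c • x) = c • (g • x)
            exact ZMod.map_smul (DistribSMul.toAddMonoidHom V g) c x }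
      map_one' := by
        apply LinearEquiv.ext
        intro x
        exact one_smul G x
      map_mul' := fun a b => by
        apply LinearEquiv.ext
        intro x
        exact mul_smul a b x }
  have hρ : ∀ g x, ρ g x = g • x := fun g x => rfl
  rcases Cfsg.Agent.S3360.result p (V := V) (G := G) inferInstance ρ (by
    rw [injective_iff_map_eq_one]
    intro g hg
    apply hf
    intro v
    rw [← hρ, hg]
    rfl) ht with ⟨F, i1, i2, e, he⟩ | h
  · exact (dser_semi e fun g => he g).mono (by norm_num)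
  · have key : DLn.{u} (Nat.card V) 5 := by
      rcases h with h | h | h | h | h | h
      · rw [h]; exact (dln 9 (by norm_num)).mono (by decide)
      · rw [h]; exact (dln 25 (by norm_num)).mono (by decide)
      · rw [h]; exact (dln 49 (by norm_num)).mono (by decide)
      · rw [h]; exact (dln_prime_sq (p := 11) (by norm_num)).mono (by norm_num)
      · rw [h]; exact (dln_prime_sq (p := 23) (by norm_num)).mono (by norm_num)
      · rw [h]; exact dln_81
    exact key G V hirr rfl

end Cfsg.Agent.H511.Wt
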