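import Mathlib
import Cfsg.Agent.H511.Wt.Semi
import Cfsg.Agent.H511.Wt.MinMod
import Cfsg.Agent.H511.Wt.Types

/-!
# The types of the quasi-primitive groups
-/

set_option autoImplicit false
set_option linter.style.haveILetI false
set_option linter.unusedSectionVars false
set_option exponentiation.threshold 2000

namespace Cfsg.Agent.H511.Wt

open Subgroup
open scoped Pointwise commutatorElement

universe u

section smooth

/-- all prime divisors are at most `3` -/
def Sm (n : ℕ) : Prop := ∀ r, r.Prime → r ∣ n → r ≤ 3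

theorem Sm.eq {n : ℕ} (h : Sm n) (hn : n ≠ 0) : ∃ a b, n = 2 ^ a * 3 ^ b := by
  obtain ⟨a, n', h1, h2⟩ := Nat.exists_eq_pow_mul_and_not_dvd hn 2 (by norm_num)
  have hn' : n' ≠ 0 := by
    rintro rfl
    exact h1 (dvd_zero 2)
  obtain ⟨b, n'', h3, h4⟩ := Nat.exists_eq_pow_mul_and_not_dvd hn' 3 (by norm_num)
  refine ⟨a, b, ?_⟩
  have h5 : n'' = 1 := by
    by_contra hne
    obtain ⟨r, hr, hrd⟩ := Nat.exists_prime_and_dvd hne
    have h6 : r ∣ n' := by rw [h4]; exact hrd.mul_left _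
    have h7 : r ∣ n := by rw [h2]; exact h6.mul_left _
    have h8 := h r hr h7
    have h9 := hr.two_le
    obtain rfl | rfl : r = 2 ∨ r = 3 := by omega
    · exact h1 h6
    · exact h3 hrd
  rw [h2, h4, h5, mul_one]

theorem Sm.dvd {n : ℕ} (h : Sm n) (hn : n ≠ 0) (hb : n < 2 ^ 19) : n ∣ 2 ^ 18 * 3 ^ 11 := by
  obtain ⟨a, b, rfl⟩ := h.eq hn
  have h1 : 0 < 3 ^ b := by positivity
  have h2 : 0 < 2 ^ a := by positivity
  have ha : a ≤ 18 := by
    by_contra hlt
    push Not at hlt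
    have h3 : 2 ^ 19 ≤ 2 ^ a := Nat.pow_le_pow_right (by norm_num) hlt
    have h4 : 2 ^ a * 1 ≤ 2 ^ a * 3 ^ b := Nat.mul_le_mul_left _ h1
    omega
  have hb' : b ≤ 11 := by
    by_contra hlt
    push Not at hlt
    have h3 : 3 ^ 12 ≤ 3 ^ b := Nat.pow_le_pow_right (by norm_num) hlt
    have h4 : 1 * 3 ^ b ≤ 2 ^ a * 3 ^ b := Nat.mul_le_mul_right _ h2
    omega
  exact Nat.mul_dvd_mul (Nat.pow_dvd_pow 2 ha) (Nat.pow_dvd_pow 3 hb')

theorem smooth_sum {N : ℕ} (hN : N < 2 ^ 19)
    (hdec : ∀ a < 19, ∀ b < 12, 2 ^ a * 3 ^ b < N → ¬ (N - 2 ^ a * 3 ^ b) ∣ 2 ^ 18 * 3 ^ 11) {x y : ℕ}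
    (hx : Sm x) (hy : Sm y) (hx0 : x ≠ 0) (hy0 : y ≠ 0) : x + y ≠ N := by
  intro h
  have hx1 : x < N := by omega
  have h1 := hy.dvd hy0 (by omega)
  obtain ⟨a, b, hab⟩ := hx.eq hx0
  have hpa : 0 < 2 ^ a := by positivity
  have hpb : 0 < 3 ^ b := by positivity
  have ha : a < 19 := by
    by_contra hlt
    push Not at hlt
    have h3 : 2 ^ 19 ≤ 2 ^ a := Nat.pow_le_pow_right (by norm_num) hlt
    have h4 : 2 ^ a * 1 ≤ 2 ^ a * 3 ^ b := Nat.mul_le_mul_left _ hpb
    omega
  have hb : b < 12 := by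
    by_contra hlt
    push Not at hlt
    have h3 : 3 ^ 12 ≤ 3 ^ b := Nat.pow_le_pow_right (by norm_num) hlt
    have h4 : 1 * 3 ^ b ≤ 2 ^ a * 3 ^ b := Nat.mul_le_mul_right _ hpa
    omega
  have h2 := hdec a ha b hb (by omega)
  rw [← hab] at h2
  have h3 : N - x = y := by omega
  rw [h3] at h2
  exact h2 h1

end smooth

section orbits

variable {G V : Type*} [Group G] [Finite G] [AddCommGroup V] [Finite V] [DistribMulAction G V]

theorem card_orbit_dvd (v : V) : Nat.card (MulAction.orbit G v) ∣ Nat.card G := by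
  have := MulAction.index_stabilizer G v
  rw [Nat.card_coe_set_eq, ← this]
  exact index_dvd_card _

/-- if there are no three inequivalent nonzero vectors then `|V| - 1` is the sum of at most two orbit lengths -/
theorem three_orbits (hG : Sm (Nat.card G)) (h1 : ¬ Sm (Nat.card V - 1))
    (h2 : ∀ x y, Sm x → Sm y → x ≠ 0 → y ≠ 0 → x + y ≠ Nat.card V - 1) (hnt : 1 < Nat.card V) :
    ∃ v : Fin 3 → V, (∀ i, v i ≠ 0) ∧ ∀ i j, i ≠ j → ∀ g : G, g • v i ≠ v j := by
  classical
  have hsm : ∀ v : V, Sm (MulAction.orbit G v).ncard := by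
    intro v r hr hd
    exact hG r hr (hd.trans (by rw [← Nat.card_coe_set_eq]; exact card_orbit_dvd v))
  have hpos : ∀ v : V, (MulAction.orbit G v).ncard ≠ 0 := by
    intro v
    rw [← Nat.pos_iff_ne_zero, Set.ncard_pos]
    exact MulAction.nonempty_orbit v
  set T : Set V := {v | v ≠ 0} with hT
  have hTc : T.ncard = Nat.card V - 1 := by
    have h3 : T = {(0 : V)}ᶜ := rfl
    rw [h3, Set.ncard_compl, Set.ncard_singleton]
  have hsub : ∀ v : V, v ≠ 0 → MulAction.orbit G v ⊆ T := by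
    rintro v hv _ ⟨g, rfl⟩
    change g • v ≠ 0
    rwa [Ne, smul_eq_zero_iff_eq]
  obtain ⟨a, ha⟩ : T.Nonempty := by
    rw [← Set.ncard_pos, hTc]
    omega
  obtain ⟨b, hbT, hb⟩ : ∃ b ∈ T, b ∉ MulAction.orbit G a := by
    by_contra hcon
    push Not at hcon
    have h3 : T = MulAction.orbit G a := Set.Subset.antisymm hcon (hsub a ha)
    apply h1
    rw [← hTc, h3]
    exact hsm a
  obtain ⟨c, hcT, hc⟩ : ∃ c ∈ T, c ∉ MulAction.orbit G a ∪ MulAction.orbit G b := by
    by_contra hcon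
    push Not at hcon
    have h3 : T = MulAction.orbit G a ∪ MulAction.orbit G b :=
      Set.Subset.antisymm hcon (Set.union_subset (hsub a ha) (hsub b hbT))
    have h4 : Disjoint (MulAction.orbit G a) (MulAction.orbit G b) := by
      rw [Set.disjoint_left]
      rintro _ ⟨g, rfl⟩ ⟨k, hk⟩
      apply hb
      refine ⟨k⁻¹ * g, ?_⟩
      change (k⁻¹ * g) • a = b
      rw [mul_smul, inv_smul_eq_iff]
      exact hk.symm
    refine h2 _ _ (hsm a) (hsm b) (hpos a) (hpos b) ?_
    rw [← hTc, h3, Set.ncard_union_eq h4]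
  have key : ∀ x y : V, y ∉ MulAction.orbit G x → ∀ g : G, g • x ≠ y ∧ g • y ≠ x := by
    intro x y hxy g
    refine ⟨fun h => hxy ⟨g, h⟩, fun h => hxy ⟨g⁻¹, ?_⟩⟩
    change g⁻¹ • x = y
    rw [inv_smul_eq_iff, h]
  have hca : c ∉ MulAction.orbit G a := fun h => hc (Or.inl h)
  have hcb : c ∉ MulAction.orbit G b := fun h => hc (Or.inr h)
  refine ⟨![a, b, c], ?_, ?_⟩
  · intro i
    fin_cases i
    · exact ha
    · exact hbT
    · exact hcT
  · intro i j hij g
    fin_cases i <;> fin_cases j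
    · exact absurd rfl hij
    · exact (key a b hb g).1
    · exact (key a c hca g).1
    · exact (key a b hb g).2
    · exact absurd rfl hij
    · exact (key b c hcb g).1
    · exact (key a c hca g).2
    · exact (key b c hcb g).2
    · exact absurd rfl hij

theorem nonzero_ncard : ({v : V | v ≠ 0} : Set V).ncard = Nat.card V - 1 := by
  classical
  have h3 : ({v : V | v ≠ 0} : Set V) = {(0 : V)}ᶜ := rfl
  rw [h3, Set.ncard_compl, Set.ncard_singleton]

/-- the zero vector together with nonzero ones -/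
theorem orb_cons {n d : ℕ} (h0 : Wtv G (0 : V) d)
    (h : ∃ v : Fin n → V, (∀ i, v i ≠ 0 ∧ Wtv G (v i) d) ∧ ∀ i j, i ≠ j → ∀ g : G, g • v i ≠ v j) :
    Orb G V (n + 1) d := by
  obtain ⟨v, hv, hvv⟩ := h
  refine ⟨Fin.cons 0 v, ?_, ?_⟩
  · intro i j
    refine Fin.cases ?_ (fun i => ?_) i
    · refine Fin.cases ?_ (fun j => ?_) j
      · intro h
        exact absurd rfl h
      · intro _ g hg
        simp only [Fin.cons_zero, Fin.cons_succ, smul_zero] at hg
        exact (hv j).1 hg.symm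
    · refine Fin.cases ?_ (fun j => ?_) j
      · intro _ g hg
        simp only [Fin.cons_zero, Fin.cons_succ, smul_eq_zero_iff_eq] at hg
        exact (hv i).1 hg
      · intro hij g hg
        simp only [Fin.cons_succ] at hg
        exact hvv i j (fun h => hij (by rw [h])) g hg
  · intro i
    refine Fin.cases ?_ (fun i => ?_) i
    · exact h0
    · exact (hv i).2

end orbits

/-- the sizes of the chief factors below `E` for small `e` -/
theorem dln5 {e n : ℕ} (he : e ≤ 16 ∨ e = 32) (he0 : 0 < e) (hn : n ∣ e ^ 2) (h64 : n ≠ 64) (hpp : IsPrimePow n) :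
    DLn.{u} n 5 := by
  by_cases h63 : n ≤ 63
  · refine (dln n (by omega)).mono ?_
    have h1 := gB_mono h63
    have h2 : gB 63 = 4 := by decide
    omega
  have key : n = 81 ∨ n = 121 ∨ n = 128 ∨ n = 169 ∨ n = 256 ∨ n = 512 ∨ n = 1024 ∨
      (2 ∣ n ∧ 3 ∣ n) ∨ (2 ∣ n ∧ 5 ∣ n) ∨ (2 ∣ n ∧ 7 ∣ n) ∨ (3 ∣ n ∧ 5 ∣ n) := by
    obtain ⟨k, hk⟩ := hn
    rcases he with he | rfl
    · interval_cases e
      all_goals
        have hk' : k ≤ 4 := by
          by_contra hlt
          push Not at hlt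
          have : 64 * 5 ≤ n * k := Nat.mul_le_mul (by omega) hlt
          omega
        interval_cases k <;> omega
    · have hk' : k ≤ 15 := by
        by_contra hlt
        push Not at hlt
        have : 65 * 16 ≤ n * k := Nat.mul_le_mul (by omega) hlt
        omega
      interval_cases k <;> omega
  have notpp : ∀ p q : ℕ, p.Prime → q.Prime → p ≠ q → p ∣ n → q ∣ n → False := by
    intro p q hp hq hpq h1 h2
    obtain ⟨r, k, hr, hk, rfl⟩ := hpp
    have h3 := (Nat.prime_dvd_prime_iff_eq hp hr.nat_prime).1 (hp.dvd_of_dvd_pow h1)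
    have h4 := (Nat.prime_dvd_prime_iff_eq hq hr.nat_prime).1 (hq.dvd_of_dvd_pow h2)
    exact hpq (h3.trans h4.symm)
  rcases key with h | h | h | h | h | h | h | h | h | h | h
  · rw [h]; exact dln_81
  · rw [h]; exact (dln_prime_sq (p := 11) (by norm_num)).mono (by norm_num)
  · rw [h]; exact dln_128
  · rw [h]; exact (dln_prime_sq (p := 13) (by norm_num)).mono (by norm_num)
  · rw [h]; exact dln_256
  · rw [h]; exact dln_512
  · rw [h]; exact dln_1024
  · exact (notpp 2 3 (by norm_num) (by norm_num) (by norm_num) h.1 h.2).elim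
  · exact (notpp 2 5 (by norm_num) (by norm_num) (by norm_num) h.1 h.2).elim
  · exact (notpp 2 7 (by norm_num) (by norm_num) (by norm_num) h.1 h.2).elim
  · exact (notpp 3 5 (by norm_num) (by norm_num) (by norm_num) h.1 h.2).elim

end Cfsg.Agent.H511.Wt
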