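import Mathlib
import Cfsg.Agent.H511.Wt.Base

/-!
# The types of the quasi-primitive groups
-/

set_option autoImplicit false
set_option linter.style.haveILetI false
set_option linter.unusedSectionVars false
set_option exponentiation.threshold 2000

namespace Cfsg.Agent.H511.Wt

open Subgroup
open scoped Pointwise commutatorElement

universe u

namespace QP

variable {K V G : Type u} [Field K] [Finite K] [AddCommGroup V] [Module K V] [Finite V] [Nontrivial V]
    [Group G] [Finite G] [DistribMulAction G V] (S : QP K V G)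

theorem wt_zero [Group.IsSolvable G] {k : ℕ} (hk : dser (⊤ : Subgroup G) k ≤ S.E) : Wtv G (0 : V) (k + 2) := by
  intro g hg x
  have h1 := dser_mono (le_top (a := MulAction.stabilizer G (0 : V))) (k + 2) hg
  rw [S.dser_top_eq_bot hk, mem_bot] at h1
  rw [h1, one_smul]

/-- many inequivalent nonzero vectors -/
theorem orb_nonzero [Group.IsSolvable G] {k n : ℕ} (hk : dser (⊤ : Subgroup G) k ≤ S.E)
    (hn : n * Nat.card G < Nat.card V - 1) : Orb G V (n + 1) (k + 1) := by
  rw [← nonzero_ncard] at hn
  obtain ⟨v, hv, hvv⟩ := exists_ineq (G := G) _ n hn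
  exact ⟨v, hvv, fun i => S.wt_of_dser hk (hv i)⟩

include S in
/-- the quasi-primitive groups are of one of the four types -/
theorem ty [Group.IsSolvable G] (hirr : Irr G V) : Ty G V := by
  obtain ⟨e, he⟩ := S.exists_sq
  have hs0 := S.s_pos
  have he0 : 0 < e := by
    rcases Nat.eq_zero_or_pos e with h | h
    · rw [h] at he
      norm_num at he
      omega
    · exact h
  set q := Nat.card K with hq
  set m := Module.finrank K V with hm
  have hq2 : 2 ≤ q := Finite.one_lt_card
  have hV : Nat.card V = q ^ m := QP.card_V_eq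
  have hem : e ≤ m := by
    have h1 := S.s_le'
    rw [he] at h1
    exact (Nat.pow_le_pow_iff_left (by norm_num)).1 h1
  have hprimes : ∀ r, r.Prime → r ∣ e → r ∣ q - 1 ∧ r ∣ m := by
    intro r hr hrs
    obtain ⟨h1, h2⟩ := S.prime_dvd hr (by rw [he, sq]; exact hrs.mul_left e)
    exact ⟨h1.trans S.card_U_dvd, h2⟩
  have hrel : S.E.relIndex S.A ≤ e ^ (2 * om e + 1) := by
    have h1 := S.relIndex_E_A
    rw [he, om_sq he0.ne'] at h1
    have h2 : (e ^ 2) ^ (2 * om e + 1) = (e ^ (2 * om e + 1)) ^ 2 := by ring
    rw [h2] at h1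
    exact (Nat.pow_le_pow_iff_left (by norm_num)).1 h1
  have hG : Nat.card G ≤ (q - 1) * e ^ 2 * e ^ (2 * om e + 1) * Nat.log 2 q := by
    have h1 := S.card_G_le hrel
    rwa [he] at h1
  by_cases h513 : 513 ≤ e
  · -- regular orbits
    have hq3 : 3 ≤ q := by
      obtain ⟨r, hr, hre⟩ := Nat.exists_prime_and_dvd (show e ≠ 1 by omega)
      have h1 := Nat.le_of_dvd (by omega) (hprimes r hr hre).1
      have h2 := hr.two_le
      omega
    have h1 : (2 * Nat.card G) ^ 4 ≤ Nat.card V := by
      rw [hV]
      exact (Nat.pow_le_pow_left (Nat.mul_le_mul_left _ hG) 4).trans (numA hq3 h513 hem)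
    exact Or.inr (Or.inr (Or.inr ((orb_regular (fun x hx => S.fx_le hx) h1).mono le_rfl (by norm_num))))
  have hE8 : dser (⊤ : Subgroup G) 8 ≤ S.E := by
    refine S.dser_le_E_of (by norm_num) fun n hn hn1 => ?_
    rw [he] at hn
    have h1 : n ≤ 512 ^ 2 := (Nat.le_of_dvd (by positivity) hn).trans (Nat.pow_le_pow_left (by omega) 2)
    norm_num at h1
    refine (dln n h1).mono ?_
    exact (gB_mono h1).trans (by decide)
  by_cases hmid : 17 ≤ e ∧ e ≠ 32
  · refine Or.inr (Or.inr (Or.inr (S.orb_nonzero hE8 ?_)))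
    rw [hV]
    exact lt_of_le_of_lt (Nat.mul_le_mul_left _ hG)
      (numB (fun r hr hre => (hprimes r hr hre).1) hq2 hmid.1 (by omega) hmid.2 hem)
  have hsmall : e ≤ 16 ∨ e = 32 := by omega
  by_cases hE5 : dser (⊤ : Subgroup G) 5 ≤ S.E
  · -- derived length at most seven
    by_cases htr : ∀ v w : V, v ≠ 0 → w ≠ 0 → ∃ g : G, g • v = w
    · have h1 := dl_transitive hirr S.faithful htr
      refine Or.inl (orb_cons ?_ ?_)
      · intro g hg x
        exact h1 g (dser_mono le_top _ hg) x
      · obtain ⟨a, ha⟩ := exists_ne (0 : V)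
        refine ⟨fun _ => a, fun _ => ⟨ha, fun g hg x => h1 g (dser_mono le_top _ hg) x⟩, ?_⟩
        intro i j hij
        exact absurd (Subsingleton.elim i j) hij
    · push Not at htr
      obtain ⟨a, b, ha, hb, hab⟩ := htr
      have hv : ∃ v : Fin 2 → V, (∀ i, v i ≠ 0 ∧ Wtv G (v i) 6) ∧ ∀ i j, i ≠ j → ∀ g : G, g • v i ≠ v j := by
        refine ⟨![a, b], ?_, ?_⟩
        · intro i
          fin_cases i
          · exact ⟨ha, S.wt_of_dser hE5 ha⟩
          · exact ⟨hb, S.wt_of_dser hE5 hb⟩
        · intro i j hij g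
          fin_cases i <;> fin_cases j
          · exact absurd rfl hij
          · exact hab g
          · intro h
            apply hab g⁻¹
            have h1 : g • b = a := h
            rw [← h1, inv_smul_smul]
          · exact absurd rfl hij
      refine Or.inr (Or.inl ⟨?_, ?_⟩)
      · obtain ⟨v, h1, h2⟩ := hv
        exact orb_cons (S.wt_zero hE5) ⟨v, fun i => ⟨(h1 i).1, (h1 i).2.mono (by norm_num)⟩, h2⟩
      · obtain ⟨v, h1, h2⟩ := hv
        exact ⟨v, h2, fun i => (h1 i).2⟩
  · -- a chief factor of order 64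
    obtain ⟨N, hN, hN5⟩ : ∃ N ∈ S.Mn, ¬ dser (⊤ : Subgroup G) 5 ≤ cenMod S.U N := by
      by_contra hcon
      push Not at hcon
      exact hE5 (S.dser_le_E (by norm_num) hcon)
    obtain ⟨X, i1, i2, i3, hXirr, hXc, hX⟩ := S.mn_mod hN
    have hXDL : ¬ DL G X 5 := by rwa [DL.iff_le hX]
    obtain ⟨hns, hn1⟩ := S.relIndex_mn hN
    rw [he] at hns
    have h64 : S.U.relIndex N = 64 := by
      by_contra hne
      exact hXDL (dln5 hsmall he0 hns hne (by rw [← hXc]; exact hXirr.isPrimePow) G X hXirr hXc)
    rw [h64] at hXc hns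
    obtain ⟨him1, him2⟩ := im64 hXirr hXc hXDL
    rw [card_im hX] at him1 him2
    have h8e : 8 ∣ e := by
      have h1 : 8 ^ 2 ∣ e ^ 2 := hns
      exact (Nat.pow_dvd_pow_iff (by norm_num)).1 h1
    have he3 : e = 8 ∨ e = 16 ∨ e = 32 := by
      obtain ⟨k, hk⟩ := h8e
      omega
    have hNn := hN.1
    have hAN : (S.AX N).relIndex S.A ∣ (cenMod S.U N).index := by
      have h1 : (S.AX N).relIndex S.A = (cenMod S.U N).relIndex S.A := by
        rw [AX, inf_relIndex_right]
      rw [h1]
      have : (cenMod S.U N).Normal := by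
        rw [cenMod]
        have : (N.map (QuotientGroup.mk' S.U)).Normal := Normal.map inferInstance _ (QuotientGroup.mk'_surjective S.U)
        infer_instance
      exact relIndex_dvd_index_of_normal _ _
    have hANle : (S.AX N).relIndex S.A ≤ 1458 := by
      refine (Nat.le_of_dvd ?_ hAN).trans him1
      exact Nat.pos_of_ne_zero index_ne_zero_of_finite
    have hmul : S.E.relIndex (S.AX N) * (S.AX N).relIndex S.A = S.E.relIndex S.A :=
      relIndex_mul_relIndex _ _ _ (S.E_le_AX (S.Mn_le_E hN)) inf_le_right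
    have hNE : 64 * N.relIndex S.E = e ^ 2 := by
      rw [← he, ← h64, s]
      exact relIndex_mul_relIndex _ _ _ hN.2.1.le (S.Mn_le_E hN)
    have hch := S.chain _ N hN.2.1.le (S.Mn_le_E hN) rfl
    have hq3 : 3 ≤ q ∧ 2 ∣ q - 1 ∧ 2 ∣ m := by
      have h2e : 2 ∣ e := (by norm_num : 2 ∣ 8).trans h8e
      obtain ⟨h1, h2⟩ := hprimes 2 Nat.prime_two h2e
      exact ⟨by omega, h1, h2⟩
    rcases he3 with rfl | rfl | rfl
    · -- `e = 8`
      have hN1 : N.relIndex S.E = 1 := by omega
      rw [hN1] at hch
      have hE1 : S.E.relIndex (S.AX N) = 1 := by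
        have h1 : S.E.relIndex (S.AX N) ≠ 0 := relIndex_ne_zero' _ _
        have h3 : S.E.relIndex (S.AX N) ^ 2 ≤ 1 := by simpa using hch
        have h4 : S.E.relIndex (S.AX N) ≤ 1 := by
          by_contra hlt
          push Not at hlt
          have : 2 ^ 2 ≤ (S.E.relIndex (S.AX N)) ^ 2 := Nat.pow_le_pow_left hlt 2
          omega
        omega
      rw [hE1, one_mul] at hmul
      have hEA : S.E.relIndex S.A ≤ 1458 := by rw [← hmul]; exact hANle
      have hG2 := S.card_G_le hEA
      rw [he, ← hq] at hG2
      have hE6 : dser (⊤ : Subgroup G) 6 ≤ S.E := by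
        refine S.dser_le_E_of (by norm_num) fun n hn hn1 => ?_
        rw [he] at hn
        have h1 : n ≤ 64 := Nat.le_of_dvd (by positivity) hn
        refine (dln n (by omega)).mono ?_
        exact (gB_mono h1).trans (by decide)
      have hv : ∃ v : Fin 3 → V, (∀ i, v i ≠ 0) ∧ ∀ i j, i ≠ j → ∀ g : G, g • v i ≠ v j := by
        by_cases hlt : 2 * Nat.card G < Nat.card V - 1
        · rw [← nonzero_ncard] at hlt
          exact exists_ineq (G := G) _ 2 hlt
        · -- the small cases
          have hlt' : q ^ m - 1 ≤ 2 * ((q - 1) * 8 ^ 2 * 1458 * Nat.log 2 q) := by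
            rw [hV] at hlt
            omega
          have hcases : (q = 3 ∧ (m = 8 ∨ m = 10)) ∨ (q = 5 ∧ m = 8) := by
            have hq8 : q ≤ 8 := by
              by_contra h9
              push Not at h9
              have h1 := Nat.log_le_self 2 q
              have h2 : q ^ 8 ≤ q ^ m := Nat.pow_le_pow_right (by omega) hem
              have h3 : 9 ^ 6 ≤ q ^ 6 := Nat.pow_le_pow_left h9 6
              have h4 : 2 * ((q - 1) * 8 ^ 2 * 1458 * Nat.log 2 q) ≤ (q - 1) * (186624 * q) := by
                calc 2 * ((q - 1) * 8 ^ 2 * 1458 * Nat.log 2 q) = (q - 1) * (186624 * Nat.log 2 q) := by ring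
                  _ ≤ _ := Nat.mul_le_mul_left _ (Nat.mul_le_mul_left _ h1)
              have h5 : (q - 1) * (186624 * q) ≤ (q - 1) * (q ^ 6 * q) :=
                Nat.mul_le_mul_left _ (Nat.mul_le_mul_right _ (le_trans (by norm_num) h3))
              have h6 : (q - 1) * (q ^ 6 * q) + q ^ 7 = q ^ 8 := by
                obtain ⟨r, hr⟩ : ∃ r, q = r + 1 := ⟨q - 1, by omega⟩
                rw [hr, Nat.add_sub_cancel]
                ring
              have h7 : 2 ≤ q ^ 7 := by
                calc 2 ≤ 2 ^ 7 := by norm_num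
                  _ ≤ q ^ 7 := Nat.pow_le_pow_left hq2 7
              omega
            have hm12 : m < 12 := by
              by_contra h12
              push Not at h12
              have h2 : q ^ 12 ≤ q ^ m := Nat.pow_le_pow_right (by omega) h12
              have h3 : Nat.log 2 q ≤ 3 := by
                have : Nat.log 2 q < 4 := Nat.log_lt_of_lt_pow (by omega) (by omega)
                omega
              have h4 : 2 * ((q - 1) * 8 ^ 2 * 1458 * Nat.log 2 q) ≤ 2 * ((q - 1) * 8 ^ 2 * 1458 * 3) :=
                Nat.mul_le_mul_left _ (Nat.mul_le_mul_left _ h3)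
              by_cases h3q : q = 3
              · have h5 : Nat.log 2 3 = 1 := by rw [Nat.log_eq_iff] <;> norm_num
                rw [h3q, h5] at hlt'
                rw [h3q] at h2
                norm_num at hlt' h2
                omega
              · have h6 : 4 ^ 12 ≤ q ^ 12 := Nat.pow_le_pow_left (by omega) 12
                norm_num at h6
                omega
            obtain ⟨hq3', hq1, hm1⟩ := hq3
            have hmm : m = 8 ∨ m = 10 := by omega
            have hqq : q = 3 ∨ q = 5 ∨ q = 7 := by omega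
            rcases hqq with h | h | h
            · exact Or.inl ⟨h, hmm⟩
            · rcases hmm with h' | h'
              · exact Or.inr ⟨h, h'⟩
              · exfalso
                have h5 : Nat.log 2 5 = 2 := by rw [Nat.log_eq_iff] <;> norm_num
                rw [h, h', h5] at hlt'
                norm_num at hlt'
            · exfalso
              have h5 : Nat.log 2 7 = 2 := by rw [Nat.log_eq_iff] <;> norm_num
              have h6 : 7 ^ 8 ≤ 7 ^ m := Nat.pow_le_pow_right (by norm_num) hem
              rw [h, h5] at hlt'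
              norm_num at hlt' h6
              omega
          -- the order of `G`
          have hSm : Sm (Nat.card G) := by
            intro r hr hd
            rw [S.card_G_eq, he, ← hmul] at hd
            have hle4 : Nat.card S.U ∣ q - 1 := S.card_U_dvd
            have hAi := S.index_A_le
            rw [← hq] at hAi
            rcases (Nat.Prime.dvd_mul hr).1 hd with h | h
            · rcases (Nat.Prime.dvd_mul hr).1 h with h | h
              · rcases (Nat.Prime.dvd_mul hr).1 h with h | h
                · have h1 := h.trans hle4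
                  have h2 : q - 1 = 2 ∨ q - 1 = 2 ^ 2 := by omega
                  rcases h2 with h2 | h2
                  · rw [h2] at h1
                    exact (Nat.le_of_dvd (by norm_num) h1).trans (by norm_num)
                  · rw [h2] at h1
                    exact (Nat.le_of_dvd (by norm_num) (hr.dvd_of_dvd_pow h1)).trans (by norm_num)
                · have h1 : r ∣ 2 ^ 6 := by simpa using h
                  exact (Nat.le_of_dvd (by norm_num) (hr.dvd_of_dvd_pow h1)).trans (by norm_num)
              · exact him2 r hr (h.trans hAN)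
            · have h1 : Nat.log 2 q ≤ 3 := by
                have : Nat.log 2 q < 4 := Nat.log_lt_of_lt_pow (by omega) (by omega)
                omega
              exact (Nat.le_of_dvd (Nat.pos_of_ne_zero index_ne_zero_of_finite) h).trans (hAi.trans h1)
          have hN0 : ∃ N0, Nat.card V - 1 = N0 ∧ N0 < 2 ^ 19 ∧ N0 ≠ 0 ∧ ¬ N0 ∣ 2 ^ 18 * 3 ^ 11 ∧
              ∀ a < 19, ∀ b < 12, 2 ^ a * 3 ^ b < N0 → ¬ (N0 - 2 ^ a * 3 ^ b) ∣ 2 ^ 18 * 3 ^ 11 := by
            rcases hcases with ⟨h1, h2 | h2⟩ | ⟨h1, h2⟩
            · refine ⟨6560, ?_, by norm_num, by norm_num, by norm_num, by decide⟩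
              rw [hV, h1, h2]
              norm_num
            · refine ⟨59048, ?_, by norm_num, by norm_num, by norm_num, by decide⟩
              rw [hV, h1, h2]
              norm_num
            · refine ⟨390624, ?_, by norm_num, by norm_num, by norm_num, by decide⟩
              rw [hV, h1, h2]
              norm_num
          obtain ⟨N0, hN0, hlt0, hne0, hnd, hdec⟩ := hN0
          refine three_orbits hSm ?_ ?_ Finite.one_lt_card
          · rw [hN0]
            intro h
            exact hnd (h.dvd hne0 hlt0)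
          · intro x y hx hy hx0 hy0
            rw [hN0]
            exact smooth_sum hlt0 hdec hx hy hx0 hy0
      obtain ⟨v, hv0, hvv⟩ := hv
      exact Or.inr (Or.inr (Or.inl (orb_cons (S.wt_zero hE6)
        ⟨v, fun i => ⟨hv0 i, (S.wt_of_dser hE6 (hv0 i)).mono (by norm_num)⟩, hvv⟩)))
    · -- `e = 16`
      have hN4 : N.relIndex S.E = 4 := by omega
      rw [hN4, show om 4 = 2 from om_pow (a := 2) Nat.prime_two] at hch
      have hE1 : S.E.relIndex (S.AX N) ≤ 8 := by
        by_contra hlt
        push Not at hlt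
        have : 9 ^ 2 ≤ (S.E.relIndex (S.AX N)) ^ 2 := Nat.pow_le_pow_left hlt 2
        omega
      have hEA : S.E.relIndex S.A ≤ 8 * 1458 := by rw [← hmul]; exact Nat.mul_le_mul hE1 hANle
      have hG2 := S.card_G_le hEA
      rw [he, ← hq] at hG2
      refine Or.inr (Or.inr (Or.inr (S.orb_nonzero hE8 ?_)))
      rw [hV]
      refine lt_of_le_of_lt (Nat.mul_le_mul_left 4 hG2) ?_
      by_cases h3q : q = 3
      · have h5 : Nat.log 2 3 = 1 := by rw [Nat.log_eq_iff] <;> norm_num
        have h6 : 3 ^ 16 ≤ 3 ^ m := Nat.pow_le_pow_right (by norm_num) hem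
        rw [h3q, h5]
        norm_num at h6 ⊢
        omega
      · have h6 : 4 * (16 ^ 2 * (8 * 1458)) ≤ q ^ (16 - 2) := by
          calc 4 * (16 ^ 2 * (8 * 1458)) ≤ 4 ^ 14 := by norm_num
            _ ≤ q ^ 14 := Nat.pow_le_pow_left (by omega) 14
        have h7 := numB_of (q := q) (e := 16) (m := m) hq3.1 (by norm_num) h6 hem
        calc 4 * ((q - 1) * 16 ^ 2 * (8 * 1458) * Nat.log 2 q) =
            4 * ((q - 1) * (16 ^ 2 * (8 * 1458)) * Nat.log 2 q) := by ring
          _ < _ := h7
    · -- `e = 32`
      have hN4 : N.relIndex S.E = 16 := by omega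
      rw [hN4, show om 16 = 4 from om_pow (a := 4) Nat.prime_two] at hch
      have hE1 : S.E.relIndex (S.AX N) ≤ 1024 := by
        by_contra hlt
        push Not at hlt
        have : 1025 ^ 2 ≤ (S.E.relIndex (S.AX N)) ^ 2 := Nat.pow_le_pow_left hlt 2
        omega
      have hEA : S.E.relIndex S.A ≤ 1024 * 1458 := by rw [← hmul]; exact Nat.mul_le_mul hE1 hANle
      have hG2 := S.card_G_le hEA
      rw [he, ← hq] at hG2
      refine Or.inr (Or.inr (Or.inr (S.orb_nonzero hE8 ?_)))
      rw [hV]
      refine lt_of_le_of_lt (Nat.mul_le_mul_left 4 hG2) ?_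
      have h6 : 4 * (32 ^ 2 * (1024 * 1458)) ≤ q ^ (32 - 2) := by
        calc 4 * (32 ^ 2 * (1024 * 1458)) ≤ 3 ^ 30 := by norm_num
          _ ≤ q ^ 30 := Nat.pow_le_pow_left hq3.1 30
      have h7 := numB_of (q := q) (e := 32) (m := m) hq3.1 (by norm_num) h6 hem
      calc 4 * ((q - 1) * 32 ^ 2 * (1024 * 1458) * Nat.log 2 q) =
          4 * ((q - 1) * (32 ^ 2 * (1024 * 1458)) * Nat.log 2 q) := by ring
        _ < _ := h7

end QP

end Cfsg.Agent.H511.Wt
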