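import Mathlib
import Cfsg.Agent.H511.Wt.Affine
import Cfsg.Agent.H578.Comb

/-!
# Rigid colourings with four colours
-/

set_option autoImplicit false
set_option linter.style.haveILetI false
set_option linter.unusedSectionVars false

namespace Cfsg.Agent.H511.Wt

open Subgroup
open scoped Pointwise commutatorElement

universe u

/-- two sets which are not preserved by any nontrivial element -/
def Rig (G X : Type*) [Group G] [AddCommGroup X] [Finite X] [DistribMulAction G X] : Prop :=
  ∃ B C : Finset X, (0 : X) ∉ B ∧ (0 : X) ∉ C ∧ Disjoint B C ∧ B.card ≠ 1 ∧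
    1 + B.card + C.card + 1 < Nat.card X ∧ 1 + B.card + C.card + B.card < Nat.card X ∧
    1 + B.card + C.card + C.card < Nat.card X ∧
    ∀ g : G, (∀ x ∈ B, g • x ∈ B) → (∀ x ∈ C, g • x ∈ C) → ∀ x : X, g • x = x

section col

variable {X : Type*} [AddCommGroup X] [Finite X] [DecidableEq X]

/-- the colouring attached to two sets -/
def kap (B C : Finset X) (x : X) : Fin 4 := if x = 0 then 0 else if x ∈ B then 1 else if x ∈ C then 2 else 3

theorem kap_zero {B C : Finset X} {x : X} : kap B C x = 0 ↔ x = 0 := by
  unfold kap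
  split_ifs with h1 h2 h3
  · simp [h1]
  · simp [h1]
  · simp only [h1, iff_false]; decide
  · simp only [h1, iff_false]; decide

theorem kap_one {B C : Finset X} (hB : (0 : X) ∉ B) {x : X} : kap B C x = 1 ↔ x ∈ B := by
  unfold kap
  split_ifs with h1 h2 h3
  · subst h1; simp [hB]
  · simp [h2]
  · simp only [h2, iff_false]; decide
  · simp only [h2, iff_false]; decide

theorem kap_two {B C : Finset X} (hC : (0 : X) ∉ C) (hBC : Disjoint B C) {x : X} : kap B C x = 2 ↔ x ∈ C := by
  unfold kap
  split_ifs with h1 h2 h3
  · subst h1; simp only [hC, iff_false]; decide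
  · have : x ∉ C := Finset.disjoint_left.1 hBC h2
    simp only [this, iff_false]; decide
  · simp [h3]
  · simp only [h3, iff_false]; decide

theorem ncard_kap (B C : Finset X) (hB : (0 : X) ∉ B) (hC : (0 : X) ∉ C) (hBC : Disjoint B C) :
    {x | kap B C x = 0}.ncard = 1 ∧ {x | kap B C x = 1}.ncard = B.card ∧ {x | kap B C x = 2}.ncard = C.card ∧
      {x | kap B C x = 3}.ncard + (1 + B.card + C.card) = Nat.card X := by
  have h0 : {x | kap B C x = 0} = {(0 : X)} := by
    ext x; exact kap_zero
  have h1 : {x | kap B C x = 1} = (B : Set X) := by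
    ext x; exact kap_one hB
  have h2 : {x | kap B C x = 2} = (C : Set X) := by
    ext x; exact kap_two hC hBC
  have h3 : {x | kap B C x = 3} = (({0} ∪ B ∪ C : Finset X) : Set X)ᶜ := by
    ext x
    simp only [Set.mem_ofPred_eq, Set.mem_compl_iff, Finset.mem_coe, Finset.mem_union, Finset.mem_singleton]
    rw [← kap_zero (B := B) (C := C), ← kap_one (C := C) hB, ← kap_two hC hBC]
    generalize kap B C x = k
    revert k
    decide
  refine ⟨?_, ?_, ?_, ?_⟩
  · rw [h0, Set.ncard_singleton]
  · rw [h1, Set.ncard_coe_finset]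
  · rw [h2, Set.ncard_coe_finset]
  · have h4 : ({0} ∪ B ∪ C : Finset X).card = 1 + B.card + C.card := by
      rw [Finset.card_union_of_disjoint, Finset.card_union_of_disjoint, Finset.card_singleton]
      · rwa [Finset.disjoint_singleton_left]
      · rw [Finset.disjoint_union_left]
        exact ⟨by rwa [Finset.disjoint_singleton_left], hBC⟩
    rw [h3, ← h4, ← Set.ncard_coe_finset, add_comm]
    exact Set.ncard_add_ncard_compl _

end col

/-- **From rigid sets to colourings.** -/
theorem col_of_rig {G : Type u} [Group G] [Finite G] {M : Subgroup G}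
    {X : Type u} [AddCommGroup X] [Finite X] [DistribMulAction G X] (φ : X ≃ G ⧸ M) (δ : G → X)
    (hφ : ∀ g x, g • φ x = φ (g • x + δ g)) (hM : ∀ g : G, (∀ x : X, g • x = x) → δ g = 0 → g ∈ M.normalCore)
    (h : Rig G X) : Col M 4 0 := by
  classical
  obtain ⟨B, C, hB, hC, hBC, hB1, hn1, hn2, hn3, hrig⟩ := h
  obtain ⟨s0, s1, s2, s3⟩ := ncard_kap B C hB hC hBC
  -- the five permutations of the colours
  let π : Fin 5 → Equiv.Perm (Fin 4) :=
    ![Equiv.refl _, Equiv.swap 0 3, Equiv.swap 1 3, Equiv.swap 2 3, Equiv.swap 0 1]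
  let κ : G ⧸ M → Fin 4 := fun q => kap B C (φ.symm q)
  -- class sizes
  have hsize : ∀ (a : Fin 5) (j : Fin 4), {q : G ⧸ M | π a (κ q) = j}.ncard = {x : X | kap B C x = (π a).symm j}.ncard := by
    intro a j
    have h1 : {q : G ⧸ M | π a (κ q) = j} = φ '' {x : X | kap B C x = (π a).symm j} := by
      ext q
      constructor
      · intro hq
        refine ⟨φ.symm q, ?_, φ.apply_symm_apply q⟩
        change kap B C (φ.symm q) = _
        rw [Equiv.eq_symm_apply]
        exact hq
      · rintro ⟨x, hx, rfl⟩
        change π a (kap B C (φ.symm (φ x))) = j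
        rw [Equiv.symm_apply_apply, show kap B C x = (π a).symm j from hx, Equiv.apply_symm_apply]
    rw [h1, Set.ncard_image_of_injective _ φ.injective]
  refine ⟨fun a q => π a (κ q), ?_, ?_⟩
  · intro a b hab g hg
    have h1 : ∀ j, {x : X | kap B C x = (π a).symm j}.ncard = {x : X | kap B C x = (π b).symm j}.ncard := by
      intro j
      rw [← hsize, ← hsize]
      have h2 : {q : G ⧸ M | π b (κ q) = j} = (fun q => g • q) '' {q : G ⧸ M | π a (κ q) = j} := by
        ext q
        constructor
        · intro hq
          refine ⟨g⁻¹ • q, ?_, smul_inv_smul g q⟩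
          change π a (κ (g⁻¹ • q)) = j
          have h3 : π b (κ (g • g⁻¹ • q)) = π a (κ (g⁻¹ • q)) := hg _
          rw [smul_inv_smul] at h3
          rw [← h3]
          exact hq
        · rintro ⟨q, hq, rfl⟩
          change π b (κ (g • q)) = j
          have h3 : π b (κ (g • q)) = π a (κ q) := hg q
          rw [h3]
          exact hq
      rw [h2, Set.ncard_image_of_injective _ (MulAction.injective g)]
    have key : ∀ s : Fin 4 → ℕ, s 0 < s 3 → s 1 < s 3 → s 2 < s 3 → s 0 ≠ s 1 →
        (∀ j, s ((π a).symm j) = s ((π b).symm j)) → a = b := by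
      intro s k0 k1 k2 k3 hs
      have e0 := hs 0
      have e1 := hs 1
      have e2 := hs 2
      have e3 := hs 3
      by_contra hne
      fin_cases a <;> fin_cases b <;> first
        | exact absurd rfl hne
        | (simp only [π] at e0 e1 e2 e3
           revert e0 e1 e2 e3
           simp (decide := true) [Equiv.swap_apply_def]
           try omega)
    refine hab (key (fun j => {x : X | kap B C x = j}.ncard) ?_ ?_ ?_ ?_ h1)
    · change {x | kap B C x = 0}.ncard < {x | kap B C x = 3}.ncard
      omega
    · change {x | kap B C x = 1}.ncard < {x | kap B C x = 3}.ncard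
      omega
    · change {x | kap B C x = 2}.ncard < {x | kap B C x = 3}.ncard
      omega
    · change {x | kap B C x = 0}.ncard ≠ {x | kap B C x = 1}.ncard
      omega
  · intro a S hS g hg i
    have h0 : ∀ x, kap B C (g • x + δ g) = kap B C x := by
      intro x
      have h1 := (π a).injective (hS g hg (φ x))
      change kap B C (φ.symm (g • φ x)) = kap B C (φ.symm (φ x)) at h1
      rwa [hφ, Equiv.symm_apply_apply, Equiv.symm_apply_apply] at h1
    have hδ : δ g = 0 := by
      have h1 := h0 0
      rw [smul_zero, zero_add, kap_zero.2 rfl, kap_zero] at h1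
      exact h1
    simp only [hδ, add_zero] at h0
    have h1 : ∀ x : X, g • x = x := by
      refine hrig g (fun x hx => ?_) (fun x hx => ?_)
      · rw [← kap_one (C := C) hB, h0, kap_one hB]
        exact hx
      · rw [← kap_two hC hBC, h0, kap_two hC hBC]
        exact hx
    exact smul_of_mem_core (hM g h1 hδ) i

end Cfsg.Agent.H511.Wt
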