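import Mathlib
import Cfsg.Agent.H511.Wt.MinMod

/-!
# Fixed points of elements of groups of odd order
-/

set_option autoImplicit false
set_option linter.style.haveILetI false
set_option linter.unusedSectionVars false
set_option exponentiation.threshold 2000

namespace Cfsg.Agent.H511.Wt

open Subgroup
open scoped Pointwise commutatorElement

universe u

section cnt

variable {G V : Type*} [Group G] [Finite G] [AddCommGroup V] [Finite V] [DistribMulAction G V]

/-- a vector with trivial stabiliser in `H` -/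
theorem exists_free (H : Subgroup G) (h : ∀ x ∈ H, x ≠ 1 → Nat.card (fx V x) * Nat.card H ≤ Nat.card V) :
    ∃ v : V, ∀ x ∈ H, x • v = v → x = 1 := by
  classical
  letI : Fintype H := Fintype.ofFinite H
  letI : Fintype V := Fintype.ofFinite V
  by_contra hcon
  push Not at hcon
  have hpos : 0 < Nat.card V := Nat.card_pos
  have hH : 0 < Nat.card H := Nat.card_pos
  have h3 : (Set.univ : Set V) ⊆ ⋃ x ∈ ((Finset.univ : Finset H).erase 1), ((fx V (x : G) : AddSubgroup V) : Set V) := by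
    intro v _
    obtain ⟨x, hx, hxv, hx1⟩ := hcon v
    rw [Set.mem_iUnion₂]
    exact ⟨⟨x, hx⟩, Finset.mem_erase.2 ⟨fun h => hx1 (congrArg Subtype.val h), Finset.mem_univ _⟩, hxv⟩
  have h4 : Nat.card V ≤ ∑ x ∈ (Finset.univ : Finset H).erase 1, Nat.card (fx V (x : G)) := by
    rw [← Set.ncard_univ]
    refine (Set.ncard_le_ncard h3 (Set.toFinite _)).trans ?_
    have h5 : (⋃ x ∈ ((Finset.univ : Finset H).erase 1), ((fx V (x : G) : AddSubgroup V) : Set V)) =
        ↑(((Finset.univ : Finset H).erase 1).biUnion fun x => ((fx V (x : G) : AddSubgroup V) : Set V).toFinset) := by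
      ext v
      simp
    rw [h5, Set.ncard_coe_finset]
    refine Finset.card_biUnion_le.trans ?_
    refine Finset.sum_le_sum fun x _ => ?_
    rw [← Set.ncard_eq_toFinset_card']
    exact le_rfl
  have h6 : (∑ x ∈ (Finset.univ : Finset H).erase 1, Nat.card (fx V (x : G))) * Nat.card H ≤ (Nat.card H - 1) * Nat.card V := by
    rw [Finset.sum_mul]
    refine (Finset.sum_le_sum (g := fun _ => Nat.card V) fun (x : H) hx =>
      h (x : G) x.2 (fun h => Finset.ne_of_mem_erase hx (Subtype.ext h))).trans ?_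
    rw [Finset.sum_const, smul_eq_mul, Finset.card_erase_of_mem (Finset.mem_univ _), Finset.card_univ,
      Nat.card_eq_fintype_card (α := H)]
  have h7 : Nat.card V * Nat.card H ≤ (Nat.card H - 1) * Nat.card V := (Nat.mul_le_mul_right _ h4).trans h6
  have h8 : (Nat.card H - 1) * Nat.card V < Nat.card H * Nat.card V :=
    Nat.mul_lt_mul_of_pos_right (by omega) hpos
  rw [mul_comm] at h7
  omega

end cnt

theorem card_ringAut {K : Type*} [Field K] [Finite K] {p i : ℕ} (hp : p.Prime) (hK : Nat.card K = p ^ i) :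
    Nat.card (K ≃+* K) = i := by
  classical
  haveI : Fintype K := Fintype.ofFinite K
  obtain ⟨p', hchar⟩ := CharP.exists K
  have hp' : p'.Prime := (CharP.char_is_prime_or_zero K p').resolve_right (CharP.char_ne_zero_of_finite K p')
  haveI : Fact p'.Prime := ⟨hp'⟩
  letI := ZMod.algebra K p'
  have h3 : Nat.card K = p' ^ Module.finrank (ZMod p') K := by
    rw [Module.natCard_eq_pow_finrank (K := ZMod p') (V := K), Nat.card_zmod]
  have hf0 : Module.finrank (ZMod p') K ≠ 0 := (Module.finrank_pos (R := ZMod p') (M := K)).ne'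
  have hpp : p' = p := by
    have h4 : p' ∣ p ^ i := by
      rw [← hK, h3]
      exact dvd_pow_self p' hf0
    exact (Nat.prime_dvd_prime_iff_eq hp' hp).1 (hp'.dvd_of_dvd_pow h4)
  subst hpp
  have hfi : Module.finrank (ZMod p') K = i := by
    rw [h3] at hK
    exact Nat.pow_right_injective hp'.two_le hK
  -- ring automorphisms are algebra automorphisms
  let f : (K ≃+* K) ≃ (K ≃ₐ[ZMod p'] K) :=
    { toFun := fun e =>
        AlgEquiv.ofRingEquiv (f := e) (fun x => by
          have : (e : K →+* K).comp (algebraMap (ZMod p') K) = algebraMap (ZMod p') K := RingHom.ext_zmod _ _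
          exact congrArg (fun φ : ZMod p' →+* K => φ x) this)
      invFun := fun e => e.toRingEquiv
      left_inv := fun e => by
        apply RingEquiv.ext
        intro x
        rfl
      right_inv := fun e => by
        apply AlgEquiv.ext
        intro x
        rfl }
  rw [Nat.card_congr f, IsGalois.card_aut_eq_finrank (ZMod p') K, hfi]

namespace QP

variable {K V G : Type*} [Field K] [Finite K] [AddCommGroup V] [Module K V] [Finite V] [Nontrivial V]
    [Group G] [Finite G] [DistribMulAction G V] (S : QP K V G)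

theorem index_A_dvd {p i : ℕ} (hp : p.Prime) (hK : Nat.card K = p ^ i) : S.A.index ∣ i := by
  have h1 : S.A.index = Nat.card S.σ.range := by
    have h2 : S.σ.ker = S.A := S.σ_ker
    rw [← h2, index_ker]
  rw [h1, ← card_ringAut hp hK]
  exact Subgroup.card_subgroup_dvd_card _

/-- chief factors below `E` have square order -/
theorem mn_sq [Group.IsSolvable G] {N : Subgroup G} (hN : N ∈ S.Mn) : ∃ f : ℕ, S.U.relIndex N = f ^ 2 := by
  refine Cfsg.Agent.H348.Trans.exists_sq S.U N hN.2.1.le S.ι S.ι_injective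
    (fun _ hx _ hy => S.comm_mem_U (S.mn_comm hN) hx hy) (fun _ hx _ ha => S.A_comm_U (hN.2.2.1 hx) ha) ?_
  have hNn := hN.1
  have h1 := S.U_max (N ⊓ centralizer (N : Set G)) inferInstance (le_inf hN.2.1.le (by
    intro u hu
    rw [mem_centralizer_iff]
    intro x hx
    exact S.A_comm_U (hN.2.2.1 hx) hu)) (by
    rintro a ⟨ha, _⟩ b ⟨_, hb⟩
    exact mem_centralizer_iff.1 hb a ha)
  exact h1.le

theorem fx_E_odd [Group.IsSolvable G] (hodd : Odd (Nat.card G)) {x : G} (hx : x ∈ S.E) (hxU : x ∉ S.U) :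
    Nat.card (fx V x) ^ 3 ≤ Nat.card V := by
  have h1 : x ∉ centralizer (S.E : Set G) := by rwa [S.centralizer_E]
  rw [mem_centralizer_iff] at h1
  push Not at h1
  obtain ⟨y, hy, hxy⟩ := h1
  have h2 : y * x * y⁻¹ * x⁻¹ ∈ S.U := S.comm_mem_U S.E_comm hy hx
  set ω := y * x * y⁻¹ * x⁻¹ with hω
  have h3 : ω ≠ 1 := by
    rw [hω, Ne, mul_inv_eq_one, mul_inv_eq_iff_eq_mul]
    exact hxy
  have hxA := S.E_le_A hx
  have hyA := S.E_le_A hy
  have c1 : y * x * y⁻¹ = ω * x := by rw [hω]; group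
  have c2 : y * (ω * x) * y⁻¹ = ω * (ω * x) := by
    have h4 : y * ω = ω * y := S.A_comm_U hyA h2
    calc y * (ω * x) * y⁻¹ = (y * ω) * x * y⁻¹ := by group
      _ = ω * (y * x * y⁻¹) := by rw [h4]; group
      _ = _ := by rw [c1]
  have e1 : Nat.card (fx V (ω * x)) = Nat.card (fx V x) := by rw [← c1]; exact card_fx_conj x y
  have e2 : Nat.card (fx V (ω * (ω * x))) = Nat.card (fx V x) := by rw [← c2, card_fx_conj, e1]
  -- scalars
  set ζ : K := ((S.ι ⟨ω, h2⟩ : Kˣ) : K) with hζ
  have hζs : ∀ v : V, ω • v = ζ • v := fun v => S.ι_spec ⟨ω, h2⟩ v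
  have hζ0 : ζ ≠ 0 := (S.ι ⟨ω, h2⟩).ne_zero
  have hζ2 : ζ ^ 2 ≠ 1 := by
    intro h
    have h5 : ω ^ 2 = 1 := by
      apply S.faithful
      intro v
      rw [pow_two, mul_smul, hζs, hζs, smul_smul, ← pow_two, h, one_smul]
    have h6 : orderOf ω ∣ 2 := orderOf_dvd_of_pow_eq_one h5
    have h7 : Odd (orderOf ω) := Odd.of_dvd_nat hodd (_root_.orderOf_dvd_natCard ω)
    rcases (Nat.dvd_prime Nat.prime_two).1 h6 with h8 | h8
    · exact h3 (orderOf_eq_one_iff.1 h8)
    · rw [h8] at h7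
      exact absurd h7 (by decide)
  have hζ1 : ζ ≠ 1 := by
    intro h
    rw [h] at hζ2
    exact hζ2 (one_pow 2)
  have hσ : S.σ x = 1 := by
    have h4 : x ∈ S.σ.ker := by rw [S.σ_ker]; exact hxA
    exact h4
  have hxs : ∀ (k : K) (v : V), x • (k • v) = k • (x • v) := fun k v => by rw [S.σ_spec, hσ]; rfl
  -- the injection
  have hinj : Function.Injective (fun p : (fx V x) × (fx V (ω * x)) × (fx V (ω * (ω * x))) =>
      (p.1 : V) + p.2.1 + p.2.2) := by
    rintro ⟨a, b, c⟩ ⟨a', b', c'⟩ h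
    have h0 : ((a : V) - a') + ((b : V) - b') + ((c : V) - c') = 0 := by
      have h' : (a : V) + b + c = a' + b' + c' := h
      calc ((a : V) - a') + ((b : V) - b') + ((c : V) - c') = (a + b + c) - (a' + b' + c') := by abel
        _ = 0 := by rw [h', sub_self]
    have ha : ((a : V) - a') ∈ fx V x := (fx V x).sub_mem a.2 a'.2
    have hb : ((b : V) - b') ∈ fx V (ω * x) := (fx V (ω * x)).sub_mem b.2 b'.2
    have hc : ((c : V) - c') ∈ fx V (ω * (ω * x)) := (fx V _).sub_mem c.2 c'.2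
    have key : ((a : V) - a') = 0 ∧ ((b : V) - b') = 0 ∧ ((c : V) - c') = 0 := by
      revert ha hb hc h0
      generalize (a : V) - a' = u1
      generalize (b : V) - b' = u2
      generalize (c : V) - c' = u3
      intro h0 ha hb hc
      have ha' : x • u1 = u1 := ha
      have hb' : ζ • (x • u2) = u2 := by rw [← hζs, ← mul_smul]; exact hb
      have hc' : ζ • (ζ • (x • u3)) = u3 := by rw [← hζs, ← hζs, ← mul_smul, ← mul_smul, mul_assoc]; exact hc
      have hx0 : x • u1 + x • u2 + x • u3 = 0 := by rw [← smul_add, ← smul_add, h0, smul_zero]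
      have h4 : (ζ ^ 2) • u1 + ζ • u2 + u3 = 0 := by
        have h5 : (ζ ^ 2) • (x • u1 + x • u2 + x • u3) = 0 := by rw [hx0, smul_zero]
        rw [smul_add, smul_add, ha', pow_two, mul_smul, mul_smul, mul_smul, hb', hc'] at h5
        rw [pow_two, mul_smul]
        exact h5
      have hx4 : (ζ ^ 2) • u1 + ζ • (x • u2) + x • u3 = 0 := by
        have h5 : x • ((ζ ^ 2) • u1 + ζ • u2 + u3) = 0 := by rw [h4, smul_zero]
        rwa [smul_add, smul_add, hxs, hxs, ha'] at h5
      have h6 : (ζ ^ 4) • u1 + (ζ ^ 2) • u2 + u3 = 0 := by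
        have h5 : (ζ ^ 2) • ((ζ ^ 2) • u1 + ζ • (x • u2) + x • u3) = 0 := by rw [hx4, smul_zero]
        rw [hb', smul_add, smul_add] at h5
        have h7 : (ζ ^ 2) • (x • u3) = u3 := by rw [pow_two, mul_smul, hc']
        rw [h7, smul_smul] at h5
        have h8 : ζ ^ 4 = ζ ^ 2 * ζ ^ 2 := by ring
        rw [h8]
        exact h5
      have h9 : ((ζ ^ 2 - 1) * (ζ * (ζ - 1))) • u1 = 0 := by
        linear_combination (norm := module) h6 - (ζ + 1) • h4 + ζ • h0
      have hu1 : u1 = 0 := by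
        refine (smul_eq_zero.1 h9).resolve_left ?_
        exact mul_ne_zero (sub_ne_zero.2 hζ2) (mul_ne_zero hζ0 (sub_ne_zero.2 hζ1))
      rw [hu1, smul_zero, zero_add] at h4
      rw [hu1, zero_add] at h0
      have h10 : (ζ - 1) • u2 = 0 := by
        linear_combination (norm := module) h4 - h0
      have hu2 : u2 = 0 := (smul_eq_zero.1 h10).resolve_left (sub_ne_zero.2 hζ1)
      rw [hu2, zero_add] at h0
      exact ⟨hu1, hu2, h0⟩
    obtain ⟨k1, k2, k3⟩ := key
    exact Prod.ext (Subtype.ext (sub_eq_zero.1 k1))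
      (Prod.ext (Subtype.ext (sub_eq_zero.1 k2)) (Subtype.ext (sub_eq_zero.1 k3)))
  have h4 := Nat.card_le_card_of_injective _ hinj
  rw [Nat.card_prod, Nat.card_prod, e1, e2] at h4
  calc Nat.card (fx V x) ^ 3 = Nat.card (fx V x) * (Nat.card (fx V x) * Nat.card (fx V x)) := by ring
    _ ≤ Nat.card V := h4

include S in
theorem fx_le_odd [Group.IsSolvable G] (hodd : Odd (Nat.card G)) {x : G} (hx : x ≠ 1) :
    Nat.card (fx V x) ^ 3 ≤ Nat.card V ^ 2 := by
  have hpos : 0 < Nat.card V := Nat.card_pos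
  have key : Nat.card (fx V x) ^ 2 ≤ Nat.card V → Nat.card (fx V x) ^ 3 ≤ Nat.card V ^ 2 := by
    intro h
    have h1 : (Nat.card (fx V x) ^ 3) ^ 2 ≤ (Nat.card V ^ 2) ^ 2 := by
      calc (Nat.card (fx V x) ^ 3) ^ 2 = (Nat.card (fx V x) ^ 2) ^ 3 := by rw [← pow_mul, ← pow_mul]
        _ ≤ Nat.card V ^ 3 := Nat.pow_le_pow_left h 3
        _ ≤ Nat.card V ^ 4 := Nat.pow_le_pow_right hpos (by norm_num)
        _ = (Nat.card V ^ 2) ^ 2 := by rw [← pow_mul]
    exact (Nat.pow_le_pow_iff_left (by norm_num)).1 h1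
  by_cases hA : x ∈ S.A
  · by_cases hE : x ∈ S.E
    · by_cases hU : x ∈ S.U
      · rw [S.fx_U hU hx, one_pow]
        exact Nat.one_le_pow _ _ hpos
      · refine (S.fx_E_odd hodd hE hU).trans ?_
        calc Nat.card V = Nat.card V ^ 1 := (pow_one _).symm
          _ ≤ Nat.card V ^ 2 := Nat.pow_le_pow_right hpos (by norm_num)
    · -- elements of `A` outside `E`
      have h1 : x ∉ cenMod S.U S.E := fun h => hE (S.cenMod_E_inf_A ▸ ⟨h, hA⟩)
      rw [mem_cenMod] at h1
      push Not at h1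
      obtain ⟨y, hy, hxy⟩ := h1
      have h2 : y * x * y⁻¹ * x⁻¹ ∈ S.E := by
        have h3 : x * y⁻¹ * x⁻¹ ∈ S.E := S.instENormal.conj_mem _ (S.E.inv_mem hy) x
        have h4 : y * x * y⁻¹ * x⁻¹ = y * (x * y⁻¹ * x⁻¹) := by group
        rw [h4]
        exact S.E.mul_mem hy h3
      have h3 : y * x * y⁻¹ * x⁻¹ ∉ S.U := by
        intro h
        apply hxy
        rw [← commutatorElement_inv]
        exact S.U.inv_mem h
      have h4 := card_fx_sq_le (V := V) x y
      have h5 := S.fx_E_odd hodd h2 h3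
      have h6 : (Nat.card (fx V x) ^ 3) ^ 2 ≤ (Nat.card V ^ 2) ^ 2 := by
        calc (Nat.card (fx V x) ^ 3) ^ 2 = (Nat.card (fx V x) ^ 2) ^ 3 := by rw [← pow_mul, ← pow_mul]
          _ ≤ (Nat.card V * Nat.card (fx V (y * x * y⁻¹ * x⁻¹))) ^ 3 := Nat.pow_le_pow_left h4 3
          _ = Nat.card V ^ 3 * Nat.card (fx V (y * x * y⁻¹ * x⁻¹)) ^ 3 := by rw [mul_pow]
          _ ≤ Nat.card V ^ 3 * Nat.card V := Nat.mul_le_mul_left _ h5
          _ = (Nat.card V ^ 2) ^ 2 := by ring
      exact (Nat.pow_le_pow_iff_left (by norm_num)).1 h6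
  · exact key (S.fx_G hA)

end QP

end Cfsg.Agent.H511.Wt
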