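import Mathlib
import Cfsg.Agent.H511.Wt.ColR
import Cfsg.Agent.H511.Wt.OddFx

/-!
# Rigid sets in irreducible modules
-/

set_option autoImplicit false
set_option linter.style.haveILetI false
set_option linter.unusedSectionVars false

namespace Cfsg.Agent.H511.Wt

open Subgroup
open scoped Pointwise commutatorElement

universe u

section basis

variable {G X : Type*} [Group G] [AddCommGroup X] [Finite X] [DistribMulAction G X]
variable {r k : ℕ} [Fact r.Prime] [Module (ZMod r) X]

theorem zsmul_comm' (g : G) (c : ZMod r) (x : X) : g • (c • x) = c • (g • x) :=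
  ZMod.map_smul (DistribSMul.toAddMonoidHom X g) c x

theorem fix_of_basis (b : Module.Basis (Fin k) (ZMod r) X) (g : G) (h : ∀ i, g • b i = b i) (x : X) : g • x = x := by
  have h1 : (DistribSMul.toAddMonoidHom X g).toZModLinearMap r = LinearMap.id := by
    refine b.ext fun i => ?_
    exact h i
  exact congrArg (fun f : X →ₗ[ZMod r] X => f x) h1

/-- coordinates -/
noncomputable def co (b : Module.Basis (Fin k) (ZMod r) X) (i : Fin k) (x : X) : ZMod r := b.repr x i

@[simp] theorem co_add (b : Module.Basis (Fin k) (ZMod r) X) (i : Fin k) (x y : X) :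
    co b i (x + y) = co b i x + co b i y := by
  unfold co
  rw [map_add, Finsupp.add_apply]

@[simp] theorem co_zero (b : Module.Basis (Fin k) (ZMod r) X) (i : Fin k) : co b i 0 = 0 := by
  unfold co
  rw [map_zero, Finsupp.zero_apply]

@[simp] theorem co_b (b : Module.Basis (Fin k) (ZMod r) X) (i j : Fin k) : co b i (b j) = if j = i then 1 else 0 := by
  unfold co
  rw [b.repr_self, Finsupp.single_apply]

theorem co_sum (b : Module.Basis (Fin k) (ZMod r) X) (i : Fin k) (I : Finset (Fin k)) :
    co b i (∑ j ∈ I, b j) = if i ∈ I then 1 else 0 := by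
  unfold co
  rw [map_sum, Finsupp.finsetSum_apply]
  have h : ∀ j ∈ I, (b.repr (b j)) i = if i = j then 1 else 0 := by
    intro j _
    rw [b.repr_self, Finsupp.single_apply]
    simp only [eq_comm]
  rw [Finset.sum_congr rfl h, Finset.sum_ite_eq]

theorem sg_inj (b : Module.Basis (Fin k) (ZMod r) X) {I J : Finset (Fin k)} (h : ∑ j ∈ I, b j = ∑ j ∈ J, b j) :
    I = J := by
  ext i
  have h1 := congrArg (co b i) h
  rw [co_sum, co_sum] at h1
  by_cases hI : i ∈ I <;> by_cases hJ : i ∈ J <;> simp_all

theorem b_ne (b : Module.Basis (Fin k) (ZMod r) X) {i j : Fin k} (h : i ≠ j) : b i ≠ b j := fun h' => by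
  have h1 := congrArg (co b i) h'
  simp [Ne.symm h] at h1

theorem b_ne_zero (b : Module.Basis (Fin k) (ZMod r) X) (i : Fin k) : b i ≠ 0 := fun h' => by
  have h1 := congrArg (co b i) h'
  simp at h1

theorem card_X (b : Module.Basis (Fin k) (ZMod r) X) : Nat.card X = r ^ k := by
  have h1 := Module.natCard_eq_pow_finrank (K := ZMod r) (V := X)
  rw [h1, Nat.card_zmod, Module.finrank_eq_card_basis b, Fintype.card_fin]

theorem two_ne_zero' (hr : r ≠ 2) : (1 + 1 : ZMod r) ≠ 0 := by
  intro h
  have h1 : ((2 : ℕ) : ZMod r) = 0 := by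
    push_cast
    rw [← h]
    norm_num
  rw [ZMod.natCast_eq_zero_iff] at h1
  exact hr ((Nat.prime_dvd_prime_iff_eq Fact.out Nat.prime_two).1 h1)

variable (G)

theorem rig_one (b : Module.Basis (Fin 1) (ZMod r) X) (h5 : 5 ≤ Nat.card X) : Rig G X := by
  classical
  refine ⟨∅, {b 0}, by simp, ?_, by simp, by simp, ?_, ?_, ?_, ?_⟩
  · rw [Finset.mem_singleton]
    exact (b_ne_zero b 0).symm
  · simp; omega
  · simp; omega
  · simp; omega
  · intro g _ hC x
    refine fix_of_basis b g (fun i => ?_) x
    have h1 := hC (b 0) (Finset.mem_singleton_self _)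
    rw [Finset.mem_singleton] at h1
    fin_cases i
    exact h1

theorem rig_two (hr : r ≠ 2) (b : Module.Basis (Fin 2) (ZMod r) X) : Rig G X := by
  classical
  have h2 := two_ne_zero' (r := r) hr
  have hr3 : 3 ≤ r := by
    have := (Fact.out : r.Prime).two_le
    omega
  have hcard : 9 ≤ Nat.card X := by
    rw [card_X b]
    calc 9 = 3 ^ 2 := by norm_num
      _ ≤ r ^ 2 := Nat.pow_le_pow_left hr3 2
  have e1 : b 1 ≠ b 0 + b 1 := fun h => by
    have := congrArg (co b 0) h
    simp at this
  have hB : ({b 1, b 0 + b 1} : Finset X).card = 2 := Finset.card_pair e1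
  refine ⟨{b 1, b 0 + b 1}, {b 0}, ?_, ?_, ?_, by rw [hB]; norm_num, ?_, ?_, ?_, ?_⟩
  · rw [Finset.mem_insert, Finset.mem_singleton]
    rintro (h | h)
    · exact b_ne_zero b 1 h.symm
    · have := congrArg (co b 0) h
      simp at this
  · rw [Finset.mem_singleton]
    exact (b_ne_zero b 0).symm
  · rw [Finset.disjoint_singleton_right, Finset.mem_insert, Finset.mem_singleton]
    rintro (h | h)
    · exact b_ne b (by decide) h
    · have := congrArg (co b 1) h
      simp at this
  · rw [hB, Finset.card_singleton]; omega
  · rw [hB, Finset.card_singleton]; omega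
  · rw [hB, Finset.card_singleton]; omega
  · intro g hB hC x
    have h0 : g • b 0 = b 0 := by simpa using hC (b 0) (Finset.mem_singleton_self _)
    have h1 : g • b 1 = b 1 := by
      have h3 := hB (b 1) (by simp)
      rw [Finset.mem_insert, Finset.mem_singleton] at h3
      rcases h3 with h3 | h3
      · exact h3
      · exfalso
        have h4 := hB (b 0 + b 1) (by simp)
        rw [Finset.mem_insert, Finset.mem_singleton, smul_add, h0, h3] at h4
        rcases h4 with h4 | h4
        · have := congrArg (co b 0) h4
          simp at this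
          exact h2 this
        · have := congrArg (co b 0) h4
          simp at this
    refine fix_of_basis b g (fun i => ?_) x
    fin_cases i
    · exact h0
    · exact h1

theorem rig_three (hr : r ≠ 2) (b : Module.Basis (Fin 3) (ZMod r) X) : Rig G X := by
  classical
  have h2 := two_ne_zero' (r := r) hr
  have hr3 : 3 ≤ r := by
    have := (Fact.out : r.Prime).two_le
    omega
  have hcard : 27 ≤ Nat.card X := by
    rw [card_X b]
    calc 27 = 3 ^ 3 := by norm_num
      _ ≤ r ^ 3 := Nat.pow_le_pow_left hr3 3
  have hB : ({b 1, b 2} : Finset X).card = 2 := Finset.card_pair (b_ne b (by decide))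
  have hC : ({b 0, b 0 + b 1, b 1 + b 2} : Finset X).card ≤ 3 := Finset.card_le_three
  refine ⟨{b 1, b 2}, {b 0, b 0 + b 1, b 1 + b 2}, ?_, ?_, ?_, by rw [hB]; norm_num, by omega, by omega, by omega, ?_⟩
  · simp only [Finset.mem_insert, Finset.mem_singleton]
    rintro (h | h)
    · exact b_ne_zero b 1 h.symm
    · exact b_ne_zero b 2 h.symm
  · simp only [Finset.mem_insert, Finset.mem_singleton]
    rintro (h | h | h)
    · exact b_ne_zero b 0 h.symm
    · have := congrArg (co b 0) h
      simp at this
    · have := congrArg (co b 1) h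
      simp at this
  · rw [Finset.disjoint_left]
    simp only [Finset.mem_insert, Finset.mem_singleton]
    rintro x (rfl | rfl) (h | h | h)
    · exact b_ne b (by decide) h
    · have := congrArg (co b 0) h
      simp at this
    · have := congrArg (co b 2) h
      simp at this
    · exact b_ne b (by decide) h
    · have := congrArg (co b 0) h
      simp at this
    · have := congrArg (co b 1) h
      simp at this
  · intro g hB hC x
    have hinj : ∀ x y : X, g • x = g • y → x = y := fun x y h => MulAction.injective g h
    have h1 : g • b 1 = b 1 ∨ g • b 1 = b 2 := by simpa using hB (b 1) (by simp)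
    have h2' : g • b 2 = b 1 ∨ g • b 2 = b 2 := by simpa using hB (b 2) (by simp)
    have h0 : g • b 0 = b 0 ∨ g • b 0 = b 0 + b 1 ∨ g • b 0 = b 1 + b 2 := by simpa using hC (b 0) (by simp)
    have h01 : g • b 0 + g • b 1 = b 0 ∨ g • b 0 + g • b 1 = b 0 + b 1 ∨ g • b 0 + g • b 1 = b 1 + b 2 := by
      have := hC (b 0 + b 1) (by simp)
      rw [smul_add] at this
      simpa only [Finset.mem_insert, Finset.mem_singleton] using this
    have h12 : b 1 ≠ b 2 := b_ne b (by decide)
    have hsum : g • (b 1 + b 2) = b 1 + b 2 := by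
      rw [smul_add]
      rcases h1 with h | h <;> rcases h2' with h' | h'
      · exact absurd (hinj _ _ (h.trans h'.symm)) h12
      · rw [h, h']
      · rw [h, h', add_comm]
      · exact absurd (hinj _ _ (h.trans h'.symm)) h12
    have g0 : g • b 0 = b 0 := by
      rcases h0 with h | h | h
      · exact h
      · exfalso
        rw [h] at h01
        rcases h1 with h3 | h3 <;> rw [h3] at h01
        · rcases h01 with h4 | h4 | h4
          · have := congrArg (co b 1) h4
            simp at this
            exact h2 this
          · have := congrArg (co b 1) h4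
            simp at this
          · have := congrArg (co b 0) h4
            simp at this
        · rcases h01 with h4 | h4 | h4
          · have := congrArg (co b 1) h4
            simp at this
          · have := congrArg (co b 2) h4
            simp at this
          · have := congrArg (co b 0) h4
            simp at this
      · exfalso
        have h4 := hinj _ _ (h.trans hsum.symm)
        have := congrArg (co b 0) h4
        simp at this
    have g1 : g • b 1 = b 1 := by
      rcases h1 with h3 | h3
      · exact h3
      · exfalso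
        rw [g0, h3] at h01
        rcases h01 with h4 | h4 | h4
        · have := congrArg (co b 2) h4
          simp at this
        · have := congrArg (co b 2) h4
          simp at this
        · have := congrArg (co b 0) h4
          simp at this
    have g2 : g • b 2 = b 2 := by
      rcases h2' with h' | h'
      · exact absurd (hinj _ _ (g1.trans h'.symm)) h12
      · exact h'
    refine fix_of_basis b g (fun i => ?_) x
    fin_cases i
    · exact g0
    · exact g1
    · exact g2

theorem rig_eight [Fact (Nat.Prime 2)] [Module (ZMod 2) X] (b : Module.Basis (Fin 3) (ZMod 2) X)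
    (hodd : Odd (Nat.card (Im G X))) : Rig G X := by
  classical
  have hcard : Nat.card X = 8 := by rw [card_X b]; norm_num
  have hB : ({b 1, b 2} : Finset X).card = 2 := Finset.card_pair (b_ne b (by decide))
  refine ⟨{b 1, b 2}, {b 0}, ?_, ?_, ?_, by rw [hB]; norm_num, ?_, ?_, ?_, ?_⟩
  · simp only [Finset.mem_insert, Finset.mem_singleton]
    rintro (h | h)
    · exact b_ne_zero b 1 h.symm
    · exact b_ne_zero b 2 h.symm
  · rw [Finset.mem_singleton]
    exact (b_ne_zero b 0).symm
  · rw [Finset.disjoint_singleton_right, Finset.mem_insert, Finset.mem_singleton]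
    rintro (h | h)
    · exact b_ne b (by decide) h
    · exact b_ne b (by decide) h
  · rw [hB, Finset.card_singleton]; omega
  · rw [hB, Finset.card_singleton]; omega
  · rw [hB, Finset.card_singleton]; omega
  · intro g hB hC x
    have hinj : ∀ x y : X, g • x = g • y → x = y := fun x y h => MulAction.injective g h
    have h0 : g • b 0 = b 0 := by simpa using hC (b 0) (Finset.mem_singleton_self _)
    have h1 : g • b 1 = b 1 ∨ g • b 1 = b 2 := by simpa using hB (b 1) (by simp)
    have h2' : g • b 2 = b 1 ∨ g • b 2 = b 2 := by simpa using hB (b 2) (by simp)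
    have h12 : b 1 ≠ b 2 := b_ne b (by decide)
    -- the square acts trivially
    have hsq : ∀ x : X, (g ^ 2) • x = x := by
      refine fix_of_basis b (g ^ 2) fun i => ?_
      rw [pow_two, mul_smul]
      fin_cases i
      · change g • g • b 0 = b 0
        rw [h0, h0]
      · change g • g • b 1 = b 1
        rcases h1 with h | h
        · rw [h, h]
        · rcases h2' with h' | h'
          · rw [h, h']
          · exact absurd (hinj _ _ (h.trans h'.symm)) h12
      · change g • g • b 2 = b 2
        rcases h2' with h | h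
        · rcases h1 with h' | h'
          · exact absurd (hinj _ _ (h'.trans h.symm)) h12
          · rw [h, h']
        · rw [h, h]
    have h3 : (toIm G X g) ^ 2 = 1 := by
      apply range_faithful
      intro x
      rw [← map_pow, toIm_smul]
      exact hsq x
    have h4 : toIm G X g = 1 := by
      have h5 : orderOf (toIm G X g) ∣ 2 := orderOf_dvd_of_pow_eq_one h3
      have h6 : Odd (orderOf (toIm G X g)) := Odd.of_dvd_nat hodd (_root_.orderOf_dvd_natCard _)
      rcases (Nat.dvd_prime Nat.prime_two).1 h5 with h7 | h7
      · exact orderOf_eq_one_iff.1 h7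
      · rw [h7] at h6
        exact absurd h6 (by decide)
    rw [← toIm_smul, h4, one_smul]

theorem val_two (n : ℕ) : ((2 : Fin (n + 4)) : ℕ) = 2 := by
  change 2 % (n + 4) = 2
  exact Nat.mod_eq_of_lt (by omega)

theorem val_one (n : ℕ) : ((1 : Fin (n + 4)) : ℕ) = 1 := by
  change 1 % (n + 4) = 1
  exact Nat.mod_eq_of_lt (by omega)

theorem val_zero (n : ℕ) : ((0 : Fin (n + 4)) : ℕ) = 0 := rfl

/-- the set system of the colour `2` in large dimension -/
def path (n : ℕ) : Finset (Finset (Fin (n + 4))) :=
  insert {0, 1, 2} ((Finset.univ : Finset (Fin (n + 3))).image fun i => {i.castSucc, i.succ})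

theorem rig_large {n : ℕ} (b : Module.Basis (Fin (n + 4)) (ZMod r) X) : Rig G X := by
  classical
  let B : Finset X := Finset.univ.image b
  let C : Finset X := (path n).image fun I => ∑ j ∈ I, b j
  have hbinj : Function.Injective b := b.injective
  have hBc : B.card = n + 4 := by
    rw [Finset.card_image_of_injective _ hbinj, Finset.card_univ, Fintype.card_fin]
  have hCc : C.card ≤ n + 4 := by
    refine Finset.card_image_le.trans ?_
    refine (Finset.card_insert_le _ _).trans ?_
    have := Finset.card_image_le (s := (Finset.univ : Finset (Fin (n + 3)))) (f := fun i => ({i.castSucc, i.succ} : Finset (Fin (n + 4))))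
    rw [Finset.card_univ, Fintype.card_fin] at this
    omega
  have hcard : 3 * (n + 4) + 1 < Nat.card X := by
    rw [card_X b]
    have h1 : 2 ^ (n + 4) ≤ r ^ (n + 4) := Nat.pow_le_pow_left (Fact.out : r.Prime).two_le _
    refine lt_of_lt_of_le ?_ h1
    clear * -
    induction n with
    | zero => norm_num
    | succ n ih =>
      rw [pow_succ]
      omega
  have hcardI : ∀ I ∈ path n, 2 ≤ I.card := by
    intro I hI
    rw [path, Finset.mem_insert, Finset.mem_image] at hI
    rcases hI with rfl | ⟨i, _, rfl⟩
    · have h1 : ({1, 2} : Finset (Fin (n + 4))).card = 2 := Finset.card_pair (by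
        intro h
        have := congrArg Fin.val h
        rw [val_one, val_two] at this
        omega)
      rw [← h1]
      exact Finset.card_le_card (by intro x hx; simp only [Finset.mem_insert, Finset.mem_singleton] at hx ⊢; tauto)
    · rw [Finset.card_pair]
      exact Fin.castSucc_lt_succ.ne
  have hB0 : (0 : X) ∉ B := by
    intro h
    obtain ⟨i, _, hi⟩ := Finset.mem_image.1 h
    exact b_ne_zero b i hi
  have hC0 : (0 : X) ∉ C := by
    intro h
    obtain ⟨I, hI, hI0⟩ := Finset.mem_image.1 h
    have h1 : I = ∅ := sg_inj b (by rw [hI0, Finset.sum_empty])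
    have h2 := hcardI I hI
    rw [h1, Finset.card_empty] at h2
    omega
  have hBC : Disjoint B C := by
    rw [Finset.disjoint_left]
    intro x hx hx'
    obtain ⟨i, _, rfl⟩ := Finset.mem_image.1 hx
    obtain ⟨I, hI, hI0⟩ := Finset.mem_image.1 hx'
    have h1 : I = {i} := sg_inj b (by rw [Finset.sum_singleton]; exact hI0)
    have h2 := hcardI I hI
    rw [h1, Finset.card_singleton] at h2
    omega
  refine ⟨B, C, hB0, hC0, hBC, by omega, by omega, by omega, by omega, ?_⟩
  intro g hB hC
  -- the permutation of the basis
  have hπ : ∀ i, ∃ j, b j = g • b i := by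
    intro i
    obtain ⟨j, _, hj⟩ := Finset.mem_image.1 (hB (b i) (Finset.mem_image_of_mem _ (Finset.mem_univ i)))
    exact ⟨j, hj⟩
  choose π hπ using hπ
  have hπi : Function.Injective π := by
    intro i j h
    apply hbinj
    apply MulAction.injective g
    change g • b i = g • b j
    rw [← hπ, ← hπ, h]
  have hI : ∀ I ∈ path n, I.image π ∈ path n := by
    intro I hI
    obtain ⟨J, hJ, hJI⟩ := Finset.mem_image.1 (hC _ (Finset.mem_image_of_mem _ hI))
    have h1 : J = I.image π := by
      apply sg_inj b
      rw [Finset.sum_image (fun x _ y _ h => hπi h)]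
      have h2 : (∑ j ∈ J, b j) = g • ∑ j ∈ I, b j := hJI
      rw [h2, Finset.smul_sum]
      exact Finset.sum_congr rfl fun j _ => (hπ j).symm
    rw [← h1]
    exact hJ
  have h012 : ({0, 1, 2} : Finset (Fin (n + 4))).card = 3 := by
    rw [Finset.card_eq_three]
    refine ⟨0, 1, 2, ?_, ?_, ?_, rfl⟩ <;>
    · intro h
      have h' := congrArg Fin.val h
      simp only [val_zero, val_one, val_two] at h'
      omega
  -- steps
  have hstep : ∀ i : Fin (n + 3), ((π i.succ : ℕ) : ℤ) = (π i.castSucc : ℕ) + 1 ∨
      ((π i.succ : ℕ) : ℤ) = (π i.castSucc : ℕ) - 1 := by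
    intro i
    have h1 := hI {i.castSucc, i.succ} (Finset.mem_insert_of_mem (Finset.mem_image_of_mem _ (Finset.mem_univ i)))
    rw [Finset.image_insert, Finset.image_singleton] at h1
    have h2 : π i.castSucc ≠ π i.succ := fun h => Fin.castSucc_lt_succ.ne (hπi h)
    rw [path, Finset.mem_insert, Finset.mem_image] at h1
    rcases h1 with h1 | ⟨j, _, hj⟩
    · exfalso
      have h3 := congrArg Finset.card h1
      rw [h012, Finset.card_pair h2] at h3
      omega
    · have h3 : π i.castSucc ∈ ({j.castSucc, j.succ} : Finset (Fin (n + 4))) := by rw [hj]; simp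
      have h4 : π i.succ ∈ ({j.castSucc, j.succ} : Finset (Fin (n + 4))) := by rw [hj]; simp
      rw [Finset.mem_insert, Finset.mem_singleton] at h3 h4
      rcases h3 with h3 | h3 <;> rcases h4 with h4 | h4
      · exact absurd (h3.trans h4.symm) h2
      · left
        rw [h3, h4]
        simp
      · right
        rw [h3, h4]
        simp
      · exact absurd (h3.trans h4.symm) h2
  have h0 : (π 0 : ℕ) ≤ 2 := by
    have h1 := hI {0, 1, 2} (Finset.mem_insert_self _ _)
    rw [path, Finset.mem_insert, Finset.mem_image] at h1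
    rcases h1 with h1 | ⟨j, _, hj⟩
    · have h2 : π 0 ∈ ({0, 1, 2} : Finset (Fin (n + 4))) := by
        rw [← h1]
        exact Finset.mem_image_of_mem _ (by simp)
      simp only [Finset.mem_insert, Finset.mem_singleton] at h2
      rcases h2 with h2 | h2 | h2 <;> rw [h2] <;> simp only [val_zero, val_one, val_two] <;> omega
    · exfalso
      have h3 := congrArg Finset.card hj
      rw [Finset.card_image_of_injective _ hπi, h012, Finset.card_pair Fin.castSucc_lt_succ.ne] at h3
      omega
  -- the walk
  let f : ℕ → ℤ := fun i => if h : i < n + 4 then ((π ⟨i, h⟩ : ℕ) : ℤ) else 0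
  have hf : ∀ i (h : i < n + 4), f i = ((π ⟨i, h⟩ : ℕ) : ℤ) := fun i h => dif_pos h
  have hw := Cfsg.Agent.H578.Comb.walk (n + 4) f (by
    intro i hi
    rw [hf i (by omega), hf (i + 1) hi]
    exact hstep ⟨i, by omega⟩) (by
    intro i j hi hj hij
    rw [hf i hi, hf j hj] at hij
    have h1 : (⟨i, hi⟩ : Fin (n + 4)) = ⟨j, hj⟩ := hπi (Fin.ext (by exact_mod_cast hij))
    exact congrArg Fin.val h1)
  have hf0 : f 0 = ((π 0 : ℕ) : ℤ) := hf 0 (by omega)
  have hlast := hf (n + 3) (by omega)
  have hlt := (π ⟨n + 3, by omega⟩).2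
  have hid : ∀ i, π i = i := by
    rcases hw with hw | hw
    · have h1 := hw (n + 3) (by omega)
      have h2 : f 0 = 0 := by
        rw [hlast, hf0] at h1
        rw [hf0]
        push_cast at h1
        omega
      intro i
      apply Fin.ext
      have h3 := hw i i.2
      rw [hf i i.2, h2, zero_add] at h3
      exact_mod_cast h3
    · exfalso
      have h1 := hw (n + 3) (by omega)
      rw [hlast, hf0] at h1
      push_cast at h1
      omega
  exact fix_of_basis b g fun i => by rw [← hπ, hid]

end basis

/-- solvable irreducible groups on eight vectors have odd order -/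
theorem odd_of_eight {G X : Type u} [Group G] [Finite G] [Group.IsSolvable G] [AddCommGroup X] [Finite X]
    [DistribMulAction G X] (hirr : Irr G X) (hcard : Nat.card X = 8) : Odd (Nat.card (Im G X)) := by
  have hnt := hirr.nt
  have hsol : Group.IsSolvable (Im G X) := range_solvable
  rcases exists_qp (Im G X) X hirr.range range_faithful with h | ⟨K, i1, i2, i3, ⟨S⟩⟩
  · exfalso
    obtain ⟨M, W, hM, h1, h2, h3⟩ := h
    have D : Imp M W := ⟨h1, h2, h3⟩
    letI := resAct M (W ((1 : Im G X) : _ ⧸ M)) D.res_mem
    have hirr0 := D.irr_res hirr.range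
    have h6 : M.index ≠ 0 := index_ne_zero_of_finite
    have h7 : M.index ≠ 1 := by
      rw [Ne, index_eq_one]
      exact hM.1
    have hV : Nat.card (W ((1 : Im G X) : _ ⧸ M)) ^ M.index = 2 ^ 3 := by
      rw [← D.card_V, hcard]
      norm_num
    obtain ⟨i, hi, hi2⟩ := pow_eq_prime_pow Nat.prime_two h6 hV
    have hi1 : i = 1 := by
      have h8 : i ∣ 3 := Dvd.intro _ hi2
      rcases (Nat.dvd_prime Nat.prime_three).1 h8 with h9 | h9
      · exact h9
      · exfalso
        apply h7
        rw [h9] at hi2
        omega
    rw [hi1, pow_one] at hi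
    -- the unique nonzero vector of each component
    classical
    letI : Fintype (Im G X ⧸ M) := Fintype.ofFinite _
    have huniq : ∀ q, ∃ w ∈ W q, w ≠ 0 ∧ ∀ y ∈ W q, y ≠ 0 → y = w := by
      intro q
      have h8 : Nat.card (W q) = 2 := by rw [D.card_W, hi]
      obtain ⟨a, c, hac, huni⟩ := Nat.card_eq_two_iff.1 h8
      have h9 : ∀ y : W q, y = a ∨ y = c := by
        intro y
        have : y ∈ ({a, c} : Set (W q)) := by rw [huni]; exact Set.mem_univ y
        exact this
      rcases h9 0 with h0 | h0
      · refine ⟨c, c.2, fun h => hac ?_, fun y hy hy0 => ?_⟩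
        · rw [← h0]; exact Subtype.ext h.symm
        · rcases h9 ⟨y, hy⟩ with h | h
          · exfalso
            rw [← h0] at h
            exact hy0 (congrArg Subtype.val h)
          · exact congrArg Subtype.val h
      · refine ⟨a, a.2, fun h => hac ?_, fun y hy hy0 => ?_⟩
        · rw [← h0]; exact Subtype.ext h
        · rcases h9 ⟨y, hy⟩ with h | h
          · exact congrArg Subtype.val h
          · exfalso
            rw [← h0] at h
            exact hy0 (congrArg Subtype.val h)
    choose w hw hw0 hwu using huniq
    have hgw : ∀ (g : Im G X) q, g • w q = w (g • q) := by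
      intro g q
      refine hwu _ _ (D.smul_mem g (hw q)) ?_
      rw [Ne, smul_eq_zero_iff_eq]
      exact hw0 q
    set v : X := ∑ q, w q with hv
    have hgv : ∀ g : Im G X, g • v = v := by
      intro g
      rw [hv, Finset.smul_sum]
      refine Fintype.sum_equiv (MulAction.toPerm g) _ _ fun q => ?_
      exact hgw g q
    have hv0 : v ≠ 0 := by
      intro h
      exact hw0 _ (sum_unique D.ind hw h ((1 : Im G X) : _ ⧸ M))
    have hzm : ∀ (g : Im G X), ∀ x ∈ AddSubgroup.zmultiples v, g • x ∈ AddSubgroup.zmultiples v := by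
      rintro g _ ⟨z, rfl⟩
      change g • (z • v) ∈ _
      rw [smul_comm g z v, hgv]
      exact ⟨z, rfl⟩
    rcases hirr.range.irr _ hzm with h | h
    · exact hv0 (AddSubgroup.zmultiples_eq_bot.1 h)
    · obtain ⟨p, hp, hpx⟩ := hirr.exists_prime
      have h8 : addOrderOf v = 8 := by
        rw [← Nat.card_zmultiples, h, AddSubgroup.card_top, hcard]
      have h9 : addOrderOf v ∣ p := addOrderOf_dvd_of_nsmul_eq_zero (hpx v)
      rw [h8] at h9
      rcases (Nat.dvd_prime hp).1 h9 with h10 | h10
      · norm_num at h10
      · rw [← h10] at hp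
        norm_num at hp
  · have hq : Nat.card K ^ Module.finrank K X = 2 ^ 3 := by rw [← QP.card_V_eq, hcard]; norm_num
    have hm0 : Module.finrank K X ≠ 0 := (Module.finrank_pos (R := K) (M := X)).ne'
    obtain ⟨i, hi, hi2⟩ := pow_eq_prime_pow Nat.prime_two hm0 hq
    have hi13 : i = 1 ∨ i = 3 := (Nat.dvd_prime Nat.prime_three).1 (Dvd.intro _ hi2)
    have hs : S.s = 1 := by
      by_contra hne
      obtain ⟨p, hp, hps⟩ := Nat.exists_prime_and_dvd hne
      obtain ⟨h1, h2⟩ := S.prime_dvd hp hps
      have h3 : p ∣ 3 := h2.trans (Dvd.intro_left i hi2)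
      have h4 := (Nat.prime_dvd_prime_iff_eq hp Nat.prime_three).1 h3
      subst h4
      have h5 := h1.trans S.card_U_dvd
      rw [hi] at h5
      rcases hi13 with rfl | rfl <;> norm_num at h5
    have hE : S.E.relIndex S.A = 1 := by
      have h1 : S.E = S.A := le_antisymm S.E_le_A (by rw [S.eq_of_s_one hs]; exact S.U_le_E)
      rw [h1, relIndex_self]
    rw [S.card_G_eq, hs, hE, mul_one, mul_one]
    refine Odd.mul ?_ ?_
    · refine Odd.of_dvd_nat ?_ S.card_U_dvd
      rw [hi]
      rcases hi13 with rfl | rfl <;> decide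
    · refine Odd.of_dvd_nat ?_ (S.index_A_dvd Nat.prime_two hi)
      rcases hi13 with rfl | rfl <;> decide

/-- **Rigid sets in irreducible modules of solvable groups.** -/
theorem rig_of_irr {G X : Type u} [Group G] [Finite G] [Group.IsSolvable G] [AddCommGroup X] [Finite X]
    [DistribMulAction G X] (hirr : Irr G X) (h5 : 5 ≤ Nat.card X) : Rig G X := by
  obtain ⟨r, hr, hrx⟩ := hirr.exists_prime
  haveI : Fact r.Prime := ⟨hr⟩
  have hnt := hirr.nt
  obtain ⟨inst⟩ : Nonempty (Module (ZMod r) X) := ⟨AddCommGroup.zmodModule hrx⟩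
  obtain ⟨k, hk⟩ : ∃ k, Module.finrank (ZMod r) X = k := ⟨_, rfl⟩
  have b : Module.Basis (Fin k) (ZMod r) X := Module.finBasisOfFinrankEq (ZMod r) X hk
  have hcard := card_X b
  by_cases h4 : 4 ≤ k
  · obtain ⟨n, rfl⟩ : ∃ n, k = n + 4 := ⟨k - 4, by omega⟩
    exact rig_large G b
  have hk0 : k ≠ 0 := by
    rintro rfl
    rw [hcard, pow_zero] at h5
    omega
  obtain rfl | rfl | rfl : k = 1 ∨ k = 2 ∨ k = 3 := by omega
  · exact rig_one G b h5
  · refine rig_two G ?_ b
    rintro rfl
    rw [hcard] at h5
    norm_num at h5
  · by_cases hr2 : r = 2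
    · subst hr2
      exact rig_eight G b (odd_of_eight hirr (by rw [hcard]; norm_num))
    · exact rig_three G hr2 b

end Cfsg.Agent.H511.Wt
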