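import Mathlib
import Cfsg.Agent.H511.Wt.BaseTy

/-!
# From the quasi-primitive case to completely reducible groups
-/

set_option autoImplicit false
set_option linter.style.haveILetI false
set_option linter.unusedSectionVars false

namespace Cfsg.Agent.H511.Wt

open Subgroup
open scoped Pointwise commutatorElement

universe u v

theorem Ty.of_surjective {G G' V : Type*} [Group G] [Group G'] [AddCommGroup V] [DistribMulAction G V]
    [DistribMulAction G' V] {f : G →* G'} (hc : ∀ (g : G) (x : V), f g • x = g • x) (h : Ty G' V) : Ty G V := by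
  rcases h with h | ⟨h, h'⟩ | h | h
  · exact Or.inl (h.of_surjective hc)
  · exact Or.inr (Or.inl ⟨h.of_surjective hc, h'.of_surjective hc⟩)
  · exact Or.inr (Or.inr (Or.inl (h.of_surjective hc)))
  · exact Or.inr (Or.inr (Or.inr (h.of_surjective hc)))

theorem Ty.exists_wt {G V : Type*} [Group G] [AddCommGroup V] [DistribMulAction G V] (h : Ty G V) :
    ∃ x : V, Wtv G x 9 := by
  rcases h with ⟨v, _, h⟩ | ⟨⟨v, _, h⟩, _⟩ | ⟨v, _, h⟩ | ⟨v, _, h⟩
  all_goals exact ⟨v 0, (h 0).mono (by norm_num)⟩

/-- the component of a system of imprimitivity is smaller -/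
theorem Imp.card_lt {G V : Type*} [Group G] [Finite G] [AddCommGroup V] [Finite V] [DistribMulAction G V]
    {M : Subgroup G} (hM : IsCoatom M) {W : G ⧸ M → AddSubgroup V} (D : Imp M W) (hirr : Irr G V) :
    Nat.card (W ((1 : G) : G ⧸ M)) < Nat.card V := by
  letI := resAct M (W ((1 : G) : G ⧸ M)) D.res_mem
  have h1 := (D.irr_res hirr).nt
  have h2 : 1 < Nat.card (W ((1 : G) : G ⧸ M)) := Finite.one_lt_card
  have h3 : M.index ≠ 0 := index_ne_zero_of_finite
  have h4 : M.index ≠ 1 := by
    rw [Ne, index_eq_one]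
    exact hM.1
  rw [D.card_V]
  calc Nat.card (W ((1 : G) : G ⧸ M)) = Nat.card (W ((1 : G) : G ⧸ M)) ^ 1 := (pow_one _).symm
    _ < Nat.card (W ((1 : G) : G ⧸ M)) ^ M.index := Nat.pow_lt_pow_right h2 (by omega)

theorem ty_all (hcol : ColH.{u}) : ∀ (n : ℕ) (G V : Type u) [Group G] [Finite G] [Group.IsSolvable G]
    [AddCommGroup V] [Finite V] [DistribMulAction G V], Irr G V → Nat.card V = n → Ty G V := by
  intro n
  induction n using Nat.strong_induction_on with
  | _ n ih =>
    intro G V _ _ _ _ _ _ hirr hn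
    have hnt := hirr.nt
    have hsol : Group.IsSolvable (Im G V) := range_solvable
    have key : Ty (Im G V) V := by
      rcases exists_qp (Im G V) V hirr.range range_faithful with h | ⟨K, i1, i2, i3, ⟨S⟩⟩
      · obtain ⟨M, W, hM, h1, h2, h3⟩ := h
        have D : Imp M W := ⟨h1, h2, h3⟩
        letI := resAct M (W ((1 : Im G V) : _ ⧸ M)) D.res_mem
        refine ty_step hcol hM D ?_
        refine ih _ ?_ M _ (D.irr_res hirr.range) rfl
        rw [← hn]
        exact D.card_lt hM hirr.range
      · exact S.ty hirr.range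
    exact key.of_surjective (f := toIm G V) fun g x => rfl

/-- irreducible groups have a vector of weight at most nine -/
theorem irr_exists_wt (hcol : ColH.{v}) {G : Type u} {V : Type v} [Group G] [Finite G] [Group.IsSolvable G]
    [AddCommGroup V] [Finite V] [DistribMulAction G V] (hirr : Irr G V) : ∃ x : V, Wtv G x 9 := by
  have hsol : Group.IsSolvable (Im G V) := range_solvable
  obtain ⟨x, hx⟩ := (ty_all hcol _ (Im G V) V hirr.range rfl).exists_wt
  exact ⟨x, hx.of_surjective (f := toIm G V) fun g x => rfl⟩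

/-- the restricted action of the whole group -/
@[reducible] def resG {G V : Type*} [Group G] [AddCommGroup V] [DistribMulAction G V] (U : AddSubgroup V)
    (h : ∀ g : G, ∀ x ∈ U, g • x ∈ U) : DistribMulAction G U where
  smul m x := ⟨m • (x : V), h m x x.2⟩
  one_smul x := Subtype.ext (one_smul G (x : V))
  mul_smul a b x := Subtype.ext (mul_smul a b (x : V))
  smul_zero a := Subtype.ext (smul_zero a)
  smul_add a x y := Subtype.ext (smul_add a (x : V) (y : V))

/-- **From irreducible to completely reducible.** -/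
theorem cr_exists_wt {G : Type u} {V : Type v} [Group G] [AddCommGroup V] [Finite V] [DistribMulAction G V] {d : ℕ}
    (hirr : ∀ (U : AddSubgroup V) (hU : ∀ g : G, ∀ x ∈ U, g • x ∈ U),
      letI := resG U hU
      Irr G U → ∃ x : U, Wtv G x d)
    (hcr : ∀ U : AddSubgroup V, (∀ g : G, ∀ x ∈ U, g • x ∈ U) →
      ∃ U' : AddSubgroup V, (∀ g : G, ∀ x ∈ U', g • x ∈ U') ∧ U ⊓ U' = ⊥ ∧ U ⊔ U' = ⊤) :
    ∃ x : V, Wtv G x d := by
  have key : ∀ n, ∀ U : AddSubgroup V, (∀ g : G, ∀ x ∈ U, g • x ∈ U) → Nat.card U = n →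
      ∃ x ∈ U, ∀ g ∈ dser (MulAction.stabilizer G x) d, ∀ y ∈ U, g • y = y := by
    intro n
    induction n using Nat.strong_induction_on with
    | _ n ih =>
      intro U hU hn
      by_cases hbot : U = ⊥
      · refine ⟨0, U.zero_mem, fun g _ y hy => ?_⟩
        rw [hbot, AddSubgroup.mem_bot] at hy
        rw [hy, smul_zero]
      · -- a minimal invariant subgroup
        have hfinA : Finite (AddSubgroup V) := inferInstance
        obtain ⟨U₁, hU₁⟩ := (Set.toFinite {U₁ : AddSubgroup V | (∀ g : G, ∀ x ∈ U₁, g • x ∈ U₁) ∧ U₁ ≠ ⊥ ∧ U₁ ≤ U}).exists_minimal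
          ⟨U, hU, hbot, le_rfl⟩
        obtain ⟨⟨h1, h2, h3⟩, hmin⟩ := hU₁
        letI := resG U₁ h1
        have hI : Irr G U₁ := by
          refine ⟨(AddSubgroup.nontrivial_iff_ne_bot U₁).2 h2, ?_⟩
          intro Y hY
          by_cases hY0 : Y = ⊥
          · exact Or.inl hY0
          right
          have h4 : U₁ ≤ Y.map U₁.subtype := by
            refine hmin ⟨?_, ?_, ?_⟩ ?_
            · rintro g _ ⟨y, hy, rfl⟩
              exact ⟨_, hY g y hy, rfl⟩
            · rwa [Ne, AddSubgroup.map_eq_bot_iff_of_injective _ U₁.subtype_injective]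
            · rintro _ ⟨y, hy, rfl⟩
              exact h3 y.2
            · rintro _ ⟨y, hy, rfl⟩
              exact y.2
          rw [eq_top_iff]
          intro x _
          obtain ⟨y, hy, hyx⟩ := h4 x.2
          have : y = x := Subtype.ext hyx
          rwa [this] at hy
        obtain ⟨a, ha⟩ := hirr U₁ h1 hI
        obtain ⟨W, hW, hW1, hW2⟩ := hcr U₁ h1
        -- the complement in `U`
        have hUW : ∀ g : G, ∀ x ∈ U ⊓ W, g • x ∈ U ⊓ W := fun g x hx => ⟨hU g x hx.1, hW g x hx.2⟩
        have hlt : Nat.card (U ⊓ W : AddSubgroup V) < n := by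
          rw [← hn]
          have h5 : (U ⊓ W : AddSubgroup V) < U := by
            refine lt_of_le_of_ne inf_le_left fun h => ?_
            have h6 : U₁ ≤ W := h3.trans (by rw [← h]; exact inf_le_right)
            apply h2
            rw [eq_bot_iff, ← hW1]
            exact le_inf le_rfl h6
          exact Set.ncard_lt_ncard (s := ((U ⊓ W : AddSubgroup V) : Set V)) (t := (U : Set V)) h5 (Set.toFinite _)
        obtain ⟨b, hb, hb2⟩ := ih _ hlt (U ⊓ W) hUW rfl
        -- uniqueness of the decomposition
        have huniq : ∀ y z : V, y ∈ U₁ → z ∈ W → y + z = 0 → y = 0 ∧ z = 0 := by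
          intro y z hy hz h
          have h5 : y ∈ U₁ ⊓ W := by
            refine ⟨hy, ?_⟩
            have : y = -z := eq_neg_of_add_eq_zero_left h
            rw [this]
            exact W.neg_mem hz
          rw [hW1, AddSubgroup.mem_bot] at h5
          rw [h5, zero_add] at h
          exact ⟨h5, h⟩
        have hstab : ∀ g : G, g • ((a : V) + b) = (a : V) + b → g • (a : V) = a ∧ g • b = b := by
          intro g hg
          rw [smul_add] at hg
          have h5 := huniq (g • (a : V) - a) (g • b - b) (U₁.sub_mem (h1 g a a.2) a.2)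
            (W.sub_mem (hW g b hb.2) hb.2) (by
              calc g • (a : V) - a + (g • b - b) = (g • (a : V) + g • b) - (a + b) := by abel
                _ = 0 := by rw [hg, sub_self])
          exact ⟨sub_eq_zero.1 h5.1, sub_eq_zero.1 h5.2⟩
        refine ⟨(a : V) + b, U.add_mem (h3 a.2) hb.1, ?_⟩
        intro g hg y hy
        have hga : g ∈ dser (MulAction.stabilizer G a) d := by
          refine dser_mono ?_ d hg
          intro k hk
          exact Subtype.ext (hstab k hk).1
        have hgb : g ∈ dser (MulAction.stabilizer G b) d := by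
          refine dser_mono ?_ d hg
          intro k hk
          exact (hstab k hk).2
        have hyT : y ∈ U₁ ⊔ W := by rw [hW2]; exact AddSubgroup.mem_top y
        obtain ⟨y1, hy1, y2, hy2, rfl⟩ := AddSubgroup.mem_sup.1 hyT
        have hy2U : y2 ∈ U := by
          have : y2 = (y1 + y2) - y1 := by abel
          rw [this]
          exact U.sub_mem hy (h3 hy1)
        have e1 : g • y1 = y1 := congrArg Subtype.val (ha g hga ⟨y1, hy1⟩)
        have e2 : g • y2 = y2 := hb2 g hgb y2 ⟨hy2U, hy2⟩
        rw [smul_add, e1, e2]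
  obtain ⟨x, _, hx⟩ := key _ ⊤ (fun g x _ => AddSubgroup.mem_top _) rfl
  exact ⟨x, fun g hg y => hx g hg y (AddSubgroup.mem_top y)⟩

end Cfsg.Agent.H511.Wt
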