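import Mathlib
import Cfsg.Agent.H511.Wt.OddFx

/-!
# Quasi-primitive groups of odd order
-/

set_option autoImplicit false
set_option linter.style.haveILetI false
set_option linter.unusedSectionVars false
set_option exponentiation.threshold 2000

namespace Cfsg.Agent.H511.Wt

open Subgroup
open scoped Pointwise commutatorElement

universe u

theorem odd_im {G V : Type*} [Group G] [Finite G] [AddCommGroup V] [DistribMulAction G V]
    (hodd : Odd (Nat.card G)) : Odd (Nat.card (Im G V)) := by
  refine Odd.of_dvd_nat hodd ?_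
  have : Nat.card (Im G V) = (MulAction.toPermHom G V).ker.index := by rw [index_ker]
  rw [this]
  exact index_dvd_card _

theorem odd_sub {G : Type*} [Group G] [Finite G] (hodd : Odd (Nat.card G)) (H : Subgroup G) : Odd (Nat.card H) :=
  Odd.of_dvd_nat hodd (card_subgroup_dvd_card H)

namespace QP

variable {K V G : Type*} [Field K] [Finite K] [AddCommGroup V] [Module K V] [Finite V] [Nontrivial V]
    [Group G] [Finite G] [DistribMulAction G V] (S : QP K V G)

theorem odd_prime (hodd : Odd (Nat.card G)) {r : ℕ} (hr : r.Prime) (hd : r ∣ Nat.card S.U) : r ≠ 2 := by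
  rintro rfl
  have h1 := odd_sub hodd S.U
  rw [← Nat.not_even_iff_odd, even_iff_two_dvd] at h1
  exact h1 hd

end QP

/-- irreducible groups of odd order of small two-power dimension are abelian -/
theorem odd_dl {G V : Type u} [Group G] [Finite G] [Group.IsSolvable G] [AddCommGroup V] [Finite V]
    [DistribMulAction G V] (hodd : Odd (Nat.card G)) (hirr : Irr G V) {r j : ℕ} (hr : r.Prime)
    (hcard : Nat.card V = r ^ j) (hj : j ∣ 4) : DL G V 1 := by
  have hnt := hirr.nt
  have hsol : Group.IsSolvable (Im G V) := range_solvable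
  have hodd' : Odd (Nat.card (Im G V)) := odd_im hodd
  have hodd4 : ∀ k, k ∣ 4 → Odd k → k = 1 := by
    intro k hk hk2
    have h1 : k ≤ 4 := Nat.le_of_dvd (by norm_num) hk
    interval_cases k
    · norm_num at hk
    · rfl
    · exact absurd hk2 (by decide)
    · norm_num at hk
    · exact absurd hk2 (by decide)
  have hj0 : j ≠ 0 := by
    rintro rfl
    norm_num at hj
  rcases exists_qp (Im G V) V hirr.range range_faithful with h | ⟨K, i1, i2, i3, ⟨S⟩⟩
  · exfalso
    obtain ⟨M, W, hM, h1, h2, h3⟩ := h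
    have D : Imp M W := ⟨h1, h2, h3⟩
    have h6 : M.index ≠ 0 := index_ne_zero_of_finite
    obtain ⟨i, _, hi2⟩ := pow_eq_prime_pow (w := Nat.card (W ((1 : Im G V) : _ ⧸ M))) (k := M.index) (a := j)
      hr h6 (by rw [← hcard, D.card_V])
    have h7 : M.index ∣ 4 := (Dvd.intro_left i hi2).trans hj
    have h8 := hodd4 _ h7 (Odd.of_dvd_nat hodd' (index_dvd_card _))
    rw [index_eq_one] at h8
    exact hM.1 h8
  · have hq : Nat.card K ^ Module.finrank K V = r ^ j := by rw [← hcard]; exact QP.card_V_eq.symm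
    have hm0 : Module.finrank K V ≠ 0 := (Module.finrank_pos (R := K) (M := V)).ne'
    obtain ⟨i, hi, hi2⟩ := pow_eq_prime_pow hr hm0 hq
    have hi0 : i ≠ 0 := by
      rintro rfl
      rw [zero_mul] at hi2
      exact hj0 hi2.symm
    have hs : S.s = 1 := by
      by_contra hne
      obtain ⟨p, hp, hps⟩ := Nat.exists_prime_and_dvd hne
      obtain ⟨h1, h2⟩ := S.prime_dvd hp hps
      have h3 : p ∣ 2 ^ 2 := h2.trans ((Dvd.intro_left i hi2).trans hj)
      have h4 := (Nat.prime_dvd_prime_iff_eq hp Nat.prime_two).1 (hp.dvd_of_dvd_pow h3)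
      exact S.odd_prime hodd' hp h1 h4
    have hA : S.A.index = 1 := by
      refine hodd4 _ ?_ (Odd.of_dvd_nat hodd' (index_dvd_card _))
      exact (S.index_A_dvd hr hi).trans ((Dvd.intro _ hi2).trans hj)
    rw [index_eq_one] at hA
    have hAU := S.eq_of_s_one hs
    apply DL.of_range
    have h1 : dser (⊤ : Subgroup (Im G V)) 1 = ⊥ := dser_one_of_comm fun a _ b _ => by
      refine S.U_comm ?_ ?_
      · rw [← hAU, hA]; exact mem_top a
      · rw [← hAU, hA]; exact mem_top b
    intro g hg x
    rw [h1, mem_bot] at hg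
    rw [hg, one_smul]

/-- there are no irreducible groups of odd order on nine vectors -/
theorem odd_nine {G V : Type u} [Group G] [Finite G] [Group.IsSolvable G] [AddCommGroup V] [Finite V]
    [DistribMulAction G V] (hodd : Odd (Nat.card G)) (hirr : Irr G V) (hcard : Nat.card V = 9) : False := by
  have hnt := hirr.nt
  have hsol : Group.IsSolvable (Im G V) := range_solvable
  have hodd' : Odd (Nat.card (Im G V)) := odd_im hodd
  rcases exists_qp (Im G V) V hirr.range range_faithful with h | ⟨K, i1, i2, i3, ⟨S⟩⟩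
  · obtain ⟨M, W, hM, h1, h2, h3⟩ := h
    have D : Imp M W := ⟨h1, h2, h3⟩
    have h6 : M.index ≠ 0 := index_ne_zero_of_finite
    obtain ⟨i, _, hi2⟩ := pow_eq_prime_pow (w := Nat.card (W ((1 : Im G V) : _ ⧸ M))) (k := M.index) (a := 2)
      Nat.prime_three h6 (by rw [← D.card_V, hcard]; norm_num)
    have h7 : M.index ∣ 2 := Dvd.intro_left i hi2
    have h8 : Odd M.index := Odd.of_dvd_nat hodd' (index_dvd_card _)
    rcases (Nat.dvd_prime Nat.prime_two).1 h7 with h9 | h9
    · rw [index_eq_one] at h9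
      exact hM.1 h9
    · rw [h9] at h8
      exact absurd h8 (by decide)
  · have hq : Nat.card K ^ Module.finrank K V = 3 ^ 2 := by rw [← QP.card_V_eq, hcard]; norm_num
    have hm0 : Module.finrank K V ≠ 0 := (Module.finrank_pos (R := K) (M := V)).ne'
    obtain ⟨i, hi, hi2⟩ := pow_eq_prime_pow Nat.prime_three hm0 hq
    have hs : S.s = 1 := by
      by_contra hne
      obtain ⟨p, hp, hps⟩ := Nat.exists_prime_and_dvd hne
      obtain ⟨h1, h2⟩ := S.prime_dvd hp hps
      have h3 : p ∣ 2 := h2.trans (Dvd.intro_left i hi2)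
      have h4 := (Nat.prime_dvd_prime_iff_eq hp Nat.prime_two).1 h3
      exact S.odd_prime hodd' hp h1 h4
    have hi12 : i = 1 ∨ i = 2 := (Nat.dvd_prime Nat.prime_two).1 (Dvd.intro _ hi2)
    have hA : S.A.index = 1 := by
      have h1 := S.index_A_dvd Nat.prime_three hi
      have h2 : Odd S.A.index := Odd.of_dvd_nat hodd' (index_dvd_card _)
      rcases hi12 with rfl | rfl
      · exact Nat.dvd_one.1 h1
      · rcases (Nat.dvd_prime Nat.prime_two).1 h1 with h9 | h9
        · exact h9
        · rw [h9] at h2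
          exact absurd h2 (by decide)
    rw [index_eq_one] at hA
    have hAU := S.eq_of_s_one hs
    have hU : Nat.card S.U = 1 := by
      have h1 := S.card_U_dvd
      have h2 : Nat.card S.U ∣ 2 ^ 3 := by
        rcases hi12 with rfl | rfl
        · rw [hi] at h1
          exact h1.trans (by norm_num)
        · rw [hi] at h1
          exact h1.trans (by norm_num)
      obtain ⟨k, _, hk⟩ := (Nat.dvd_prime_pow Nat.prime_two).1 h2
      have h3 := odd_sub hodd' S.U
      rw [hk] at h3 ⊢
      rcases Nat.eq_zero_or_pos k with h4 | h4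
      · rw [h4, pow_zero]
      · exfalso
        rw [← Nat.not_even_iff_odd] at h3
        exact h3 (Nat.even_pow.2 ⟨even_two, h4.ne'⟩)
    have htriv : ∀ (g : Im G V) (x : V), g • x = x := by
      intro g x
      have h1 : g ∈ S.U := by rw [← hAU, hA]; exact mem_top g
      rw [card_eq_one] at hU
      rw [hU, mem_bot] at h1
      rw [h1, one_smul]
    obtain ⟨x, hx⟩ := exists_ne (0 : V)
    rcases hirr.range.irr (AddSubgroup.zmultiples x) (fun g y hy => by rwa [htriv]) with h | h
    · exact hx (AddSubgroup.zmultiples_eq_bot.1 h)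
    · obtain ⟨p, hp, hpx⟩ := hirr.exists_prime
      have h1 : addOrderOf x = 9 := by
        rw [← Nat.card_zmultiples, h, AddSubgroup.card_top, hcard]
      have h2 : addOrderOf x ∣ p := addOrderOf_dvd_of_nsmul_eq_zero (hpx x)
      rw [h1] at h2
      have h3 := (Nat.dvd_prime hp).1 h2
      rcases h3 with h3 | h3
      · norm_num at h3
      · rw [← h3] at hp
        norm_num at hp

/-- irreducible groups of odd order on `3^6` vectors -/
theorem odd_729 {G V : Type u} [Group G] [Finite G] [Group.IsSolvable G] [AddCommGroup V] [Finite V]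
    [DistribMulAction G V] (hodd : Odd (Nat.card G)) (hirr : Irr G V) (hcard : Nat.card V = 3 ^ 6) :
    Nat.card (Im G V) ≤ 6552 := by
  have hnt := hirr.nt
  have hsol : Group.IsSolvable (Im G V) := range_solvable
  have hodd' : Odd (Nat.card (Im G V)) := odd_im hodd
  rcases exists_qp (Im G V) V hirr.range range_faithful with h | ⟨K, i1, i2, i3, ⟨S⟩⟩
  · exfalso
    obtain ⟨M, W, hM, h1, h2, h3⟩ := h
    have D : Imp M W := ⟨h1, h2, h3⟩
    letI := resAct M (W ((1 : Im G V) : _ ⧸ M)) D.res_mem
    have h6 : M.index ≠ 0 := index_ne_zero_of_finite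
    obtain ⟨i, hi, hi2⟩ := pow_eq_prime_pow (w := Nat.card (W ((1 : Im G V) : _ ⧸ M))) (k := M.index) (a := 6)
      Nat.prime_three h6 (by rw [← hcard, D.card_V])
    have h7 : M.index ≤ 6 := Nat.le_of_dvd (by norm_num) (Dvd.intro_left i hi2)
    have h8 : Odd M.index := Odd.of_dvd_nat hodd' (index_dvd_card _)
    have h9 : M.index ≠ 1 := by
      rw [Ne, index_eq_one]
      exact hM.1
    have h10 : i = 2 := by
      generalize M.index = k at *
      interval_cases k
      · exact absurd rfl h6
      · exact absurd rfl h9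
      · exact absurd h8 (by decide)
      · omega
      · exact absurd h8 (by decide)
      · omega
      · exact absurd h8 (by decide)
    rw [h10] at hi
    exact odd_nine (odd_sub hodd' M) (D.irr_res hirr.range) (by rw [hi]; norm_num)
  · have hq : Nat.card K ^ Module.finrank K V = 3 ^ 6 := by rw [← QP.card_V_eq, hcard]
    have hm0 : Module.finrank K V ≠ 0 := (Module.finrank_pos (R := K) (M := V)).ne'
    obtain ⟨i, hi, hi2⟩ := pow_eq_prime_pow Nat.prime_three hm0 hq
    have hs : S.s = 1 := by
      by_contra hne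
      obtain ⟨p, hp, hps⟩ := Nat.exists_prime_and_dvd hne
      obtain ⟨h1, h2⟩ := S.prime_dvd hp hps
      have h3 : p ∣ 2 * 3 := h2.trans (Dvd.intro_left i hi2)
      have h5 := S.odd_prime hodd' hp h1
      rcases (Nat.Prime.dvd_mul hp).1 h3 with h4 | h4
      · exact h5 ((Nat.prime_dvd_prime_iff_eq hp Nat.prime_two).1 h4)
      · have h6 := (Nat.prime_dvd_prime_iff_eq hp Nat.prime_three).1 h4
        subst h6
        have h7 := h1.trans S.card_U_dvd
        have h8 : i ≠ 0 := by
          rintro rfl
          omega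
        have h9 : 3 ∣ Nat.card K := by rw [hi]; exact dvd_pow_self 3 h8
        have h10 : 1 < Nat.card K := Finite.one_lt_card
        omega
    have hE : S.E.relIndex S.A ≤ 1 := by
      have h1 : S.E = S.A := le_antisymm S.E_le_A (by rw [S.eq_of_s_one hs]; exact S.U_le_E)
      rw [h1, relIndex_self]
    have h1 := S.card_G_le hE
    rw [hs, mul_one, mul_one] at h1
    have h2 : Nat.card K ≤ 729 := by
      calc Nat.card K = Nat.card K ^ 1 := (pow_one _).symm
        _ ≤ Nat.card K ^ Module.finrank K V := Nat.pow_le_pow_right Nat.card_pos (by omega)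
        _ = 729 := by rw [hq]; norm_num
    have h3 : Nat.log 2 (Nat.card K) ≤ 9 := by
      have : Nat.log 2 (Nat.card K) < 10 := Nat.log_lt_of_lt_pow Nat.card_pos.ne' (by omega)
      omega
    calc Nat.card (Im G V) ≤ (Nat.card K - 1) * Nat.log 2 (Nat.card K) := h1
      _ ≤ 728 * 9 := Nat.mul_le_mul (by omega) h3
      _ = 6552 := by norm_num

/-- the numerical estimate for large `e` -/
theorem odd_num {e : ℕ} (he : 81 ≤ e) (h2 : ¬ 2 ∣ e) : e ^ (6 * om e + 9) ≤ 7 ^ (e - 6) := by
  have ho := odd_om (show e ≠ 0 by omega) h2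
  by_cases h : om e ≤ 4
  · calc e ^ (6 * om e + 9) ≤ e ^ 33 := Nat.pow_le_pow_right (by omega) (by omega)
      _ = 1 * e ^ 33 := (one_mul _).symm
      _ ≤ 7 ^ (e - 6) := growth (e₀ := 81) (by norm_num) (by norm_num) (by norm_num) (by norm_num) he
  · have key : ∀ a, 5 ≤ a → a * (6 * a + 9) ≤ 3 ^ a - 6 ∧ 6 * a + 9 ≤ 3 ^ a ∧ 6 ≤ 3 ^ a := by
      intro a ha
      induction ha with
      | refl => norm_num
      | @step a ha ih =>
        have ha' : 5 ≤ a := ha
        obtain ⟨h1, h3, h4⟩ := ih
        have h5 : 3 ^ (a + 1) = 3 * 3 ^ a := by ring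
        refine ⟨?_, ?_, ?_⟩
        · have h7 : (a + 1) * (6 * (a + 1) + 9) + 6 ≤ 3 * (a * (6 * a + 9) + 6) := by nlinarith
          change (a + 1) * (6 * (a + 1) + 9) ≤ 3 ^ (a + 1) - 6
          omega
        · omega
        · omega
    obtain ⟨h1, h3, h4⟩ := key (om e) (by omega)
    have h5 : 1 * e ^ (6 * om e + 9) ≤ 7 ^ (e - 6) := by
      refine growth (e₀ := 3 ^ om e) (by norm_num) h3 h4 ?_ ho
      rw [one_mul, ← pow_mul]
      calc 3 ^ (om e * (6 * om e + 9)) ≤ 7 ^ (om e * (6 * om e + 9)) := Nat.pow_le_pow_left (by norm_num) _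
        _ ≤ 7 ^ (3 ^ om e - 6) := Nat.pow_le_pow_right (by norm_num) h1
    rwa [one_mul] at h5

namespace QP

variable {K V G : Type u} [Field K] [Finite K] [AddCommGroup V] [Module K V] [Finite V] [Nontrivial V]
    [Group G] [Finite G] [DistribMulAction G V] (S : QP K V G)

include S in
/-- **Quasi-primitive groups of odd order.** -/
theorem odd_base [Group.IsSolvable G] (hodd : Odd (Nat.card G)) (hV2 : Odd (Nat.card V)) :
    ∃ v : V, Wtv G v 1 := by
  obtain ⟨e, he⟩ := S.exists_sq
  have hs0 := S.s_pos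
  have he0 : 0 < e := by
    rcases Nat.eq_zero_or_pos e with h | h
    · rw [h] at he
      norm_num at he
      omega
    · exact h
  set q := Nat.card K with hq
  set m := Module.finrank K V with hm
  have hq2 : 2 ≤ q := Finite.one_lt_card
  have hm0 : m ≠ 0 := (Module.finrank_pos (R := K) (M := V)).ne'
  have hV : Nat.card V = q ^ m := QP.card_V_eq
  have hqodd : Odd q := by
    rw [hV, Nat.odd_pow_iff hm0] at hV2
    exact hV2
  have hem : e ≤ m := by
    have h1 := S.s_le'
    rw [he] at h1
    exact (Nat.pow_le_pow_iff_left (by norm_num)).1 h1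
  have hUodd := odd_sub hodd S.U
  have h2q : 2 ∣ q - 1 := by
    obtain ⟨k, hk⟩ := hqodd
    exact ⟨k, by omega⟩
  have hprimes : ∀ r, r.Prime → r ∣ e → r ≠ 2 ∧ r ∣ q - 1 ∧ r ∣ m := by
    intro r hr hrs
    obtain ⟨h1, h2⟩ := S.prime_dvd hr (by rw [he, sq]; exact hrs.mul_left e)
    exact ⟨S.odd_prime hodd hr h1, h1.trans S.card_U_dvd, h2⟩
  have he2 : ¬ 2 ∣ e := fun h => (hprimes 2 Nat.prime_two h).1 rfl
  -- `|U| ≤ (q-1)/2`
  have hU2 : 2 * Nat.card S.U ≤ q - 1 := by
    have h1 : 2 * Nat.card S.U ∣ q - 1 := by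
      refine Nat.Coprime.mul_dvd_of_dvd_of_dvd ?_ h2q S.card_U_dvd
      exact (Nat.coprime_two_left).2 hUodd
    exact Nat.le_of_dvd (by omega) h1
  have hq7 : e ≠ 1 → 7 ≤ q := by
    intro he1
    obtain ⟨r, hr, hre⟩ := Nat.exists_prime_and_dvd he1
    obtain ⟨h1, h2, h3⟩ := hprimes r hr hre
    have h4 : 2 * r ∣ q - 1 := by
      refine Nat.Coprime.mul_dvd_of_dvd_of_dvd ?_ h2q h2
      exact (Nat.coprime_primes Nat.prime_two hr).2 (Ne.symm h1)
    have h5 := Nat.le_of_dvd (by omega) h4
    have h6 := hr.two_le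
    omega
  by_cases hE1 : dser (⊤ : Subgroup G) 1 ≤ S.E
  · -- a vector with trivial stabiliser in `E`
    have key : ∃ v : V, ∀ x ∈ S.E, x • v = v → x = 1 := by
      by_cases he1 : e = 1
      · have h1 : S.s = 1 := by rw [he, he1, one_pow]
        have h2 : S.E = S.U := by
          refine le_antisymm ?_ S.U_le_E
          rw [← S.eq_of_s_one h1]
          exact S.E_le_A
        obtain ⟨v, hv⟩ := exists_ne (0 : V)
        refine ⟨v, fun x hx hxv => ?_⟩
        by_contra hx1
        rw [h2] at hx
        exact hv (S.U_free hx hx1 hxv)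
      · have hq7' := hq7 he1
        have he3 : 3 ≤ e := by
          by_contra hlt
          have : e = 2 := by omega
          exact he2 (this ▸ dvd_rfl)
        have hcE : Nat.card S.E = Nat.card S.U * e ^ 2 := by
          rw [← he]
          have h2 := card_mul_index (S.U.subgroupOf S.E)
          rw [Nat.card_congr (subgroupOfEquivOfLe S.U_le_E).toEquiv] at h2
          exact h2.symm
        -- `|E|^3 ≤ |V|^2`
        have hbig : Nat.card S.E ^ 3 ≤ Nat.card V ^ 2 := by
          have h1 : (2 * Nat.card S.U) ^ 3 ≤ q ^ 3 := Nat.pow_le_pow_left (by omega) 3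
          have h2 : e ^ 6 ≤ 8 * 7 ^ (2 * e - 3) := by
            clear * - he3
            induction e, he3 using Nat.le_induction with
            | base => norm_num
            | succ e he ih =>
              have h3 : (e + 1) ^ 6 ≤ 49 * e ^ 6 := by
                have h4 : 3 * (e + 1) ≤ 4 * e := by omega
                have h5 : (3 * (e + 1)) ^ 6 ≤ (4 * e) ^ 6 := Nat.pow_le_pow_left h4 6
                rw [mul_pow, mul_pow] at h5
                norm_num at h5
                omega
              have h4 : 2 * (e + 1) - 3 = (2 * e - 3) + 2 := by omega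
              rw [h4, pow_add]
              calc (e + 1) ^ 6 ≤ 49 * e ^ 6 := h3
                _ ≤ 49 * (8 * 7 ^ (2 * e - 3)) := Nat.mul_le_mul_left _ ih
                _ = 8 * (7 ^ (2 * e - 3) * 7 ^ 2) := by ring
          have h3 : e ^ 6 ≤ 8 * q ^ (2 * e - 3) :=
            h2.trans (Nat.mul_le_mul_left _ (Nat.pow_le_pow_left hq7' _))
          have h4 : 8 * Nat.card S.E ^ 3 ≤ 8 * Nat.card V ^ 2 := by
            calc 8 * Nat.card S.E ^ 3 = (2 * Nat.card S.U) ^ 3 * e ^ 6 := by rw [hcE]; ring
              _ ≤ q ^ 3 * (8 * q ^ (2 * e - 3)) := Nat.mul_le_mul h1 h3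
              _ = 8 * q ^ (2 * e) := by
                have h5 : 2 * e = 3 + (2 * e - 3) := by omega
                rw [h5, pow_add, ← h5]
                ring
              _ ≤ 8 * q ^ (2 * m) := Nat.mul_le_mul_left _ (Nat.pow_le_pow_right (by omega) (by omega))
              _ = 8 * Nat.card V ^ 2 := by rw [hV, ← pow_mul, mul_comm m 2]
          omega
        refine exists_free S.E fun x hx hx1 => ?_
        have h1 : Nat.card (fx V x) ^ 3 ≤ Nat.card V := by
          by_cases hxU : x ∈ S.U
          · rw [S.fx_U hxU hx1, one_pow]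
            exact Nat.card_pos
          · exact S.fx_E_odd hodd hx hxU
        have h2 : (Nat.card (fx V x) * Nat.card S.E) ^ 3 ≤ Nat.card V ^ 3 := by
          calc (Nat.card (fx V x) * Nat.card S.E) ^ 3 = Nat.card (fx V x) ^ 3 * Nat.card S.E ^ 3 := mul_pow _ _ _
            _ ≤ Nat.card V * Nat.card V ^ 2 := Nat.mul_le_mul h1 hbig
            _ = Nat.card V ^ 3 := by ring
        exact (Nat.pow_le_pow_iff_left (by norm_num)).1 h2
    obtain ⟨v, hv⟩ := key
    refine ⟨v, fun g hg x => ?_⟩
    have h1 : g ∈ S.E := hE1 (dser_mono le_top 1 hg)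
    have h2 : g • v = v := dser_le _ 1 hg
    rw [hv g h1 h2, one_smul]
  · -- a chief factor with a nonabelian action
    obtain ⟨N, hN, hN1⟩ : ∃ N ∈ S.Mn, ¬ dser (⊤ : Subgroup G) 1 ≤ cenMod S.U N := by
      by_contra hcon
      push Not at hcon
      exact hE1 (S.dser_le_E le_rfl hcon)
    obtain ⟨X, i1, i2, i3, hXirr, hXc, hX⟩ := S.mn_mod hN
    have hXDL : ¬ DL G X 1 := by rwa [DL.iff_le hX]
    obtain ⟨hns, hn1⟩ := S.relIndex_mn hN
    rw [he] at hns
    obtain ⟨f, hf⟩ := S.mn_sq hN
    rw [hf] at hns hXc hn1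
    have hfe : f ∣ e := (Nat.pow_dvd_pow_iff (by norm_num)).1 hns
    have hf1 : f ≠ 1 := by
      rintro rfl
      norm_num at hn1
    have he1 : e ≠ 1 := by
      rintro rfl
      exact hf1 (Nat.dvd_one.1 hfe)
    have hq7' := hq7 he1
    -- `f` is a prime power
    obtain ⟨r, j, hr', hj0, hrj⟩ := hXirr.isPrimePow
    have hr := hr'.nat_prime
    rw [hXc] at hrj
    have hfr : ∃ k, f = r ^ k ∧ k * 2 = j := pow_eq_prime_pow hr (by norm_num) hrj.symm
    obtain ⟨k, hfk, hkj⟩ := hfr
    have hj4 : ¬ j ∣ 4 := fun h => hXDL (odd_dl hodd hXirr hr (by rw [hXc, hrj]) h)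
    have hk3 : 3 ≤ k := by
      by_contra hlt
      push Not at hlt
      have : k = 1 ∨ k = 2 := by omega
      rcases this with h | h
      · exact hj4 (by rw [← hkj, h]; norm_num)
      · exact hj4 (by rw [← hkj, h])
    have hre : r ∣ e := (by rw [hfk]; exact dvd_pow_self r (by omega) : r ∣ f).trans hfe
    have hr3 : 3 ≤ r := by
      have h1 := hr.two_le
      have h2 := (hprimes r hr hre).1
      omega
    have hcases : (e = 27 ∧ f = 27) ∨ 81 ≤ e := by
      by_cases h81 : 81 ≤ e
      · exact Or.inr h81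
      left
      have hfle : f ≤ e := Nat.le_of_dvd he0 hfe
      have hr4 : r = 3 := by
        by_contra hne
        have h4 : r ≠ 4 := by
          rintro rfl
          norm_num at hr
        have h5 : 5 ^ 3 ≤ r ^ k :=
          (Nat.pow_le_pow_left (by omega) 3).trans (Nat.pow_le_pow_right (by omega) hk3)
        rw [← hfk] at h5
        omega
      subst hr4
      have hk : k = 3 := by
        by_contra hne
        have h5 : 3 ^ 4 ≤ 3 ^ k := Nat.pow_le_pow_right (by norm_num) (by omega)
        rw [← hfk] at h5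
        omega
      rw [hk] at hfk
      norm_num at hfk
      rw [hfk] at hfe
      obtain ⟨c, hc⟩ := hfe
      refine ⟨?_, hfk⟩
      have : c ≠ 2 := by
        rintro rfl
        apply he2
        rw [hc]
        norm_num
      have : c ≠ 0 := by
        rintro rfl
        omega
      omega
    -- it is enough that `|G|^3 ≤ |V|`
    have fin : Nat.card G ^ 3 ≤ Nat.card V → ∃ v : V, Wtv G v 1 := by
      intro hG
      obtain ⟨v, hv⟩ := exists_free (V := V) (⊤ : Subgroup G) fun x _ hx1 => by
        have h1 := S.fx_le_odd hodd hx1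
        have h2 : (Nat.card (fx V x) * Nat.card (⊤ : Subgroup G)) ^ 3 ≤ Nat.card V ^ 3 := by
          rw [Subgroup.card_top]
          calc (Nat.card (fx V x) * Nat.card G) ^ 3 = Nat.card (fx V x) ^ 3 * Nat.card G ^ 3 := mul_pow _ _ _
            _ ≤ Nat.card V ^ 2 * Nat.card V := Nat.mul_le_mul h1 hG
            _ = Nat.card V ^ 3 := by ring
        exact (Nat.pow_le_pow_iff_left (by norm_num)).1 h2
      refine ⟨v, fun g hg x => ?_⟩
      rw [hv g (mem_top g) (dser_le _ 1 hg), one_smul]
    apply fin
    rcases hcases with ⟨h27, hf27⟩ | h81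
    · -- `e = 27`
      have h729 : Nat.card (Im G X) ≤ 6552 := odd_729 hodd hXirr (by rw [hXc, hf27]; norm_num)
      rw [card_im hX] at h729
      have hNE : N = S.E := by
        have h1 : S.U.relIndex N * N.relIndex S.E = S.s := relIndex_mul_relIndex _ _ _ hN.2.1.le (S.Mn_le_E hN)
        rw [hf, he, h27, hf27] at h1
        have h2 : N.relIndex S.E = 1 := by omega
        rw [relIndex_eq_one] at h2
        exact le_antisymm (S.Mn_le_E hN) h2
      have hEA : S.E.relIndex S.A ≤ 6552 := by
        have h1 : S.E.relIndex S.A = (cenMod S.U N).relIndex S.A := by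
          conv_lhs => rw [← S.cenMod_E_inf_A]
          rw [inf_relIndex_right, hNE]
        have hNn := hN.1
        have : (cenMod S.U N).Normal := by
          rw [cenMod]
          have : (N.map (QuotientGroup.mk' S.U)).Normal :=
            Normal.map inferInstance _ (QuotientGroup.mk'_surjective S.U)
          infer_instance
        rw [h1]
        refine (Nat.le_of_dvd ?_ (relIndex_dvd_index_of_normal _ _)).trans h729
        exact Nat.pos_of_ne_zero index_ne_zero_of_finite
      have hG : 2 * Nat.card G ≤ (q - 1) * 27 ^ 2 * 6552 * Nat.log 2 q := by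
        rw [S.card_G_eq, he, h27]
        calc 2 * (Nat.card S.U * 27 ^ 2 * S.E.relIndex S.A * S.A.index)
            = (2 * Nat.card S.U) * 27 ^ 2 * S.E.relIndex S.A * S.A.index := by ring
          _ ≤ (q - 1) * 27 ^ 2 * 6552 * Nat.log 2 q :=
            Nat.mul_le_mul (Nat.mul_le_mul (Nat.mul_le_mul_right _ hU2) hEA) S.index_A_le
      have hG9 : Nat.card G ≤ q ^ 9 := by
        by_cases h7 : q = 7
        · have h5 : Nat.log 2 7 = 2 := by rw [Nat.log_eq_iff] <;> norm_num
          rw [h7, h5] at hG
          rw [h7]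
          norm_num at hG ⊢
          omega
        · have h9 : 9 ≤ q := by
            obtain ⟨k, hk⟩ := hqodd
            omega
          have h1 : 9 ^ 7 ≤ q ^ 7 := Nat.pow_le_pow_left h9 7
          have h2 : 2 * Nat.card G ≤ 2 * q ^ 9 := by
            calc 2 * Nat.card G ≤ (q - 1) * 27 ^ 2 * 6552 * Nat.log 2 q := hG
              _ ≤ q * 27 ^ 2 * 6552 * q := Nat.mul_le_mul (Nat.mul_le_mul_right _ (Nat.mul_le_mul_right _ (Nat.sub_le _ _)))
                  (Nat.log_le_self 2 q)
              _ = q ^ 2 * (27 ^ 2 * 6552) := by ring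
              _ ≤ q ^ 2 * (2 * q ^ 7) := Nat.mul_le_mul_left _ (by norm_num at h1 ⊢; omega)
              _ = 2 * q ^ 9 := by ring
          omega
      rw [hV]
      calc Nat.card G ^ 3 ≤ (q ^ 9) ^ 3 := Nat.pow_le_pow_left hG9 3
        _ = q ^ 27 := by ring
        _ ≤ q ^ m := Nat.pow_le_pow_right (by omega) (by omega)
    · -- large `e`
      have hrel : S.E.relIndex S.A ≤ e ^ (2 * om e + 1) := by
        have h1 := S.relIndex_E_A
        rw [he, om_sq he0.ne'] at h1
        have h2 : (e ^ 2) ^ (2 * om e + 1) = (e ^ (2 * om e + 1)) ^ 2 := by ring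
        rw [h2] at h1
        exact (Nat.pow_le_pow_iff_left (by norm_num)).1 h1
      have hG := S.card_G_le hrel
      rw [he, ← hq] at hG
      have h1 := odd_num h81 he2
      rw [hV]
      calc Nat.card G ^ 3 ≤ ((q - 1) * e ^ 2 * e ^ (2 * om e + 1) * Nat.log 2 q) ^ 3 := Nat.pow_le_pow_left hG 3
        _ ≤ (q * e ^ 2 * e ^ (2 * om e + 1) * q) ^ 3 := Nat.pow_le_pow_left (Nat.mul_le_mul (Nat.mul_le_mul_right _
            (Nat.mul_le_mul_right _ (Nat.sub_le _ _))) (Nat.log_le_self 2 q)) 3
        _ = q ^ 6 * e ^ (6 * om e + 9) := by ring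
        _ ≤ q ^ 6 * q ^ (e - 6) := Nat.mul_le_mul_left _ (h1.trans (Nat.pow_le_pow_left hq7' _))
        _ = q ^ e := by
            rw [← pow_add]
            congr 1
            omega
        _ ≤ q ^ m := Nat.pow_le_pow_right (by omega) hem

end QP

end Cfsg.Agent.H511.Wt
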