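import Mathlib
import Cfsg.Agent.H511.Wt.OddBase
import Cfsg.Agent.H511.Wt.MainA
import Cfsg.Agent.H578.PermCol

/-!
# Groups of odd order
-/

set_option autoImplicit false
set_option linter.style.haveILetI false
set_option linter.unusedSectionVars false

namespace Cfsg.Agent.H511.Wt

open Subgroup
open scoped Pointwise commutatorElement

universe u v

theorem preprimitive_of_coatom {G : Type*} [Group G] {M : Subgroup G} (hM : IsCoatom M) :
    MulAction.IsPreprimitive G (G ⧸ M) := by
  have h1 : MulAction.stabilizer G ((1 : G) : G ⧸ M) = M := by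
    ext g
    rw [MulAction.mem_stabilizer_iff, MulAction.Quotient.smul_coe, smul_eq_mul, mul_one, eq_comm, QuotientGroup.eq]
    simp
  haveI : Nontrivial (G ⧸ M) := by
    rw [QuotientGroup.nontrivial_iff]
    exact hM.1
  refine (MulAction.isCoatom_stabilizer_iff_preprimitive G ((1 : G) : G ⧸ M)).1 ?_
  rw [h1]
  exact hM

theorem exists_ne_wt {G V : Type*} [Group G] [AddCommGroup V] [DistribMulAction G V] [Nontrivial V]
    (h : ∃ v : V, Wtv G v 1) : ∃ v : V, v ≠ 0 ∧ Wtv G v 1 := by
  obtain ⟨v, hv⟩ := h
  by_cases h0 : v = 0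
  · obtain ⟨w, hw⟩ := exists_ne (0 : V)
    refine ⟨w, hw, fun g hg x => hv g (dser_mono ?_ 1 hg) x⟩
    rw [h0]
    intro k _
    exact smul_zero k
  · exact ⟨v, h0, hv⟩

/-- `v` and `-v` are inequivalent under groups of odd order -/
theorem odd_neg {G V : Type*} [Group G] [Finite G] [AddCommGroup V] [Finite V] [DistribMulAction G V]
    (hodd : Odd (Nat.card G)) (hV : Odd (Nat.card V)) {v : V} (hv : v ≠ 0) (g : G) : g • v ≠ -v := by
  intro h
  have h2 : (g ^ 2) • v = v := by rw [pow_two, mul_smul, h, smul_neg, h, neg_neg]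
  have h3 : ∀ k : ℕ, (g ^ (2 * k)) • v = v := by
    intro k
    rw [pow_mul]
    have h4 : g ^ 2 ∈ MulAction.stabilizer G v := h2
    exact (MulAction.stabilizer G v).pow_mem h4 k
  obtain ⟨k, hk⟩ := hodd
  have h4 : g ^ (2 * k + 1) = 1 := by rw [← hk]; exact pow_card_eq_one'
  have h5 : g • v = v := by
    have h6 := h3 k
    calc g • v = g • (g ^ (2 * k)) • v := by rw [h6]
      _ = (g ^ (2 * k + 1)) • v := by rw [smul_smul, ← pow_succ']
      _ = v := by rw [h4, one_smul]
  rw [h5] at h
  -- `2 v = 0`
  have h6 : 2 • v = 0 := by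
    rw [two_nsmul]
    nth_rewrite 1 [h]
    exact neg_add_cancel v
  have h7 : addOrderOf v ∣ 2 := addOrderOf_dvd_of_nsmul_eq_zero h6
  have h8 : Odd (addOrderOf v) := Odd.of_dvd_nat hV (addOrderOf_dvd_natCard v)
  rcases (Nat.dvd_prime Nat.prime_two).1 h7 with h9 | h9
  · exact hv (AddMonoid.addOrderOf_eq_one_iff.1 h9)
  · rw [h9] at h8
    exact absurd h8 (by decide)

theorem odd_all : ∀ (n : ℕ) (G V : Type u) [Group G] [Finite G] [Group.IsSolvable G]
    [AddCommGroup V] [Finite V] [DistribMulAction G V], Odd (Nat.card G) → Odd (Nat.card V) → Irr G V →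
    Nat.card V = n → ∃ v : V, Wtv G v 1 := by
  intro n
  induction n using Nat.strong_induction_on with
  | _ n ih =>
    intro G V _ _ _ _ _ _ hodd hV hirr hn
    have hnt := hirr.nt
    have hsol : Group.IsSolvable (Im G V) := range_solvable
    have hodd' : Odd (Nat.card (Im G V)) := odd_im hodd
    have key : ∃ v : V, Wtv (Im G V) v 1 := by
      rcases exists_qp (Im G V) V hirr.range range_faithful with h | ⟨K, i1, i2, i3, ⟨S⟩⟩
      · obtain ⟨M, W, hM, h1, h2, h3⟩ := h
        have D : Imp M W := ⟨h1, h2, h3⟩
        letI := resAct M (W ((1 : Im G V) : _ ⧸ M)) D.res_mem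
        have hirr0 := D.irr_res hirr.range
        have hnt0 := hirr0.nt
        have hW : Odd (Nat.card (W ((1 : Im G V) : _ ⧸ M))) :=
          Odd.of_dvd_nat hV (AddSubgroup.card_addSubgroup_dvd_card _)
        have hlt : Nat.card (W ((1 : Im G V) : _ ⧸ M)) < n := by
          rw [← hn]
          exact D.card_lt hM hirr.range
        obtain ⟨w, hw0, hw⟩ := exists_ne_wt (ih _ hlt M _ (odd_sub hodd' M) hW hirr0 rfl)
        -- a rigid colouring
        obtain ⟨κ, hκ⟩ := Cfsg.Agent.H578.PermCol.prim_odd hodd' (preprimitive_of_coatom hM)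
        have hneg : Wtv M (-w) 1 := by
          intro g hg x
          refine hw g (dser_mono ?_ 1 hg) x
          intro k hk
          have h4 : k • (-w) = -w := hk
          rw [smul_neg, neg_inj] at h4
          exact h4
        have hlift : Orb (Im G V) V 1 1 := by
          refine D.lift (k := 2) (t := 1) (Dg := 1) ![w, -w] (fun _ => 1) ?_ ?_ (fun _ => κ) ?_ ?_
          · intro i j hij g
            fin_cases i <;> fin_cases j
            · exact absurd rfl hij
            · exact odd_neg (odd_sub hodd' M) hW hw0 g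
            · intro h
              have h4 : g • (-w) = w := h
              refine odd_neg (odd_sub hodd' M) hW hw0 g ?_
              rw [smul_neg] at h4
              exact neg_eq_iff_eq_neg.1 h4
            · exact absurd rfl hij
          · intro i
            fin_cases i
            · exact hw
            · exact hneg
          · intro a b hab
            exact absurd (Subsingleton.elim a b) hab
          · intro a i
            refine ⟨0, le_rfl, fun S hS g hg => ?_⟩
            exact hκ g (fun ω => hS g hg ω) i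
        obtain ⟨v, _, hv⟩ := hlift
        exact ⟨v 0, hv 0⟩
      · exact S.odd_base hodd' hV
    obtain ⟨v, hv⟩ := key
    exact ⟨v, hv.of_surjective (f := toIm G V) fun g x => rfl⟩

/-- irreducible groups of odd order have a vector with abelian stabiliser -/
theorem odd_exists_wt {G : Type u} {V : Type v} [Group G] [Finite G] [Group.IsSolvable G]
    [AddCommGroup V] [Finite V] [DistribMulAction G V] (hodd : Odd (Nat.card G)) (hV : Odd (Nat.card V))
    (hirr : Irr G V) : ∃ x : V, Wtv G x 1 := by
  have hsol : Group.IsSolvable (Im G V) := range_solvable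
  obtain ⟨x, hx⟩ := odd_all _ (Im G V) V (odd_im hodd) hV hirr.range rfl
  exact ⟨x, hx.of_surjective (f := toIm G V) fun g x => rfl⟩

end Cfsg.Agent.H511.Wt
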