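import Mathlib
import Cfsg.Agent.H511.Wt.OddMain

/-!
# Vector centralisers in completely reducible solvable linear groups
-/

set_option autoImplicit false
set_option linter.style.haveILetI false
set_option linter.unusedSectionVars false

namespace Cfsg.Agent.H511.Wt

open Subgroup
open scoped Pointwise commutatorElement

universe u v

theorem dser_eq_bot_of_wt {G V : Type*} [Group G] [AddCommGroup V] [DistribMulAction G V] [FaithfulSMul G V]
    {v : V} {d : ℕ} (h : Wtv G v d) : derivedSeries (MulAction.stabilizer G v) d = ⊥ := by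
  rw [← dser_eq_bot_iff, eq_bot_iff]
  intro g hg
  rw [mem_bot]
  apply FaithfulSMul.eq_of_smul_eq_smul (α := V)
  intro x
  rw [h g hg, one_smul]

theorem final (hcol : ColH.{v}) {G : Type u} {V : Type v} [Group G] [Finite G] [Group.IsSolvable G]
    {p : ℕ} [Fact p.Prime] [AddCommGroup V] [Module (ZMod p) V] [Finite V] [DistribMulAction G V] [FaithfulSMul G V]
    (hcr : ∀ W : Submodule (ZMod p) V, (∀ (g : G) (w : V), w ∈ W → g • w ∈ W) →
      ∃ W' : Submodule (ZMod p) V, (∀ (g : G) (w : V), w ∈ W' → g • w ∈ W') ∧ IsCompl W W') :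
    (∃ v : V, derivedSeries ↥(MulAction.stabilizer G v) 9 = ⊥) ∧
    (Odd (Nat.card G) → p ≠ 2 → ∃ v : V, IsMulCommutative ↥(MulAction.stabilizer G v)) := by
  have hcr' : ∀ U : AddSubgroup V, (∀ g : G, ∀ x ∈ U, g • x ∈ U) →
      ∃ U' : AddSubgroup V, (∀ g : G, ∀ x ∈ U', g • x ∈ U') ∧ U ⊓ U' = ⊥ ∧ U ⊔ U' = ⊤ := by
    intro U hU
    obtain ⟨W', h1, h2⟩ := hcr (AddSubgroup.toZModSubmodule p U) (fun g w hw => hU g w hw)
    refine ⟨W'.toAddSubgroup, fun g x hx => h1 g x hx, ?_, ?_⟩
    · rw [eq_bot_iff]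
      rintro x ⟨hx1, hx2⟩
      have h3 := (Submodule.disjoint_def.1 h2.disjoint) x hx1 hx2
      rw [h3]
      exact AddSubgroup.zero_mem _
    · rw [eq_top_iff]
      intro x _
      have h3 : x ∈ AddSubgroup.toZModSubmodule p U ⊔ W' := by
        rw [h2.sup_eq_top]
        exact Submodule.mem_top
      obtain ⟨a, ha, b, hb, rfl⟩ := Submodule.mem_sup.1 h3
      exact AddSubgroup.add_mem_sup ha hb
  constructor
  · obtain ⟨v, hv⟩ := cr_exists_wt (G := G) (V := V) (d := 9) (fun U hU => by
      letI := resG U hU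
      intro hirr
      exact irr_exists_wt hcol hirr) hcr'
    exact ⟨v, dser_eq_bot_of_wt hv⟩
  · intro hodd hp
    have hpp : p.Prime := Fact.out
    have hV : Odd (Nat.card V) := by
      have h1 := Module.natCard_eq_pow_finrank (K := ZMod p) (V := V)
      rw [h1, Nat.card_zmod]
      exact (hpp.odd_of_ne_two hp).pow
    obtain ⟨v, hv⟩ := cr_exists_wt (G := G) (V := V) (d := 1) (fun U hU => by
      letI := resG U hU
      intro hirr
      exact odd_exists_wt hodd (Odd.of_dvd_nat hV (AddSubgroup.card_addSubgroup_dvd_card U)) hirr) hcr'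
    refine ⟨v, ⟨⟨fun a b => ?_⟩⟩⟩
    have h1 := dser_eq_bot_of_wt hv
    have h2 : ⁅a, b⁆ ∈ derivedSeries (MulAction.stabilizer G v) 1 := by
      rw [derivedSeries_succ]
      exact commutator_mem_commutator (mem_top a) (mem_top b)
    rw [h1, mem_bot, commutatorElement_eq_one_iff_mul_comm] at h2
    exact h2

end Cfsg.Agent.H511.Wt
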