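import Mathlib
import Cfsg.Agent.H511.Wt.ColRig
import Cfsg.Agent.H511.Wt.Final
import Cfsg.Agent.H583.ColBig

/-!
# The colouring hypothesis holds
-/

set_option autoImplicit false
set_option linter.style.haveILetI false
set_option linter.unusedSectionVars false

namespace Cfsg.Agent.H511.Wt

open Subgroup
open scoped Pointwise commutatorElement

universe u

theorem col_two_three {G : Type u} [Group G] [Finite G] [Group.IsSolvable G] {M : Subgroup G} (hM : IsCoatom M)
    (h5 : 5 ≤ M.index) : Col M 2 3 := by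
  haveI hprim := preprimitive_of_coatom hM
  -- the image in the symmetric group
  let f : G →* (MulAction.toPermHom G (G ⧸ M)).range := (MulAction.toPermHom G (G ⧸ M)).rangeRestrict
  have hf : Function.Surjective f := (MulAction.toPermHom G (G ⧸ M)).rangeRestrict_surjective
  haveI : Group.IsSolvable (MulAction.toPermHom G (G ⧸ M)).range := Group.isSolvable_of_surjective hf
  haveI : Finite (MulAction.toPermHom G (G ⧸ M)).range := Finite.of_surjective _ hf
  have hsm : ∀ (g : G) (q : G ⧸ M), f g • q = g • q := fun g q => rfl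
  haveI : MulAction.IsPreprimitive (MulAction.toPermHom G (G ⧸ M)).range (G ⧸ M) := by
    let φ : (G ⧸ M) →ₑ[f] (G ⧸ M) :=
      { toFun := id
        map_smul' := fun g q => rfl }
    exact MulAction.IsPreprimitive.of_surjective (f := φ) (fun q => ⟨q, rfl⟩)
  obtain ⟨c, hc, hS⟩ := Cfsg.Agent.H583.Col.f2 (G := (MulAction.toPermHom G (G ⧸ M)).range) (Ω := G ⧸ M) h5
  refine ⟨c, ?_, ?_⟩
  · intro a b hab g h
    exact hc b a (Ne.symm hab) (f g) h
  · intro a S hSc g hg q
    have h1 : derivedSeries (S.map f) 3 = ⊥ := by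
      refine hS a (S.map f) ?_
      rintro _ ⟨s, hs, rfl⟩ q
      exact hSc s hs q
    rw [← dser_eq_bot_iff] at h1
    have h2 : f g ∈ dser (S.map f) 3 := by
      rw [← map_dser]
      exact ⟨g, hg, rfl⟩
    rw [h1, mem_bot] at h2
    rw [← hsm, h2, one_smul]

theorem colH : ColH.{u} := by
  intro G _ _ _ M hM h5
  refine ⟨col_two_three hM h5, ?_⟩
  obtain ⟨X, i1, i2, i3, φ, δ, hirr, h1, h2⟩ := exists_aff hM
  have hcard : Nat.card X = M.index := Nat.card_congr φ
  exact col_of_rig φ δ h1 h2 (rig_of_irr hirr (by omega))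

end Cfsg.Agent.H511.Wt
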